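import Cfsg.Agent.Perm.MultiHE
import Cfsg.Agent.GW.LiftC

/-! M. Hall's theorem, odd degree: a `4`-transitive group of odd degree `≥ 9` whose `4`-point
stabilisers have odd order has degree `11` (via the Brauer-Wielandt formula). (helper52) -/

set_option autoImplicit false
set_option linter.unusedSectionVars false

namespace Cfsg.Lib.Perm.Hall4

open MulAction Equiv Cfsg.Lib.Trans Cfsg.Lib.GW Cfsg.Lib.Known Subgroup

variable {G α : Type*} [Group G] [MulAction G α] [Finite G] [Fintype α] [DecidableEq α]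

theorem card_le_of_conj {S T : Subgroup G} (g : G) (h : ∀ s ∈ S, g * s * g⁻¹ ∈ T) :
    Nat.card S ≤ Nat.card T :=
  Nat.card_le_card_of_injective (fun s : S => (⟨g * s * g⁻¹, h s s.2⟩ : T)) fun a b e =>
    Subtype.ext (by simpa using congrArg Subtype.val e)

/-- Four distinct points as an embedding. -/
def emb4 {a b c d : α} (h : [a, b, c, d].Nodup) : Fin 4 ↪ α :=
  ⟨![a, b, c, d], fun i j e => by
    simp only [List.nodup_cons, List.mem_cons, List.not_mem_nil, not_or] at h
    fin_cases i <;> fin_cases j <;> simp_all [eq_comm]⟩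

theorem four_map (htr : IsMultiplyPretransitive G α 4) {a b c d a' b' c' d' : α}
    (h : [a, b, c, d].Nodup) (h' : [a', b', c', d'].Nodup) :
    ∃ g : G, g • a = a' ∧ g • b = b' ∧ g • c = c' ∧ g • d = d' := by
  obtain ⟨g, hg⟩ := htr.exists_smul_eq (emb4 h) (emb4 h')
  exact ⟨g, DFunLike.congr_fun hg 0, DFunLike.congr_fun hg 1, DFunLike.congr_fun hg 2,
    DFunLike.congr_fun hg 3⟩

theorem card4 {a b c d : α} (h : [a, b, c, d].Nodup) : ({a, b, c, d} : Finset α).card = 4 := by
  have := List.toFinset_card_of_nodup h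
  simpa using this

theorem conj_smul (g t : G) (x : α) : (g * t * g⁻¹) • g • x = g • t • x := by
  rw [mul_smul, mul_smul, inv_smul_smul]

theorem pair_conj (htr : IsMultiplyPretransitive G α 4) (hodd : KOdd G α 4) {t t' : G}
    {x y x' y' : α} (ht : t * t = 1) (ht' : t' * t' = 1) (h : [x, t • x, y, t • y].Nodup)
    (h' : [x', t' • x', y', t' • y'].Nodup) :
    ∃ g : G, g • x = x' ∧ g • y = y' ∧ g * t * g⁻¹ = t' := by
  obtain ⟨g, h1, h2, h3, h4⟩ := four_map htr h h'
  have htt : ∀ z : α, t • t • z = z := fun z => by rw [← mul_smul, ht, one_smul]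
  have htt' : ∀ z : α, t' • t' • z = z := fun z => by rw [← mul_smul, ht', one_smul]
  obtain ⟨d, hd, hc, -⟩ := hodd.exists_conj (card4 h') (a := g * t * g⁻¹) (b := t')
    (by rw [conj_mul, ht]; group) ht' (by
      intro z hz
      simp only [Finset.mem_insert, Finset.mem_singleton] at hz
      rcases hz with rfl | rfl | rfl | rfl
      · nth_rewrite 1 [← h1]; rw [conj_smul, h2]
      · nth_rewrite 1 [← h2]; rw [conj_smul, htt, htt', h1]
      · nth_rewrite 1 [← h3]; rw [conj_smul, h4]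
      · nth_rewrite 1 [← h4]; rw [conj_smul, htt, htt', h3])
  refine ⟨d * g, ?_, ?_, ?_⟩
  · rw [mul_smul, h1, hd _ (by simp)]
  · rw [mul_smul, h3, hd _ (by simp)]
  · rw [← hc]; group

theorem frame_conj (htr : IsMultiplyPretransitive G α 4) (hodd : KOdd G α 4) {a b a' b' : G}
    {x x' : α} (h : IsFourPair a b) (h' : IsFourPair a' b') (hx : [x, a • x, b • x, a • b • x].Nodup)
    (hx' : [x', a' • x', b' • x', a' • b' • x'].Nodup) :
    ∃ g : G, g • x = x' ∧ g * a * g⁻¹ = a' ∧ g * b * g⁻¹ = b' := by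
  obtain ⟨g, h1, h2, h3⟩ := pair_conj htr hodd h.sq_a h'.sq_a hx hx'
  have hb : ∀ z : α, b • b • z = z := fun z => by rw [← mul_smul, h.sq_b, one_smul]
  have hb' : ∀ z : α, b' • b' • z = z := fun z => by rw [← mul_smul, h'.sq_b, one_smul]
  have hc : Commute (g * b * g⁻¹) a' := by
    rw [← h3, Commute, SemiconjBy, conj_mul, conj_mul, h.comm]
  have hc' : Commute b' a' := h'.comm
  have e1 : (g * b * g⁻¹) • x' = b' • x' := by nth_rewrite 1 [← h1]; rw [conj_smul, h2]
  have e2 : (g * b * g⁻¹) • b' • x' = b' • b' • x' := by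
    nth_rewrite 1 [← h2]; rw [conj_smul, hb, hb', h1]
  obtain ⟨d, hd, hd1, hd2⟩ := hodd.exists_conj (card4 hx') (a := g * b * g⁻¹) (b := b')
    (by rw [conj_mul, h.sq_b]; group) h'.sq_b (by
      intro z hz
      simp only [Finset.mem_insert, Finset.mem_singleton] at hz
      rcases hz with rfl | rfl | rfl | rfl
      · exact e1
      · rw [← mul_smul, hc.eq, mul_smul, e1, ← mul_smul b', hc'.eq, mul_smul]
      · exact e2
      · rw [← mul_smul, hc.eq, mul_smul, e2, ← mul_smul b' a', hc'.eq, mul_smul])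
  refine ⟨d * g, ?_, ?_, ?_⟩
  · rw [mul_smul, h1, hd _ (by simp)]
  · rw [show d * g * a * (d * g)⁻¹ = d * (g * a * g⁻¹) * d⁻¹ by group, h3, (hd2 a' hc hc').eq]; group
  · rw [← hd1]; group

theorem c1_conj {g s t t' : G} (h : g * t * g⁻¹ = t') (hs : s ∈ C1 t) : g * s * g⁻¹ ∈ C1 t' := by
  rw [mem_centralizer_singleton_iff] at hs ⊢
  rw [← h, conj_mul, conj_mul, hs]

theorem stab_conj {g s : G} {x x' : α} (h : g • x = x') (hs : s ∈ stabilizer G x) :
    g * s * g⁻¹ ∈ stabilizer G x' := by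
  rw [mem_stabilizer_iff] at hs ⊢
  rw [← h, conj_smul, hs]

/-- Centraliser of `t` fixing two points. -/
abbrev Lf (t : G) (x y : α) : Subgroup G := C1 t ⊓ stabilizer G x ⊓ stabilizer G y

/-- Centraliser of `t` fixing a point and all fixed points of `t`. -/
abbrev Kf (t : G) (x : α) : Subgroup G := C1 t ⊓ stabilizer G x ⊓ fixF G (fixFin α t)

/-- Centraliser of `a, b` fixing a point. -/
abbrev Of (a b : G) (x : α) : Subgroup G := C1 a ⊓ C1 b ⊓ stabilizer G x

section

variable (htr : IsMultiplyPretransitive G α 4) (hodd : KOdd G α 4) {t t' : G}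
    {x y x' y' : α} (ht : t * t = 1) (ht' : t' * t' = 1) (h : [x, t • x, y, t • y].Nodup)
    (h' : [x', t' • x', y', t' • y'].Nodup)

include htr hodd ht ht' h h'

theorem le_Lf : Nat.card (Lf t x y) ≤ Nat.card (Lf t' x' y') := by
  obtain ⟨g, h1, h2, h3⟩ := pair_conj htr hodd ht ht' h h'
  exact card_le_of_conj g fun s hs => ⟨⟨c1_conj h3 hs.1.1, stab_conj h1 hs.1.2⟩, stab_conj h2 hs.2⟩

theorem card_Lf : Nat.card (Lf t x y) = Nat.card (Lf t' x' y') :=
  le_antisymm (le_Lf htr hodd ht ht' h h') (le_Lf htr hodd ht' ht h' h)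

theorem le_Kf : Nat.card (Kf t x) ≤ Nat.card (Kf t' x') := by
  obtain ⟨g, h1, -, h3⟩ := pair_conj htr hodd ht ht' h h'
  refine card_le_of_conj g fun s hs => ⟨⟨c1_conj h3 hs.1.1, stab_conj h1 hs.1.2⟩,
    mem_fixF.2 fun z hz => ?_⟩
  rw [mem_fixFin, ← h3, mul_smul, mul_smul, smul_eq_iff_eq_inv_smul] at hz
  rw [mul_smul, mul_smul, mem_fixF.1 hs.2 _ (mem_fixFin.2 hz), smul_inv_smul]

theorem card_Kf : Nat.card (Kf t x) = Nat.card (Kf t' x') :=
  le_antisymm (le_Kf htr hodd ht ht' h h') (le_Kf htr hodd ht' ht h' h)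

theorem le_fix : (fixFin α t).card ≤ (fixFin α t').card := by
  obtain ⟨g, -, -, h3⟩ := pair_conj htr hodd ht ht' h h'
  refine Finset.card_le_card_of_injOn (g • ·) (fun z hz => ?_) (MulAction.injective g).injOn
  rw [Finset.mem_coe, mem_fixFin] at hz ⊢
  rw [← h3, conj_smul, hz]

end

theorem card_Of (htr : IsMultiplyPretransitive G α 4) (hodd : KOdd G α 4) {a b : G}
    {x x' : α} (h : IsFourPair a b) (hx : [x, a • x, b • x, a • b • x].Nodup)
    (hx' : [x', a • x', b • x', a • b • x'].Nodup) : Nat.card (Of a b x) = Nat.card (Of a b x') := by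
  have key : ∀ x x' : α, [x, a • x, b • x, a • b • x].Nodup → [x', a • x', b • x', a • b • x'].Nodup →
      Nat.card (Of a b x) ≤ Nat.card (Of a b x') := by
    intro x x' hx hx'
    obtain ⟨g, h1, h2, h3⟩ := frame_conj htr hodd h h hx hx'
    exact card_le_of_conj g fun s hs => ⟨⟨c1_conj h2 hs.1.1, c1_conj h3 hs.1.2⟩, stab_conj h1 hs.2⟩
  exact le_antisymm (key _ _ hx hx') (key _ _ hx' hx)

theorem c1_smul {s t : G} (hs : s ∈ C1 t) (x : α) : s • t • x = t • s • x := by
  rw [← mul_smul, mem_centralizer_singleton_iff.1 hs, mul_smul]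

theorem mem_norm {s : Finset α} {g : G} (hg : ∀ x ∈ s, g • x ∈ s) :
    g ∈ normalizer (fixF G s : Set G) := by
  rw [← cj_eq_self_iff, cj_fixF, Finset.eq_of_subset_of_card_le (s := s.image (g • ·)) (t := s)
    (fun w hw => by obtain ⟨γ, hγ, rfl⟩ := Finset.mem_image.1 hw; exact hg γ hγ)
    (by rw [Finset.card_image_of_injective _ (MulAction.injective g)])]

theorem odd_fix (hodd : KOdd G α 4) {s : Finset α} (hs : s.card = 4) : Odd (Nat.card (fixF G s)) :=
  odd_card_of_forall_odd_orderOf _ fun g hg => hodd g s hs (mem_fixF.1 hg)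

/-- An element of odd order cannot interchange two points. -/
theorem fix_of_odd {g : G} (hg : Odd (orderOf g)) {x : α} (h : g • g • x = x) : g • x = x := by
  obtain ⟨k, hk⟩ := hg
  have h1 : (g ^ 2) ^ k • x = x :=
    mem_stabilizer_iff.1 (pow_mem (show g ^ 2 ∈ stabilizer G x by rw [mem_stabilizer_iff, sq, mul_smul, h]) k)
  have h2 := pow_orderOf_eq_one g
  rw [hk, pow_succ', pow_mul] at h2
  rw [← h1, ← mul_smul, h2, one_smul, h1]

/-- The regular-orbit side of the Brauer-Wielandt count. -/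
theorem bw_reg (htr : IsMultiplyPretransitive G α 4) (hodd : KOdd G α 4) {a b : G} {x : α}
    (h : IsFourPair a b) (hx : [x, a • x, b • x, a • b • x].Nodup) :
    Nat.card (fixF G ({x, a • x, b • x, a • b • x} : Finset α)) * Nat.card (Of a b x) ^ 2 =
      Nat.card (Lf a x (b • x)) ^ 3 := by
  have ha : ∀ z : α, a • a • z = z := fun z => by rw [← mul_smul, h.sq_a, one_smul]
  have hb : ∀ z : α, b • b • z = z := fun z => by rw [← mul_smul, h.sq_b, one_smul]
  have hab : ∀ z : α, b • a • z = a • b • z := fun z => by rw [← mul_smul, h.comm, mul_smul]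
  have key := LiftB.brauer_wielandt (odd_fix hodd (card4 hx)) h
    (mem_norm (by simp [ha])) (mem_norm (by simp [hb, hab]))
  have hs : (a * b) * (a * b) = 1 := by
    rw [mul_assoc, ← mul_assoc b, h.comm, mul_assoc, h.sq_b, mul_one, h.sq_a]
  have e0 : fixF G ({x, a • x, b • x, a • b • x} : Finset α) ⊓ C1 a ⊓ C1 b = Of a b x := by
    ext g
    simp only [mem_inf, mem_fixF, Finset.mem_insert, Finset.mem_singleton, forall_eq_or_imp, forall_eq,
      mem_stabilizer_iff]
    constructor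
    · tauto
    · rintro ⟨⟨h1, h2⟩, h3⟩
      simp only [c1_smul h1, c1_smul h2, h3]
      tauto
  have e1 : fixF G ({x, a • x, b • x, a • b • x} : Finset α) ⊓ C1 a = Lf a x (b • x) := by
    ext g
    simp only [mem_inf, mem_fixF, Finset.mem_insert, Finset.mem_singleton, forall_eq_or_imp, forall_eq,
      mem_stabilizer_iff]
    constructor
    · tauto
    · rintro ⟨⟨h1, h2⟩, h3⟩
      simp only [c1_smul h1, h2, h3]
      tauto
  have e2 : fixF G ({x, a • x, b • x, a • b • x} : Finset α) ⊓ C1 b = Lf b x (a • x) := by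
    ext g
    simp only [mem_inf, mem_fixF, Finset.mem_insert, Finset.mem_singleton, forall_eq_or_imp, forall_eq,
      mem_stabilizer_iff]
    constructor
    · tauto
    · rintro ⟨⟨h1, h2⟩, h3⟩
      simp only [← hab, c1_smul h1, h2, h3]
      tauto
  have e3 : fixF G ({x, a • x, b • x, a • b • x} : Finset α) ⊓ C1 (a * b) = Lf (a * b) x (a • x) := by
    ext g
    simp only [mem_inf, mem_fixF, Finset.mem_insert, Finset.mem_singleton, forall_eq_or_imp, forall_eq,
      mem_stabilizer_iff]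
    constructor
    · tauto
    · rintro ⟨⟨h1, h2⟩, h3⟩
      have f1 := c1_smul h1 x
      have f2 := c1_smul h1 (a • x)
      rw [h2, mul_smul] at f1
      rw [h3, mul_smul, hab, ha] at f2
      tauto
  rw [e0, e1, e2, e3] at key
  simp only [List.nodup_cons, List.mem_cons, List.not_mem_nil, not_or, List.nodup_nil] at hx
  rw [key, ← card_Lf htr hodd h.sq_a h.sq_b (x := x) (y := b • x) (x' := x) (y' := a • x)
      (by simp [hx]) (by simp [hab, hx, Ne.symm, eq_comm]),
    ← card_Lf htr hodd h.sq_a hs (x := x) (y := b • x) (x' := x) (y' := a • x)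
      (by simp [hx]) (by simp [mul_smul, hab, ha, hx, Ne.symm, eq_comm])]
  ring

theorem mem_three {F : Finset α} (hF : F.card < 4) {u v p z : α} (hu : u ∈ F) (hv : v ∈ F)
    (hp : p ∈ F) (huv : u ≠ v) (hup : u ≠ p) (hvp : v ≠ p) (hz : z ∈ F) : z = u ∨ z = v ∨ z = p := by
  by_contra hc
  push Not at hc
  have h : ({z, u, v, p} : Finset α) ⊆ F := by
    intro y hy
    simp only [Finset.mem_insert, Finset.mem_singleton] at hy
    rcases hy with rfl | rfl | rfl | rfl <;> assumption
  have := Finset.card_le_card h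
  rw [card4 (by simp [hc, huv, hup, hvp])] at this
  omega

theorem c1_fix {s t : G} (hs : s ∈ C1 t) {z : α} (hz : z ∈ fixFin α t) : s • z ∈ fixFin α t := by
  rw [mem_fixFin] at hz ⊢
  rw [← c1_smul hs, hz]

theorem main [FaithfulSMul G α] (htr : IsMultiplyPretransitive G α 4) (hodd : KOdd G α 4)
    (hn : 9 ≤ Fintype.card α) (hpar : Odd (Fintype.card α)) :
    Fintype.card α = 11 ∧ ∃ s : Finset α, s.card = 4 ∧ ∃ l : ℕ, Nat.card (fixF G s) = l ^ 3 := by
  have hkn : 4 ≤ Nat.card α := by rw [Nat.card_eq_fintype_card]; omega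
  obtain ⟨w, h, j, hw, hR⟩ : ∃ (w : G) (h j : α), w * w = 1 ∧ [h, w • h, j, w • j].Nodup := by
    obtain ⟨f⟩ : Nonempty (Fin 4 ↪ α) := Function.Embedding.nonempty_of_card_le (by simp; omega)
    have h1 : [f 0, f 1, f 2, f 3].Nodup := by simp
    have h2 : [f 1, f 0, f 3, f 2].Nodup := by simp
    obtain ⟨g, g1, g2, g3, g4⟩ := four_map htr h1 h2
    obtain ⟨t, ht, htg, -⟩ := hodd.exists_invol (card4 h1).ge (g := g) (by simp [g1, g2, g3, g4])
    refine ⟨t, f 0, f 2, ht, ?_⟩
    rw [htg _ (by simp), htg _ (by simp), g1, g3]; exact h1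
  have ww : ∀ z : α, w • w • z = z := fun z => by rw [← mul_smul, hw, one_smul]
  set R : Finset α := {h, w • h, j, w • j} with hRdef
  have hR4 : R.card = 4 := card4 hR
  obtain ⟨e, he, heR, hew⟩ := hodd.exists_invol_swap_commute htr hkn hR4 (z := j) hw
    (by simp [hRdef, ww]) (by simp [hRdef])
  have ee : ∀ z : α, e • e • z = z := fun z => by rw [← mul_smul, he, one_smul]
  have we : ∀ z : α, w • e • z = e • w • z := fun z => by rw [← mul_smul, ← hew.eq, mul_smul]
  have hR' := hR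
  simp only [List.nodup_cons, List.mem_cons, List.not_mem_nil, not_or, List.nodup_nil] at hR'
  obtain ⟨⟨n1, n2, n3, -⟩, ⟨n4, n5, -⟩, ⟨n6, -⟩, -⟩ := hR'
  have eh : e • h = h := by rw [heR h (by simp [hRdef]), swap_apply_of_ne_of_ne n2 n3]
  have ei : e • w • h = w • h := by rw [← we, eh]
  have ej : e • j = w • j := by rw [heR j (by simp [hRdef]), swap_apply_left]
  have ek : e • w • j = j := by rw [← ej, ee]
  have he1 : e ≠ 1 := fun h1 => n6 (by rw [← ej, h1, one_smul])
  have hw1 : w ≠ 1 := fun h1 => n6 (by rw [h1, one_smul])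
  have hew2 : e * w * (e * w) = 1 := by
    rw [mul_assoc, ← mul_assoc w, ← hew.eq, mul_assoc, hw, mul_one, he]
  have hew1 : e * w ≠ 1 := fun h1 => n1 (by rw [← ei, ← mul_smul, h1, one_smul])
  have hV : IsFourPair e w := ⟨he, hw, hew.eq.symm, he1, hw1, fun h1 => n1 (by rw [← h1, eh])⟩
  have fe := hodd.card_fixFin_lt he he1
  have fw := hodd.card_fixFin_lt hw hw1
  have fe' := hodd.card_fixFin_lt hew2 hew1
  have mh : h ∈ fixFin α e := mem_fixFin.2 eh
  have mi : w • h ∈ fixFin α e := mem_fixFin.2 ei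
  have mj : j ∈ fixFin α (e * w) := mem_fixFin.2 (by rw [mul_smul, ek])
  have mk : w • j ∈ fixFin α (e * w) := mem_fixFin.2 (by rw [mul_smul, ww, ej])
  have fe3 : 3 ≤ (fixFin α e).card := by
    have h1 := card_fixFin_modEq (α := α) he
    have h2 : ({h, w • h} : Finset α) ⊆ fixFin α e := by
      intro y hy
      simp only [Finset.mem_insert, Finset.mem_singleton] at hy
      rcases hy with rfl | rfl <;> assumption
    have h3 := Finset.card_le_card h2
    rw [Finset.card_pair n1] at h3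
    obtain ⟨k, hk⟩ := hpar
    unfold Nat.ModEq at h1
    omega
  obtain ⟨p, mp, hp⟩ := Finset.exists_mem_notMem_of_card_lt_card (s := {h, w • h}) (t := fixFin α e)
    (by rw [Finset.card_pair n1]; omega)
  simp only [Finset.mem_insert, Finset.mem_singleton, not_or] at hp
  have Fe : ∀ z ∈ fixFin α e, z = h ∨ z = w • h ∨ z = p := fun z hz =>
    mem_three fe mh mi mp n1 (Ne.symm hp.1) (Ne.symm hp.2) hz
  have wC : w ∈ C1 e := mem_centralizer_singleton_iff.2 hew.eq.symm
  have wp : w • p = p := by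
    rcases Fe _ (c1_fix wC mp) with h1 | h1 | h1
    · exact absurd (by rw [← h1, ww]) hp.2
    · exact absurd (smul_left_cancel w h1) hp.1
    · exact h1
  have ep : e • p = p := mem_fixFin.1 mp
  have mp' : p ∈ fixFin α (e * w) := mem_fixFin.2 (by rw [mul_smul, wp, ep])
  have pj : j ≠ p := fun h1 => n6 (by rw [h1, wp])
  have pk : w • j ≠ p := fun h1 => pj (by rw [← ww j, h1, wp])
  have Fe' : ∀ z ∈ fixFin α (e * w), z = j ∨ z = w • j ∨ z = p := fun z hz =>
    mem_three fe' mj mk mp' n6 pj pk hz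
  have mR : ∀ g : G, g ∈ fixF G R ↔ g • h = h ∧ g • w • h = w • h ∧ g • j = j ∧ g • w • j = w • j := by
    intro g; simp [mem_fixF, hRdef]
  have Cm : ∀ g : G, g ∈ C1 e → g ∈ C1 w → g ∈ C1 (e * w) := fun g h1 h2 =>
    mem_centralizer_singleton_iff.2
      (Commute.mul_right (mem_centralizer_singleton_iff.1 h1 :) (mem_centralizer_singleton_iff.1 h2 :)).eq
  have gp : ∀ g : G, g ∈ C1 e → g • h = h → g • w • h = w • h → g • p = p := by
    intro g h1 h2 h3
    rcases Fe _ (c1_fix h1 mp) with h4 | h4 | h4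
    · exact absurd (smul_left_cancel g (h4.trans h2.symm)) hp.1
    · exact absurd (smul_left_cancel g (h4.trans h3.symm)) hp.2
    · exact h4
  have e1 : fixF G R ⊓ C1 e = Kf e j := by
    ext g
    simp only [mem_inf, mR, mem_stabilizer_iff]
    constructor
    · rintro ⟨⟨h1, h2, h3, -⟩, h4⟩
      refine ⟨⟨h4, h3⟩, mem_fixF.2 fun z hz => ?_⟩
      rcases Fe z hz with rfl | rfl | rfl
      exacts [h1, h2, gp g h4 h1 h2]
    · rintro ⟨⟨h1, h2⟩, h3⟩
      exact ⟨⟨mem_fixF.1 h3 _ mh, mem_fixF.1 h3 _ mi, h2, by rw [← ej, c1_smul h1, h2]⟩, h1⟩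
  have e2 : fixF G R ⊓ C1 w = Lf w h j := by
    ext g
    simp only [mem_inf, mR, mem_stabilizer_iff]
    constructor
    · tauto
    · rintro ⟨⟨h1, h2⟩, h3⟩
      exact ⟨⟨h2, by rw [c1_smul h1, h2], h3, by rw [c1_smul h1, h3]⟩, h1⟩
  have e3 : fixF G R ⊓ C1 (e * w) = Kf (e * w) h := by
    ext g
    simp only [mem_inf, mR, mem_stabilizer_iff]
    constructor
    · rintro ⟨⟨h1, -, h2, h3⟩, h4⟩
      refine ⟨⟨h4, h1⟩, mem_fixF.2 fun z hz => ?_⟩
      rcases Fe' z hz with rfl | rfl | rfl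
      · exact h2
      · exact h3
      · rcases Fe' _ (c1_fix h4 hz) with h5 | h5 | h5
        · exact absurd (smul_left_cancel g (h5.trans h2.symm)).symm pj
        · exact absurd (smul_left_cancel g (h5.trans h3.symm)).symm pk
        · exact h5
    · rintro ⟨⟨h1, h2⟩, h3⟩
      refine ⟨⟨h2, ?_, mem_fixF.1 h3 _ mj, mem_fixF.1 h3 _ mk⟩, h1⟩
      have := c1_smul h1 h
      rwa [h2, mul_smul, ei] at this
  set O := fixF G R ⊓ C1 e ⊓ C1 w with hO
  have hOodd : ∀ g ∈ O, Odd (orderOf g) := fun g hg => hodd g R hR4 (mem_fixF.1 hg.1.1)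
  have hOK : O ≤ Kf w h := by
    intro g hg
    obtain ⟨h1, h2, -, -⟩ := (mR g).1 hg.1.1
    have h3 := gp g hg.1.2 h1 h2
    refine ⟨⟨hg.2, h1⟩, mem_fixF.2 fun z hz => ?_⟩
    by_contra h4
    have h5 : z ≠ p := fun h5 => h4 (by rw [h5, h3])
    have h6 : g • z ≠ p := fun h6 => h5 (smul_left_cancel g (h6.trans h3.symm))
    rcases mem_three fw hz (c1_fix hg.2 hz) (mem_fixFin.2 wp) (Ne.symm h4) h5 h6
      (c1_fix hg.2 (c1_fix hg.2 hz)) with h7 | h7 | h7
    · exact h4 (fix_of_odd (hOodd g hg) h7)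
    · exact h4 (smul_left_cancel g h7)
    · exact h6 (smul_left_cancel g (h7.trans h3.symm))
  have gh : ∀ g : G, g ∈ C1 e → g ∈ C1 w → (g • h = h ∨ g • h = w • h) ∧ (g • j = j ∨ g • j = w • j) := by
    intro g h1 h2
    constructor
    · rcases Fe _ (c1_fix h1 mh) with h4 | h4 | h4
      · exact Or.inl h4
      · exact Or.inr h4
      · exact absurd (smul_left_cancel g (by rw [c1_smul h2, h4, wp])) n1
    · rcases Fe' _ (c1_fix (Cm g h1 h2) mj) with h4 | h4 | h4
      · exact Or.inl h4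
      · exact Or.inr h4
      · exact absurd (smul_left_cancel g (by rw [c1_smul h2, h4, wp])) n6
  have mO : ∀ g : G, g ∈ C1 e → g ∈ C1 w → g • h = h → g • j = j → g ∈ O := fun g h1 h2 h3 h4 =>
    ⟨⟨(mR g).2 ⟨h3, by rw [c1_smul h2, h3], h4, by rw [c1_smul h2, h4]⟩, h1⟩, h2⟩
  have hX : ∀ x, x ∉ R → w • x ≠ x → e • x ≠ x ∧ e • w • x ≠ x := by
    intro x h1 h2
    simp only [hRdef, Finset.mem_insert, Finset.mem_singleton, not_or] at h1
    have h3 : x ≠ p := fun h3 => h2 (by rw [h3, wp])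
    exact ⟨fun h4 => by have := Fe x (mem_fixFin.2 h4); tauto,
      fun h4 => by have := Fe' x (mem_fixFin.2 (by rw [mul_smul, h4])); tauto⟩
  have hFr : ∀ x, x ∉ R → w • x ≠ x → [x, e • x, w • x, e • w • x].Nodup := by
    intro x h1 h2
    obtain ⟨h3, h4⟩ := hX x h1 h2
    have h5 : e • x ≠ w • x := fun h5 => h4 (by rw [← h5, ee])
    have h6 : w • x ≠ e • w • x := fun h6 => h3 (smul_left_cancel w (by rw [we, ← h6]))
    simp [h2.symm, h3.symm, h4.symm, h5, h6]
  have hOf : ∀ x, x ∉ R → w • x ≠ x → Of e w x ≤ O := by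
    intro x h1 h2 g hg
    have h3 : Odd (orderOf g) := hodd g _ (card4 (hFr x h1 h2)) (by
      have h4 : g • x = x := hg.2
      simp [c1_smul hg.1.1, c1_smul hg.1.2, h4])
    obtain ⟨h4, h5⟩ := gh g hg.1.1 hg.1.2
    refine mO g hg.1.1 hg.1.2 ?_ ?_
    · rcases h4 with h4 | h4
      · exact h4
      · exact fix_of_odd h3 (by rw [h4, c1_smul hg.1.2, h4, ww])
    · rcases h5 with h5 | h5
      · exact h5
      · exact fix_of_odd h3 (by rw [h5, c1_smul hg.1.2, h5, ww])
  obtain ⟨x, -, hx⟩ := Finset.exists_mem_notMem_of_card_lt_card (s := R ∪ fixFin α w)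
    (t := Finset.univ) (by
      have := Finset.card_union_le R (fixFin α w)
      rw [Finset.card_univ]; omega)
  simp only [Finset.mem_union, mem_fixFin, not_or] at hx
  obtain ⟨x1, x2⟩ := hx
  obtain ⟨x3, x4⟩ := hX x x1 x2
  have x1' := x1
  simp only [hRdef, Finset.mem_insert, Finset.mem_singleton, not_or] at x1'
  have Pe : [j, e • j, x, e • x].Nodup := by
    have h1 : j ≠ e • x := fun h1 => x1'.2.2.2 (by rw [← ej, h1, ee])
    have h2 : w • j ≠ e • x := fun h1 => x1'.2.2.1 (by rw [← ek, h1, ee])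
    simp [ej, n6, Ne.symm x1'.2.2.1, Ne.symm x1'.2.2.2, h1, h2, x3.symm]
  have Pe' : [h, (e * w) • h, x, (e * w) • x].Nodup := by
    have h1 : h ≠ e • w • x := fun h1 => x1'.2.1 (by rw [← ei, h1, we, ww, ee])
    have h2 : w • h ≠ e • w • x := fun h1 => x1'.1 (smul_left_cancel w (by rw [← ei, h1, ee]))
    simp [mul_smul, ei, n1, Ne.symm x1'.1, Ne.symm x1'.2.1, h1, h2, x4.symm]
  have Px : [x, e • x, w • x, e • w • x].Nodup := hFr x x1 x2
  have bw1 := LiftB.brauer_wielandt (odd_fix hodd hR4) hV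
    (mem_norm (by simp [hRdef, eh, ei, ej, ek])) (mem_norm (by simp [hRdef, ww]))
  rw [← hO, e1, e2, e3, card_Kf htr hodd he hw Pe hR, card_Kf htr hodd hew2 hw Pe' hR] at bw1
  have bw2 := bw_reg htr hodd hV Px
  rw [card_Lf htr hodd he hw Px hR] at bw2
  obtain ⟨g0, hg0⟩ := exists_cj_fixF htr hkn hR4 (card4 Px)
  rw [← hg0, card_cj] at bw2
  have hOx : ∀ y, y ∉ R → w • y ≠ y → O ≤ Of e w y := by
    have r1 : ∀ y, y ∉ R → w • y ≠ y → (Of e w y).relIndex O = (Of e w x).relIndex O := by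
      intro y y1 y2
      have h1 := card_mul_relIndex (hOf y y1 y2)
      rw [← card_mul_relIndex (hOf x x1 x2), card_Of htr hodd hV (hFr y y1 y2) Px] at h1
      exact Nat.eq_of_mul_eq_mul_left Nat.card_pos h1
    intro y y1 y2
    rw [← relIndex_eq_one, r1 y y1 y2]
    by_contra hne
    obtain ⟨q, hq, hqr⟩ := Nat.exists_prime_and_dvd hne
    have := Fact.mk hq
    have c1 := card_mul_relIndex (hOf x x1 x2)
    have hq2 : q ≠ 2 := by
      rintro rfl
      have := (odd_card_of_forall_odd_orderOf O hOodd).of_dvd_nat (c1 ▸ hqr.mul_left _)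
      exact absurd this (by decide)
    have c2 : Nat.card (Kf w h) = (Of e w x).relIndex O * Nat.card (Lf w h j) := by
      rw [← c1] at bw1
      have p1 : 0 < Nat.card (Lf w h j) := Nat.card_pos
      generalize Nat.card (Kf w h) = k at bw1
      generalize Nat.card (Lf w h j) = l at bw1 bw2 p1
      generalize (Of e w x).relIndex O = r at bw1
      have h1 : l * k ^ 2 = l * (r * l) ^ 2 := by
        calc l * k ^ 2 = k * l * k := by ring
          _ = r ^ 2 * (Nat.card (fixF G R) * Nat.card (Of e w x) ^ 2) := by rw [← bw1]; ring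
          _ = l * (r * l) ^ 2 := by rw [bw2]; ring
      exact Nat.pow_left_injective two_ne_zero (Nat.eq_of_mul_eq_mul_left p1 h1)
    have c3 : q ∣ (orbit (Kf w h) j).ncard := by
      rw [← index_stabilizer]
      have h1 := card_mul_index (stabilizer (Kf w h) j)
      have h2 : Nat.card (stabilizer (Kf w h) j) ∣ Nat.card (Lf w h j) := by
        rw [← card_map_of_injective (Kf w h).subtype_injective]
        apply card_dvd_of_le
        rintro _ ⟨g, hg, rfl⟩
        exact ⟨g.2.1, hg⟩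
      obtain ⟨c, hc⟩ := h2
      rw [c2, hc, mul_left_comm] at h1
      rw [Nat.eq_of_mul_eq_mul_left Nat.card_pos h1]
      exact hqr.mul_right _
    obtain ⟨Q, hQ⟩ := exists_isSylowIn (p := q) O
    have c4 := ncard_modEq_ncard_fixed hq Q hQ.isPGroup (orbit (Kf w h) j) (Set.toFinite _) (by
      rintro g hg _ ⟨k, rfl⟩
      exact ⟨⟨g, hOK (hQ.le hg)⟩ * k, mul_smul _ _ _⟩)
    have c5 : {z ∈ orbit (Kf w h) j | ∀ g ∈ Q, g • z = z} ⊆ {j, w • j} := by
      rintro _ ⟨⟨k, rfl⟩, hz⟩
      change ∀ g ∈ Q, g • (k : G) • j = (k : G) • j at hz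
      change (k : G) • j ∈ _
      by_contra hc
      simp only [Set.mem_insert_iff, Set.mem_singleton_iff, not_or] at hc
      have k1 : (k : G) • h = h := k.2.1.2
      have z1 : (k : G) • j ∉ R := by
        simp only [hRdef, Finset.mem_insert, Finset.mem_singleton, not_or]
        refine ⟨fun h1 => n2 (smul_left_cancel (k : G) (k1.trans h1.symm)),
          fun h1 => n4 (smul_left_cancel (k : G) ?_), hc⟩
        rw [c1_smul k.2.1.1, k1, h1]
      have z2 : w • (k : G) • j ≠ (k : G) • j := fun h1 =>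
        n6 (smul_left_cancel (k : G) (by rw [c1_smul k.2.1.1, h1]))
      have h1 : Q ≤ Of e w ((k : G) • j) := fun g hg => ⟨⟨(hQ.le hg).1.2, (hQ.le hg).2⟩, hz g hg⟩
      apply hQ.2.2
      rw [← relIndex_mul_relIndex Q _ O h1 (hOf _ z1 z2), r1 _ z1 z2]
      exact hqr.mul_left _
    have c6 := Set.ncard_le_ncard c5
    rw [Set.ncard_pair n6] at c6
    have c7 : 0 < {z ∈ orbit (Kf w h) j | ∀ g ∈ Q, g • z = z}.ncard :=
      (Set.ncard_pos (Set.toFinite _)).2 ⟨j, mem_orbit_self j, fun g hg => ((mR g).1 (hQ.le hg).1.1).2.2.1⟩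
    have c8 := Nat.le_of_dvd c7 ((c4.dvd_iff dvd_rfl).1 c3)
    have := hq.two_le
    omega
  have hO1 : ∀ g ∈ O, g = 1 := by
    intro g hg
    apply eq_of_smul_eq_smul (α := α)
    intro y
    rw [one_smul]
    by_cases y1 : y ∈ R
    · exact mem_fixF.1 hg.1.1 y y1
    by_cases y2 : w • y = y
    · exact mem_fixF.1 (hOK hg).2 y (mem_fixFin.2 y2)
    · exact (hOx y y1 y2 hg).2
  have hcov : ∀ y, y ∉ R → w • y ≠ y → y ∈ ({x, e • x, w • x, e • w • x} : Finset α) := by
    intro y y1 y2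
    obtain ⟨g, h1, h2, h3⟩ := frame_conj htr hodd hV hV Px (hFr y y1 y2)
    have g1 : g ∈ C1 e := mem_centralizer_singleton_iff.2 (mul_inv_eq_iff_eq_mul.1 h2)
    have g2 : g ∈ C1 w := mem_centralizer_singleton_iff.2 (mul_inv_eq_iff_eq_mul.1 h3)
    have eC : e ∈ C1 e := mem_centralizer_singleton_iff.2 rfl
    have eC' : e ∈ C1 w := mem_centralizer_singleton_iff.2 hew.eq
    have wC' : w ∈ C1 w := mem_centralizer_singleton_iff.2 rfl
    simp only [Finset.mem_insert, Finset.mem_singleton, ← h1]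
    obtain ⟨h4 | h4, h5 | h5⟩ := gh g g1 g2
    · rw [hO1 g (mO g g1 g2 h4 h5), one_smul]; exact Or.inl rfl
    · have := hO1 _ (mO (e * g) (mul_mem eC g1) (mul_mem eC' g2) (by rw [mul_smul, h4, eh])
        (by rw [mul_smul, h5, ek]))
      refine Or.inr (Or.inl ?_)
      rw [← ee (g • x), ← mul_smul e g, this, one_smul]
    · have := hO1 _ (mO (e * (w * g)) (mul_mem eC (mul_mem wC g1)) (mul_mem eC' (mul_mem wC' g2))
        (by rw [mul_smul, mul_smul, h4, ww, eh]) (by rw [mul_smul, mul_smul, h5, ek]))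
      refine Or.inr (Or.inr (Or.inr ?_))
      rw [← ww (g • x), ← ee (w • g • x), ← mul_smul w g, ← mul_smul e (w * g), this, one_smul, we]
    · have := hO1 _ (mO (w * g) (mul_mem wC g1) (mul_mem wC' g2) (by rw [mul_smul, h4, ww])
        (by rw [mul_smul, h5, ww]))
      refine Or.inr (Or.inr (Or.inl ?_))
      rw [← ww (g • x), ← mul_smul w g, this, one_smul]
  refine ⟨?_, R, hR4, Nat.card (Lf w h j), ?_⟩
  · have fw3 := fe3.trans (le_fix htr hodd he hw Pe hR)
    have d1 : Disjoint R (fixFin α w) := by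
      rw [Finset.disjoint_left]
      intro y hy
      simp only [hRdef, Finset.mem_insert, Finset.mem_singleton] at hy
      rw [mem_fixFin]
      rcases hy with rfl | rfl | rfl | rfl
      exacts [Ne.symm n1, by rw [ww]; exact n1, Ne.symm n6, by rw [ww]; exact n6]
    have u1 : (R ∪ fixFin α w)ᶜ = {x, e • x, w • x, e • w • x} := by
      apply Finset.Subset.antisymm
      · intro y hy
        simp only [Finset.mem_compl, Finset.mem_union, mem_fixFin, not_or] at hy
        exact hcov y hy.1 hy.2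
      · have k1 : ∀ y, y ∉ R ∧ w • y ≠ y → e • y ∉ R ∧ w • e • y ≠ e • y := fun y hy =>
          ⟨fun h1 => hy.1 (by
            rw [← ee y, heR _ h1]
            exact swap_mem_of_mem (by simp [hRdef]) (by simp [hRdef]) h1),
            fun h1 => hy.2 (smul_left_cancel e (by rw [← we, h1]))⟩
        have k2 : w • x ∉ R ∧ w • w • x ≠ w • x :=
          ⟨fun h1 => x1 (by
            simp only [hRdef, Finset.mem_insert, Finset.mem_singleton] at h1 ⊢
            rw [← ww x]
            rcases h1 with h1 | h1 | h1 | h1 <;> rw [h1] <;> simp [ww]),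
            fun h1 => x2 (smul_left_cancel w h1)⟩
        intro y hy
        simp only [Finset.mem_compl, Finset.mem_union, mem_fixFin, not_or]
        simp only [Finset.mem_insert, Finset.mem_singleton] at hy
        rcases hy with rfl | rfl | rfl | rfl
        exacts [⟨x1, x2⟩, k1 _ ⟨x1, x2⟩, k2, k1 _ k2]
    have := Finset.card_add_card_compl (R ∪ fixFin α w)
    rw [u1, card4 Px, Finset.card_union_of_disjoint d1] at this
    omega
  · have : Of e w x = ⊥ := eq_bot_iff.2 fun g hg => hO1 g (hOf x x1 x2 hg)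
    rw [← bw2, this, card_bot]; simp

end Cfsg.Lib.Perm.Hall4
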