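import Cfsg.Agent.Perm.ChooseBig
import Cfsg.Agent.S3573
import Cfsg.Agent.S0713
import Cfsg.Agent.Trans.SylowIn
import Mathlib.NumberTheory.Bertrand
import Mathlib.GroupTheory.GroupAction.SubMulAction.Combination

/-!
Derangements of prime order in primitive actions of alternating and symmetric groups.
-/

set_option autoImplicit false

namespace Cfsg.Lib.Perm.AltDer

open Equiv Equiv.Perm MulAction Subgroup Cfsg.Lib.Trans
open scoped Pointwise

/-- A transitive group with an element of prime order `p` larger than half the degree is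
primitive. -/
theorem prim_of_prime {α : Type*} [Finite α] {H : Subgroup (Perm α)} [IsPretransitive H α]
    {p : ℕ} (hp : p.Prime) (hc : Nat.card α < 2 * p) {h : H} (ho : orderOf h = p) :
    IsPreprimitive H α := by
  have := Fact.mk hp
  obtain ⟨a, ha⟩ : ∃ a, h • a ≠ a := by
    by_contra! hcon
    have : h = 1 := Subtype.ext (Equiv.ext hcon)
    rw [this, orderOf_one] at ho
    exact hp.one_lt.ne ho
  have hQ : IsPGroup p (zpowers h) := IsPGroup.of_card (n := 1) (by rw [Nat.card_zpowers, ho, pow_one])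
  have k : ∀ {β : Type _} [MulAction H β] [Finite β] {b : β}, h • b ≠ b →
      p ≤ (orbit (zpowers h) b).ncard := fun {β} _ _ b hb => by
    obtain ⟨n, hn⟩ := hQ.card_orbit b
    rcases n with _ | n
    · have := (Nat.card_eq_one_iff_unique.1 hn).1
      exact (hb (congrArg Subtype.val (Subsingleton.elim
        (⟨_, ⟨h, mem_zpowers h⟩, rfl⟩ : orbit (zpowers h) b) ⟨b, mem_orbit_self b⟩))).elim
    · rw [← Nat.card_coe_set_eq, hn]
      exact Nat.le_self_pow n.succ_ne_zero p
  refine IsPreprimitive.of_isTrivialBlock_base a fun {B} haB hB => ?_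
  by_cases hh : h • B = B
  · refine .inr (hB.eq_univ_of_card_lt (hc.trans_le ?_))
    rw [mul_comm]
    refine Nat.mul_le_mul_right _ ((k ha).trans (Set.ncard_le_ncard ?_))
    rintro _ ⟨⟨g, hg⟩, rfl⟩
    have h1 : g • B = B := (zpowers_le (H := stabilizer H B)).2 hh hg
    exact h1 ▸ Set.smul_mem_smul_set haB
  · refine .inl (hB.subsingleton_of_card_lt (hc.trans_le (Nat.mul_le_mul_left _
      ((k hh).trans (Set.ncard_le_ncard ?_)))))
    rintro _ ⟨⟨g, hg⟩, rfl⟩
    exact ⟨g, rfl⟩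

theorem two_mul_le {r m : ℕ} (hr : r.Prime) (h : r * r ∣ m.factorial) : 2 * r ≤ m := by
  by_contra! hm
  have h1 : Nat.log r m < 2 := Nat.log_lt_of_lt_pow' two_ne_zero
    (hm.trans_le (by rw [sq]; exact Nat.mul_le_mul_right _ hr.two_le))
  have h2 := (hr.pow_dvd_factorial_iff (r := 2) h1).1 (by rwa [sq])
  simp only [Nat.Ico_succ_singleton, Finset.sum_singleton, pow_one] at h2
  exact hm.not_ge ((Nat.le_div_iff_mul_le hr.pos).1 h2)

theorem sign_of_odd {α : Type*} [Fintype α] [DecidableEq α] {σ : Perm α} (h : Odd (orderOf σ)) :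
    sign σ = 1 := by
  have h1 := congrArg sign (pow_orderOf_eq_one σ)
  rcases Int.units_eq_one_or (sign σ) with h2 | h2
  · exact h2
  · rw [map_pow, h2, h.neg_one_pow, map_one] at h1
    exact absurd h1 (by decide)

theorem sign_fpf {m : ℕ} {σ : Perm (Fin m)} (h : orderOf σ = 2) (h1 : ∀ a, σ a ≠ a) (h4 : 4 ∣ m) :
    sign σ = 1 := by
  obtain ⟨c, hc⟩ := cycleType_prime_order (σ := σ) (h ▸ Nat.prime_two)
  have h2 : σ.support = Finset.univ := Finset.eq_univ_of_forall fun a => mem_support.2 (h1 a)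
  have h3 := sum_cycleType σ
  rw [h2, Finset.card_univ, Fintype.card_fin, hc, h] at h3
  rw [sign_of_cycleType, hc, h]
  simp only [Multiset.sum_replicate, smul_eq_mul, Multiset.card_replicate] at h3 ⊢
  exact Even.neg_one_pow ⟨3 * (m / 4), by omega⟩

theorem exists_half {m : ℕ} {H : Subgroup (Perm (Fin m))} (h : ¬ IsPretransitive H (Fin m)) :
    ∃ s : Finset (Fin m), 1 ≤ s.card ∧ 2 * s.card ≤ m ∧ ∀ g ∈ H, g • s = s := by
  classical
  obtain ⟨a, b, hab⟩ : ∃ a b : Fin m, ∀ g : H, g • a ≠ b := by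
    by_contra! hcon
    exact h ⟨hcon⟩
  have k : ∀ g ∈ H, g • (orbit H a).toFinset = (orbit H a).toFinset := fun g hg => by
    apply Finset.coe_injective
    rw [Finset.coe_smul_finset, Set.coe_toFinset]
    exact smul_orbit (⟨g, hg⟩ : H) a
  by_cases h1 : 2 * (orbit H a).toFinset.card ≤ m
  · exact ⟨_, Finset.card_pos.2 ⟨a, Set.mem_toFinset.2 (mem_orbit_self a)⟩, h1, k⟩
  · refine ⟨(orbit H a).toFinsetᶜ, Finset.card_pos.2 ⟨b, Finset.mem_compl.2 fun hb => ?_⟩, ?_,
      fun g hg => ?_⟩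
    · obtain ⟨g, hg⟩ := Set.mem_toFinset.1 hb
      exact hab g hg
    · rw [Finset.card_compl, Fintype.card_fin]; omega
    · ext x
      rw [← Finset.inv_smul_mem_iff, Finset.mem_compl, Finset.inv_smul_mem_iff, k g hg,
        Finset.mem_compl]

variable {G : Type*} [Group G] [Finite G] {m : ℕ} (hm : 5 ≤ m) {ψ : G →* Perm (Fin m)}
  (hψ : Function.Injective ψ) (hA : alternatingGroup (Fin m) ≤ ψ.range) {H : Subgroup G}
  (hH : IsCoatom H) {r : ℕ} (hr : r.Prime) (hrd : r ∣ H.index)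
  (hmax : ∀ s, s.Prime → s ∣ H.index → s ≤ r)

include hm hψ hA hH hr hrd hmax

theorem intrans (h : ¬ IsPretransitive (H.map ψ) (Fin m)) :
    ∃ g, orderOf g = r ∧ ∀ x, x * g * x⁻¹ ∉ H := by
  obtain ⟨s, h1, h2, hs⟩ := exists_half h
  letI : MulAction G (Set.powersetCard (Fin m) s.card) := MulAction.compHom _ ψ
  have h3 := Set.powersetCard.isPretransitive_alternatingGroup (α := Fin m) (n := s.card)
    (by simp; omega)
  have : IsPretransitive G (Set.powersetCard (Fin m) s.card) := ⟨fun a b => by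
    obtain ⟨⟨g, hg⟩, e⟩ := exists_smul_eq (alternatingGroup (Fin m)) a b
    obtain ⟨g, rfl⟩ := hA hg
    exact ⟨g, e⟩⟩
  let s0 : Set.powersetCard (Fin m) s.card := ⟨s, rfl⟩
  have h4 : H ≤ stabilizer G s0 := fun g hg => Subtype.ext (hs _ ⟨g, hg, rfl⟩)
  have h5 : (stabilizer G s0).index = m.choose s.card := by
    rw [index_stabilizer_of_transitive, Set.powersetCard.card, Nat.card_fin]
  have h6 : stabilizer G s0 = H := by
    refine (hH.le_iff.1 h4).resolve_left fun e => ?_
    rw [e, index_top] at h5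
    obtain ⟨p, hp, h6, -⟩ := ChooseBig.exists_prime h1 h2
    exact hp.not_dvd_one (h5 ▸ h6)
  rw [← h6, h5] at hrd hmax
  obtain ⟨h7, h8⟩ := ChooseBig.mod_lt h1 h2 hr hrd hmax
  have hrm : r ≤ m := by
    rw [← hr.dvd_factorial, ← Nat.choose_mul_factorial_mul_factorial (by omega : s.card ≤ m)]
    exact (hrd.mul_right _).mul_right _
  obtain ⟨σ, hσ, h9⟩ : ∃ σ : Perm (Fin m), orderOf σ = r ∧
      ∀ t : Finset (Fin m), t.card = s.card → t.image σ ≠ t := by
    by_contra! hcon
    exact h7.not_ge ((Agent.S3573.key (by omega) hr hrm).1 hcon)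
  have h10 : sign σ = 1 := by
    rcases hr.eq_two_or_odd' with rfl | ho
    · have h11 : s.card = 1 := by omega
      rw [h11, Nat.choose_one_right] at hrd hmax
      obtain ⟨n, rfl⟩ := hrd
      obtain ⟨p, hp, h12⟩ := Nat.exists_prime_and_dvd (n := n) (by omega)
      obtain rfl : p = 2 := le_antisymm (hmax p hp (h12.mul_left _)) hp.two_le
      exact sign_fpf hσ (fun a ha => h9 {a} (by simp [h11]) (by simp [ha]))
        (Nat.mul_dvd_mul_left 2 h12)
    · exact sign_of_odd (hσ ▸ ho)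
  obtain ⟨g, rfl⟩ := hA (mem_alternatingGroup.2 h10)
  refine ⟨g, (orderOf_injective ψ hψ g).symm.trans hσ, fun x hx => ?_⟩
  have h11 : ψ g • (ψ x)⁻¹ • s = (ψ x)⁻¹ • s := by
    rw [eq_inv_smul_iff, ← mul_smul, ← mul_smul, ← map_inv, ← map_mul, ← map_mul]
    exact hs _ ⟨_, hx, rfl⟩
  exact h9 _ (Finset.card_smul_finset _ s) h11

theorem core (hHA : ¬ alternatingGroup (Fin m) ≤ H.map ψ) :
    ∃ g, orderOf g = r ∧ ∀ x, x * g * x⁻¹ ∉ H := by
  have := Fact.mk hr
  by_cases h0 : r ∣ Nat.card H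
  swap
  · obtain ⟨g, hg⟩ := exists_prime_orderOf_dvd_card' r (hrd.trans H.index_dvd_card)
    refine ⟨g, hg, fun x hx => h0 ?_⟩
    have h1 := H.orderOf_dvd_natCard hx
    rwa [← MulAut.conj_apply, MulEquiv.orderOf_eq, hg] at h1
  have h1 : 2 * r ≤ m := two_mul_le hr (by
    have h2 := card_dvd_of_injective ψ hψ
    rw [Nat.card_perm, Nat.card_fin, ← H.card_mul_index] at h2
    exact (Nat.mul_dvd_mul h0 hrd).trans h2)
  by_cases h2 : IsPretransitive (H.map ψ) (Fin m)
  swap
  · exact intrans hm hψ hA hH hr hrd hmax h2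
  have cyc : ∀ p, 2 ≤ p → p ≤ m → Odd p → ∃ g : G, (ψ g).IsCycle ∧ (ψ g).support.card = p ∧
      orderOf g = p := fun p hp hpm ho => by
    obtain ⟨σ, hσ⟩ := (exists_with_cycleType_iff (Fin m) (m := {p})).2 ⟨by simpa, by simpa⟩
    have h3 : σ.IsCycle := card_cycleType_eq_one.1 (by simp [hσ])
    have h4 : σ.support.card = p := by rw [← sum_cycleType, hσ, Multiset.sum_singleton]
    have h5 : orderOf σ = p := h3.orderOf.trans h4
    obtain ⟨g, rfl⟩ := hA (mem_alternatingGroup.2 (sign_of_odd (h5 ▸ ho)))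
    exact ⟨g, h3, h4, (orderOf_injective ψ hψ g).symm.trans h5⟩
  have h3 : IsPreprimitive (H.map ψ) (Fin m) := by
    obtain ⟨p, hp, h4, h5⟩ := Nat.exists_prime_lt_and_le_two_mul (m / 2) (by omega)
    have := Fact.mk hp
    obtain ⟨g, -, -, hg⟩ := cyc p hp.two_le (by omega) (hp.odd_of_ne_two (by omega))
    have h6 : p ∣ Nat.card H * H.index := by rw [H.card_mul_index, ← hg]; exact orderOf_dvd_natCard g
    have h7 : p ∣ Nat.card H := ((Nat.Prime.dvd_mul hp).1 h6).resolve_right fun h => by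
      have := hmax p hp h
      omega
    rw [Nat.card_congr (H.equivMapOfInjective ψ hψ).toEquiv] at h7
    obtain ⟨h, hh⟩ := exists_prime_orderOf_dvd_card' p h7
    exact prim_of_prime hp (by rw [Nat.card_fin]; omega) hh
  have k : ∀ {g x : G}, (ψ g).IsCycle → (ψ (x * g * x⁻¹)).IsCycle ∧
      (ψ (x * g * x⁻¹)).support.card = (ψ g).support.card := fun {g x} hg => by
    rw [map_mul, map_mul, map_inv]
    exact ⟨hg.conj, card_support_conj⟩
  rcases hr.eq_two_or_odd' with rfl | ho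
  · have := Fact.mk Nat.prime_three
    obtain ⟨g, hg, hg3, hgo⟩ := cyc 3 (by omega) (by omega) (by decide)
    obtain ⟨T, hT⟩ := exists_isSylowIn (p := 3) H
    obtain ⟨x, -, hx⟩ := (hT.trans le_top (by
      rw [relIndex_top_right]
      exact fun h => absurd (hmax 3 Nat.prime_three h) (by decide))).exists_cj_le
      (IsPGroup.of_card (n := 1) (by rw [Nat.card_zpowers, hgo, pow_one]) :
        IsPGroup 3 (zpowers g)) le_top
    exact (hHA (alternatingGroup_le_of_isPreprimitive_of_isThreeCycle_mem h3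
      (card_support_eq_three_iff.1 ((k (x := x) hg).2.trans hg3))
      ⟨_, hT.le (cj_le_iff.1 hx g (mem_zpowers g)), rfl⟩)).elim
  · obtain ⟨g, hg, hgr, hgo⟩ := cyc r hr.two_le (by omega) ho
    have h4 : 3 ≤ r := by have := hr.two_le; obtain ⟨_, rfl⟩ := ho; omega
    exact ⟨g, hgo, fun x hx => hHA (Agent.S0713.result _ h3 hr (by simpa) (by simp; omega)
      (k hg).1 ((k hg).2.trans hgr) ⟨_, hx, rfl⟩)⟩

end Cfsg.Lib.Perm.AltDer
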