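import Mathlib.LinearAlgebra.FiniteDimensional.Basic
import Mathlib.LinearAlgebra.FiniteDimensional.Lemmas
import Mathlib.Tactic.Module
import Mathlib.Tactic.FinCases

/-!
Permutations that agree with affine maps on triples.
-/

set_option autoImplicit false

namespace Cfsg.Lib.Perm

variable {K V : Type*} [Field K] [AddCommGroup V] [Module K V]

theorem exists_linearEquiv_of_linearIndependent {ι : Type*} [Finite ι] {u v : ι → V}
    (hu : LinearIndependent K u) (hv : LinearIndependent K v) :
    ∃ A : V ≃ₗ[K] V, ∀ i, A (u i) = v i := by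
  have : FiniteDimensional K (Submodule.span K (Set.range u)) :=
    FiniteDimensional.span_of_finite K (Set.finite_range _)
  obtain ⟨g, hg⟩ := Submodule.exists_linearEquiv_restrict_eq
    (hu.linearCombinationEquiv.symm ≪≫ₗ hv.linearCombinationEquiv)
  refine ⟨g, fun i => ?_⟩
  have h1 : (hu.linearCombinationEquiv (Finsupp.single i 1) : V) = u i := by simp
  rw [← h1, ← hg]
  simp

theorem affine_of_triples (h2 : (2 : K) ≠ 0) (σ : Equiv.Perm V)
    (h : ∀ t : Fin 3 → V, ∃ (A : V ≃ₗ[K] V) (b : V), ∀ i, σ (t i) = A (t i) + b) :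
    ∃ (A : V ≃ₗ[K] V) (b : V), ∀ x, σ x = A x + b := by
  have h1 : ∀ (x y : V) (c : K), σ (x + c • (y - x)) = σ x + c • (σ y - σ x) := by
    intro x y c
    obtain ⟨A, b, hA⟩ := h ![x, y, x + c • (y - x)]
    have h0 := hA 0
    have h1 := hA 1
    have h2 := hA 2
    simp only [Matrix.cons_val_zero, Matrix.cons_val_one, Matrix.cons_val] at h0 h1 h2
    rw [h0, h1, h2, map_add, map_smul, map_sub]
    module
  have hs : ∀ (c : K) (y : V), σ (c • y) - σ 0 = c • (σ y - σ 0) := by
    intro c y
    have := h1 0 y c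
    rw [zero_add, sub_zero] at this
    rw [this, add_sub_cancel_left]
  let L : V →ₗ[K] V :=
    { toFun := fun x => σ x - σ 0
      map_add' := fun x y => by
        have h3 : x + y = (2 : K) • (x + (2 : K)⁻¹ • (y - x)) := by
          rw [smul_add, smul_smul, mul_inv_cancel₀ h2]
          module
        rw [h3, hs, h1, smul_sub, smul_add, smul_smul, mul_inv_cancel₀ h2]
        module
      map_smul' := hs }
  refine ⟨LinearEquiv.ofBijective L ((Equiv.subRight (σ 0)).bijective.comp σ.bijective), σ 0,
    fun x => ?_⟩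
  exact (sub_add_cancel _ _).symm

end Cfsg.Lib.Perm
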