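import Mathlib.GroupTheory.Index
import Mathlib.Algebra.Group.Subgroup.Finite
import Mathlib.GroupTheory.Subgroup.Simple
import Mathlib.GroupTheory.QuotientGroup.Basic
import Mathlib.Data.Nat.Factorization.Basic
import Mathlib.Order.Lattice.Nat
import Mathlib.Tactic.Group
import Mathlib.Tactic.Ring
import Mathlib.Tactic.Linarith

/-!
# Composition length of a subgroup of a finite group
-/

set_option autoImplicit false

namespace Cfsg.Lib.Perm.CompLen

variable {G G' : Type*} [Group G] [Group G']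

/-- Subnormal chains of a given length between two subgroups. -/
inductive Ch : Subgroup G → Subgroup G → ℕ → Prop
  | refl (A : Subgroup G) : Ch A A 0
  | step {A B C : Subgroup G} {l : ℕ} : Ch A B l → B < C → (∀ c ∈ C, ∀ b ∈ B, c * b * c⁻¹ ∈ B) →
      Ch A C (l + 1)

theorem Ch.le {A B : Subgroup G} {l : ℕ} (h : Ch A B l) : A ≤ B := by
  induction h with
  | refl => exact le_rfl
  | step _ h _ ih => exact ih.trans h.le

theorem Ch.trans {A B C : Subgroup G} {l m : ℕ} (h : Ch A B l) (h' : Ch B C m) :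
    Ch A C (l + m) := by
  induction h' with
  | refl => exact h
  | step _ h1 h2 ih => exact ih.step h1 h2

theorem Ch.step' {A B C : Subgroup G} {l : ℕ} (h : Ch A B l) (h1 : B ≤ C)
    (h2 : ∀ c ∈ C, ∀ b ∈ B, c * b * c⁻¹ ∈ B) :
    ∃ m, l ≤ m ∧ (B ≠ C → l + 1 ≤ m) ∧ Ch A C m := by
  rcases h1.eq_or_lt with rfl | h1
  · exact ⟨l, le_rfl, fun h => absurd rfl h, h⟩
  · exact ⟨l + 1, by omega, fun _ => le_rfl, h.step h1 h2⟩

theorem Ch.split (f : G →* G') {A B : Subgroup G} {l : ℕ} (h : Ch A B l) :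
    ∃ a b, l ≤ a + b ∧ Ch (A ⊓ f.ker) (B ⊓ f.ker) a ∧ Ch (A.map f) (B.map f) b := by
  induction h with
  | refl => exact ⟨0, 0, le_rfl, .refl _, .refl _⟩
  | @step B C l _ h1 h2 ih =>
    obtain ⟨a, b, h3, h4, h5⟩ := ih
    obtain ⟨a', h6, h7, h8⟩ := h4.step' (inf_le_inf_right _ h1.le)
      fun c hc x hx => ⟨h2 c hc.1 x hx.1, f.normal_ker.conj_mem x hx.2 c⟩
    obtain ⟨b', h9, h10, h11⟩ := h5.step' (Subgroup.map_mono h1.le) (by
      rintro _ ⟨c, hc, rfl⟩ _ ⟨x, hx, rfl⟩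
      exact ⟨_, h2 c hc x hx, by simp⟩)
    refine ⟨a', b', ?_, h8, h11⟩
    by_cases h12 : B ⊓ f.ker = C ⊓ f.ker
    · have h13 : B.map f ≠ C.map f := by
        intro h13
        refine h1.not_ge fun c hc => ?_
        obtain ⟨x, hx, h14⟩ := h13.ge ⟨c, hc, rfl⟩
        have h15 : x⁻¹ * c ∈ B ⊓ f.ker := h12.ge
          ⟨C.mul_mem (C.inv_mem (h1.le hx)) hc, by simp [h14]⟩
        simpa using B.mul_mem hx h15.1
      have := h10 h13
      omega
    · have := h7 h12
      omega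

theorem Ch.comap (f : G →* G') (H : Subgroup G) {A B : Subgroup G'} {l : ℕ} (h : Ch A B l)
    (hB : B ≤ H.map f) : Ch (H ⊓ A.comap f) (H ⊓ B.comap f) l := by
  induction h with
  | refl => exact .refl _
  | @step B C l _ h1 h2 ih =>
    refine (ih (h1.le.trans hB)).step (lt_of_le_of_ne
      (inf_le_inf_left _ (Subgroup.comap_mono h1.le)) fun h3 => h1.not_ge fun c hc => ?_)
      fun c hc x hx => ⟨H.mul_mem (H.mul_mem hc.1 hx.1) (H.inv_mem hc.1), by
        simpa using h2 _ hc.2 _ hx.2⟩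
    obtain ⟨x, hx, rfl⟩ := hB hc
    exact (h3.ge ⟨hx, hc⟩).2

/-- The odd part times `3` to the `2`-adic valuation. -/
def w (m : ℕ) : ℕ := ordCompl[2] m * 3 ^ m.factorization 2

theorem w_mul {a b : ℕ} (ha : a ≠ 0) (hb : b ≠ 0) : w (a * b) = w a * w b := by
  rw [w, Nat.ordCompl_mul, Nat.factorization_mul ha hb, Finsupp.add_apply, pow_add, w, w]
  ring

theorem three_le_w {m : ℕ} (hm : 2 ≤ m) : 3 ≤ w m := by
  have h1 := Nat.ordCompl_pos 2 (show m ≠ 0 by omega)
  have h2 := Nat.not_dvd_ordCompl Nat.prime_two (show m ≠ 0 by omega)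
  unfold w
  rcases Nat.eq_zero_or_pos (m.factorization 2) with h | h
  · rw [h] at h2 ⊢
    omega
  · exact (Nat.le_self_pow h.ne' 3).trans (Nat.le_mul_of_pos_left _ h1)

theorem w_mul_le {m a : ℕ} (h : m.factorization 2 ≤ a) : w m * 2 ^ a ≤ m * 3 ^ a := by
  obtain ⟨c, rfl⟩ := Nat.exists_eq_add_of_le h
  have h1 := Nat.ordProj_mul_ordCompl_eq_self m 2
  have h2 : 2 ^ c ≤ 3 ^ c := Nat.pow_le_pow_left (by norm_num) c
  calc w m * 2 ^ (m.factorization 2 + c)
      = (ordProj[2] m * ordCompl[2] m) * 3 ^ m.factorization 2 * 2 ^ c := by unfold w; ring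
    _ ≤ m * 3 ^ m.factorization 2 * 3 ^ c := by rw [h1]; exact Nat.mul_le_mul_left _ h2
    _ = _ := by ring

variable [Finite G] [Finite G']

theorem Ch.card_le {A B : Subgroup G} {l : ℕ} (h : Ch A B l) :
    2 ^ l * Nat.card A ≤ Nat.card B ∧ 3 ^ l * w (Nat.card A) ≤ w (Nat.card B) := by
  induction h with
  | refl => simp
  | @step B C l _ h1 _ ih =>
    obtain ⟨m, hm⟩ := Subgroup.card_dvd_of_le h1.le
    have h2 : 2 ≤ m := by
      by_contra h2
      refine h1.ne (Subgroup.eq_of_le_of_card_ge h1.le ?_)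
      rw [hm]
      exact mul_le_of_le_one_right' (by omega)
    rw [hm, w_mul Nat.card_pos.ne' (by omega), pow_succ, pow_succ, mul_right_comm,
      mul_right_comm (3 ^ l)]
    exact ⟨Nat.mul_le_mul ih.1 h2, Nat.mul_le_mul ih.2 (three_le_w h2)⟩

/-- The composition length. -/
noncomputable def cl (H : Subgroup G) : ℕ := sSup {l | Ch ⊥ H l}

theorem bddAbove_ch (H : Subgroup G) : BddAbove {l | Ch ⊥ H l} :=
  ⟨Nat.card H, fun l hl => by
    have := (Ch.card_le hl).1
    rw [Subgroup.card_bot, mul_one] at this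
    exact Nat.lt_two_pow_self.le.trans this⟩

theorem Ch.le_cl {H : Subgroup G} {l : ℕ} (h : Ch ⊥ H l) : l ≤ cl H := le_csSup (bddAbove_ch H) h

theorem ch_cl (H : Subgroup G) : Ch ⊥ H (cl H) := by
  obtain ⟨m, -, -, h⟩ := (Ch.refl (⊥ : Subgroup G)).step' (bot_le (a := H)) (by simp)
  exact Nat.sSup_mem ⟨m, h⟩ (bddAbove_ch H)

theorem two_pow_cl_le (H : Subgroup G) : 2 ^ cl H ≤ Nat.card H := by
  simpa using (ch_cl H).card_le.1

theorem three_pow_cl_le (H : Subgroup G) {a : ℕ} (h : (Nat.card H).factorization 2 ≤ a) :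
    3 ^ cl H * 2 ^ a ≤ Nat.card H * 3 ^ a := by
  have := (ch_cl H).card_le.2
  rw [Subgroup.card_bot, show w 1 = 1 by simp [w], mul_one] at this
  exact (Nat.mul_le_mul_right _ this).trans (w_mul_le h)

theorem cl_bot : cl (⊥ : Subgroup G) = 0 := by
  have := two_pow_cl_le (⊥ : Subgroup G)
  rw [Subgroup.card_bot] at this
  simpa using Nat.lt_two_pow_self.trans_le this

theorem cl_eq_add (f : G →* G') (H : Subgroup G) : cl H = cl (H ⊓ f.ker) + cl (H.map f) := by
  apply le_antisymm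
  · obtain ⟨a, b, h1, h2, h3⟩ := (ch_cl H).split f
    rw [bot_inf_eq] at h2
    rw [Subgroup.map_bot] at h3
    exact h1.trans (add_le_add h2.le_cl h3.le_cl)
  · have h1 := (ch_cl (H.map f)).comap f H le_rfl
    rw [MonoidHom.comap_bot, inf_eq_left.mpr (Subgroup.le_comap_map f H)] at h1
    exact ((ch_cl _).trans h1).le_cl

theorem cl_map_of_inf_ker (f : G →* G') {H : Subgroup G} (h : H ⊓ f.ker = ⊥) :
    cl (H.map f) = cl H := by
  rw [cl_eq_add f H, h, cl_bot, zero_add]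

theorem cl_map_of_injective {f : G →* G'} (hf : Function.Injective f) (H : Subgroup G) :
    cl (H.map f) = cl H :=
  cl_map_of_inf_ker f (by rw [(MonoidHom.ker_eq_bot_iff f).mpr hf, inf_bot_eq])

theorem cl_top_coe (K : Subgroup G) : cl (⊤ : Subgroup K) = cl K := by
  rw [← cl_map_of_injective K.subtype_injective, ← MonoidHom.range_eq_map, K.range_subtype]

theorem cl_lt_of_lt {A B : Subgroup G} (h : A < B) (hn : ∀ c ∈ B, ∀ a ∈ A, c * a * c⁻¹ ∈ A) :
    cl A < cl B := ((ch_cl A).step h hn).le_cl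

theorem cl_le_of_le {A B : Subgroup G} (h : A ≤ B) (hn : ∀ c ∈ B, ∀ a ∈ A, c * a * c⁻¹ ∈ A) :
    cl A ≤ cl B := by
  obtain ⟨m, h1, -, h2⟩ := (ch_cl A).step' h hn
  exact h1.trans h2.le_cl

theorem cl_le_one {T : Subgroup G}
    (h : ∀ X : Subgroup G, X ≤ T → (∀ t ∈ T, ∀ x ∈ X, t * x * t⁻¹ ∈ X) → X = ⊥ ∨ X = T) :
    cl T ≤ 1 := by
  have h1 := ch_cl T
  generalize cl T = l at h1
  cases h1 with
  | refl => omega
  | step h2 h3 h4 =>
    have h5 := h2.le_cl
    rw [(h _ h3.le h4).resolve_right h3.ne, cl_bot] at h5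
    omega

theorem cl_sup_le (A B : Subgroup G) (hn : ∀ b ∈ B, ∀ a ∈ A, b * a * b⁻¹ ∈ A) :
    cl (A ⊔ B) ≤ cl A + cl B := by
  have hN : A ⊔ B ≤ Subgroup.normalizer (A : Set G) := by
    refine sup_le A.le_normalizer fun b hb => Subgroup.mem_normalizer_iff.mpr fun a =>
      ⟨hn b hb a, fun h => ?_⟩
    simpa [mul_assoc] using hn b⁻¹ (B.inv_mem hb) _ h
  have := (Subgroup.normal_subgroupOf_iff_le_normalizer le_sup_left).mpr hN
  let f := QuotientGroup.mk' (A.subgroupOf (A ⊔ B))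
  have h1 := cl_eq_add f ⊤
  have h2 := cl_eq_add f (B.subgroupOf (A ⊔ B))
  have h3 : (⊤ : Subgroup ↥(A ⊔ B)).map f = (B.subgroupOf (A ⊔ B)).map f := by
    rw [← Subgroup.subgroupOf_self, Subgroup.subgroupOf_sup le_sup_left le_sup_right,
      Subgroup.map_sup, (Subgroup.map_eq_bot_iff _).mpr (QuotientGroup.ker_mk' _).ge, bot_sup_eq]
  have h4 : ∀ X : Subgroup G, X ≤ A ⊔ B → cl (X.subgroupOf (A ⊔ B)) = cl X := fun X hX => by
    rw [← cl_map_of_injective (A ⊔ B).subtype_injective, Subgroup.map_subgroupOf_eq_of_le hX]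
  rw [cl_top_coe, top_inf_eq, QuotientGroup.ker_mk', h4 A le_sup_left, h3] at h1
  rw [h4 B le_sup_right] at h2
  omega

theorem le_cl_of_chain (l : ℕ) (H : Fin (l + 1) → Subgroup G) (h0 : H 0 = ⊥)
    (h : ∀ i : Fin l, H i.castSucc < H i.succ ∧ ((H i.castSucc).subgroupOf (H i.succ)).Normal) :
    l ≤ cl (H (Fin.last l)) := by
  have key : ∀ i : Fin (l + 1), Ch ⊥ (H i) i := by
    intro i
    induction i using Fin.induction with
    | zero => rw [h0]; exact .refl _
    | succ i ih => exact ih.step (h i).1 fun c hc b hb =>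
        (h i).2.conj_mem ⟨b, (h i).1.le hb⟩ hb ⟨c, hc⟩
  exact (key (Fin.last l)).le_cl

end Cfsg.Lib.Perm.CompLen
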