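import Cfsg.Agent.Perm.CompLen
import Cfsg.Agent.Perm.Socle
import Mathlib.Data.Finite.Perm
import Mathlib.NumberTheory.Padics.PadicVal.Basic

/-!
# The composition length of a permutation group of degree `n` with `r` orbits is at most
`4 (n - r) / 3`
-/

set_option autoImplicit false

open scoped Pointwise

namespace Cfsg.Lib.Perm.CompLen

open MulAction Socle

/-- The bound in degree `n`. -/
def Bd (n : ℕ) : Prop := ∀ (H : Subgroup (Equiv.Perm (Fin n))) (R : Set (Fin n)),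
  (∀ g ∈ H, ∀ x ∈ R, g x ∈ R → g x = x) → 3 * cl H + 4 * R.ncard ≤ 4 * n

variable {G Ω : Type*} [Group G] [Finite G] [Finite Ω]

omit [Finite G] in
theorem Bd.transfer (h : Bd (Nat.card Ω)) (φ : G →* Equiv.Perm Ω) (K : Subgroup G) (R : Set Ω)
    (hR : ∀ g ∈ K, ∀ x ∈ R, φ g x ∈ R → φ g x = x) :
    3 * cl (K.map φ) + 4 * R.ncard ≤ 4 * Nat.card Ω := by
  let e := Finite.equivFin Ω
  have h1 := h ((K.map φ).map e.permCongrHom.toMonoidHom) (e '' R) (by
    rintro _ ⟨_, ⟨g, hg, rfl⟩, rfl⟩ _ ⟨x, hx, rfl⟩ h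
    have h2 : e.permCongrHom.toMonoidHom (φ g) (e x) = e (φ g x) := by simp
    rw [h2] at h ⊢
    rw [hR g hg x hx (e.injective.mem_set_image.mp h)])
  rwa [cl_map_of_injective e.permCongrHom.injective, Set.ncard_image_of_injective _ e.injective]
    at h1

variable [MulAction G Ω]

omit [Finite G] in
theorem bd_sub (S : SubMulAction G Ω) (h : Bd (S : Set Ω).ncard) (K : Subgroup G) (R : Set Ω)
    (hR : ∀ g ∈ K, ∀ x ∈ R, g • x ∈ R → g • x = x) :
    3 * cl (K.map (toPermHom G S)) + 4 * ((S : Set Ω) ∩ R).ncard ≤ 4 * (S : Set Ω).ncard := by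
  have h1 := Bd.transfer (Ω := S) h (toPermHom G S) K (Subtype.val ⁻¹' R)
    fun g hg x hx h => Subtype.ext (hR g hg x hx h)
  rw [← Set.ncard_image_of_injective _ Subtype.val_injective] at h1
  exact Subtype.image_preimage_coe (S : Set Ω) R ▸ h1

variable [FaithfulSMul G Ω]

theorem intrans_top (ih : ∀ m < Nat.card Ω, Bd m) {x y : Ω} (hxy : y ∉ orbit G x) (R : Set Ω)
    (hR : ∀ g : G, ∀ x ∈ R, g • x ∈ R → g • x = x) :
    3 * cl (⊤ : Subgroup G) + 4 * R.ncard ≤ 4 * Nat.card Ω := by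
  let S₁ : SubMulAction G Ω := ⟨orbit G x, fun g _ h => mem_orbit_of_mem_orbit g h⟩
  let S₂ : SubMulAction G Ω := ⟨(orbit G x)ᶜ, fun g z h h' =>
    h (inv_smul_smul g z ▸ mem_orbit_of_mem_orbit g⁻¹ h')⟩
  have h1 : (S₁ : Set Ω).ncard + (S₂ : Set Ω).ncard = Nat.card Ω := Set.ncard_add_ncard_compl _
  have h2 : 0 < (S₁ : Set Ω).ncard := (Set.ncard_pos (Set.toFinite _)).mpr ⟨x, mem_orbit_self x⟩
  have h3 : 0 < (S₂ : Set Ω).ncard := (Set.ncard_pos (Set.toFinite _)).mpr ⟨y, hxy⟩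
  have h4 := bd_sub S₁ (ih _ (by omega)) ⊤ R fun g _ => hR g
  have h5 := bd_sub S₂ (ih _ (by omega)) (⊤ ⊓ (toPermHom G S₁).ker) R fun g _ => hR g
  have h6 := cl_eq_add (toPermHom G S₁) ⊤
  rw [cl_map_of_inf_ker] at h5
  · have h7 : ((S₁ : Set Ω) ∩ R).ncard + ((S₂ : Set Ω) ∩ R).ncard = R.ncard := by
      rw [Set.inter_comm, Set.inter_comm _ R]
      exact Set.ncard_inter_add_ncard_sdiff_eq_ncard R (orbit G x)
    omega
  · refine eq_bot_iff.mpr fun g hg => Subgroup.mem_bot.mpr (eq_one_of_fix fun z : Ω => ?_)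
    by_cases hz : z ∈ orbit G x
    · exact congrArg Subtype.val (DFunLike.congr_fun hg.1.2 (⟨z, hz⟩ : S₁))
    · exact congrArg Subtype.val (DFunLike.congr_fun hg.2 (⟨z, hz⟩ : S₂))

theorem intrans (ih : ∀ m < Nat.card Ω, Bd m) (K : Subgroup G) {x y : Ω}
    (hxy : ∀ g ∈ K, g • x ≠ y) (R : Set Ω) (hR : ∀ g ∈ K, ∀ x ∈ R, g • x ∈ R → g • x = x) :
    3 * cl K + 4 * R.ncard ≤ 4 * Nat.card Ω := by
  rw [← cl_top_coe]
  exact intrans_top (G := K) ih (fun ⟨g, hg⟩ => hxy g g.2 hg) R fun g => hR g g.2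

theorem imprim (ih : ∀ m < Nat.card Ω, Bd m) [IsPretransitive G Ω] (h : ¬ IsPreprimitive G Ω) :
    3 * cl (⊤ : Subgroup G) + 4 ≤ 4 * Nat.card Ω := by
  obtain ⟨B, hB, hnt⟩ : ∃ B : Set Ω, IsBlock G B ∧ ¬ IsTrivialBlock B := by
    by_contra h'
    push Not at h'
    exact h ⟨fun hB => h' _ hB⟩
  rw [IsTrivialBlock, not_or, Set.not_subsingleton_iff] at hnt
  have h1 := hB.ncard_block_mul_ncard_orbit_eq hnt.1.nonempty
  have h2 : 1 < B.ncard := Set.one_lt_ncard_iff_nontrivial.mpr hnt.1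
  have h3 : 0 < (orbit G B).ncard := (Set.ncard_pos (Set.toFinite _)).mpr ⟨B, mem_orbit_self B⟩
  have h4 := Bd.transfer (Ω := orbit G B) (ih _ (by
    rw [← h1]; exact lt_mul_of_one_lt_left h3 h2)) (toPermHom G (orbit G B)) ⊤
    {⟨B, mem_orbit_self B⟩} fun g _ x hx h => h.trans hx.symm
  have hne : ∀ C : orbit G B, (C : Set Ω).Nonempty := by
    rintro ⟨_, g, rfl⟩
    exact hnt.1.nonempty.smul_set
  choose p hp using hne
  have hdis : ∀ (C D : orbit G B) (z : Ω), z ∈ (C : Set Ω) → z ∈ (D : Set Ω) → C = D := by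
    rintro ⟨_, g, rfl⟩ ⟨_, k, rfl⟩ z h1 h2
    by_contra h3
    exact Set.disjoint_left.mp (hB fun h => h3 (Subtype.ext h)) h1 h2
  have hK : ∀ g ∈ ⊤ ⊓ (toPermHom G (orbit G B)).ker, ∀ (C : orbit G B) z, z ∈ (C : Set Ω) →
      g • z ∈ (C : Set Ω) := by
    intro g hg C z hz
    have : g • (C : Set Ω) = C := congrArg Subtype.val (DFunLike.congr_fun hg.2 C)
    exact this ▸ Set.smul_mem_smul_set hz
  obtain ⟨x, hx⟩ := hnt.1.nonempty
  obtain ⟨y, hy⟩ := (Set.ne_univ_iff_exists_notMem B).mp hnt.2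
  have h5 := intrans ih (⊤ ⊓ (toPermHom G (orbit G B)).ker) (x := x) (y := y)
    (fun g hg h => hy (h ▸ hK g hg ⟨B, mem_orbit_self B⟩ x hx)) (Set.range p) (by
      rintro g hg _ ⟨C, rfl⟩ ⟨D, hD⟩
      rw [← hD, hdis D C _ (hp D) (hD ▸ hK g hg C _ (hp C))])
  rw [Set.ncard_range_of_injective fun C D (h : p C = p D) => hdis C D _ (hp C) (h ▸ hp D)] at h5
  rw [Set.ncard_singleton] at h4
  have h6 := cl_eq_add (toPermHom G (orbit G B)) ⊤
  omega

omit [Finite Ω] [FaithfulSMul G Ω] in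
theorem cl_top_add {N : Subgroup G} [N.Normal] (htr : ∀ a b : Ω, ∃ n ∈ N, n • a = b) (a : Ω) :
    cl (⊤ : Subgroup G) + cl (stabilizer G a ⊓ N) = cl N + cl (stabilizer G a) := by
  have h1 := cl_eq_add (QuotientGroup.mk' N) ⊤
  have h2 := cl_eq_add (QuotientGroup.mk' N) (stabilizer G a)
  have h3 : (⊤ : Subgroup G).map (QuotientGroup.mk' N) =
      (stabilizer G a).map (QuotientGroup.mk' N) := by
    refine le_antisymm ?_ (Subgroup.map_mono le_top)
    rintro _ ⟨g, -, rfl⟩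
    obtain ⟨n, hn, h⟩ := htr (g • a) a
    refine ⟨n * g, by rwa [SetLike.mem_coe, mem_stabilizer_iff, mul_smul], ?_⟩
    rw [map_mul, QuotientGroup.mk'_apply, (QuotientGroup.eq_one_iff n).mpr hn, one_mul]
  rw [QuotientGroup.ker_mk'] at h1 h2
  rw [top_inf_eq, h3] at h1
  omega

theorem numeric {n l m : ℕ} (hn : 2 ≤ n) (h1 : m ≤ n * (n - 1) ^ Nat.log 2 n) (h2 : 2 ^ l ≤ m)
    (h3 : 3 ^ l * 2 ^ n.factorial.factorization 2 ≤ m * 3 ^ n.factorial.factorization 2) :
    3 * l + 4 ≤ 4 * n := by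
  by_contra h4
  have h5 : (4 * n - 4) / 3 + 1 ≤ l := by omega
  by_cases h6 : n ≤ 10
  · have h7 := (Nat.mul_le_mul_right _ (Nat.pow_le_pow_right (by norm_num) h5)).trans
      (h3.trans (Nat.mul_le_mul_right _ h1))
    rw [Nat.factorization_factorial Nat.prime_two (b := 4)
      (Nat.log_lt_of_lt_pow (by omega) (by omega))] at h7
    revert h7
    interval_cases n <;> decide +kernel
  have h7 := (Nat.pow_le_pow_right (by norm_num) h5).trans (h2.trans h1)
  by_cases h8 : n < 32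
  · revert h7
    interval_cases n <;> decide +kernel
  obtain ⟨b, hb⟩ : ∃ b, Nat.log 2 n = b + 5 :=
    ⟨Nat.log 2 n - 5, by have := Nat.le_log_of_pow_le (b := 2) (x := 5) (y := n) (by norm_num) (by omega); omega⟩
  have h9 := Nat.pow_log_le_self 2 (show n ≠ 0 by omega)
  have h10 := Nat.lt_pow_succ_log_self (b := 2) (by norm_num) n
  rw [hb] at h7 h9 h10
  have h11 : n * (n - 1) ^ (b + 5) < (2 ^ (b + 6)) ^ (b + 6) := by
    rw [pow_succ' _ (b + 5)]
    exact Nat.mul_lt_mul_of_lt_of_le h10 (Nat.pow_le_pow_left ((Nat.sub_le _ _).trans h10.le) _)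
      (by positivity)
  rw [← pow_mul] at h11
  have h12 := (Nat.pow_lt_pow_iff_right (by norm_num)).mp (h7.trans_lt h11)
  have h13 : ∀ b : ℕ, 3 * ((b + 6) * (b + 6)) + 1 ≤ 4 * 2 ^ (b + 5) := by
    intro b
    induction b with
    | zero => norm_num
    | succ b ih => rw [show b + 1 + 5 = b + 5 + 1 from rfl, pow_succ]; nlinarith
  have := h13 b
  omega

omit [Finite Ω] in
theorem card_le_pow {N : Subgroup G} [hN : N.Normal] (htr : ∀ a b : Ω, ∃ n ∈ N, n • a = b) (a : Ω)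
    (h2 : 2 ≤ Nat.card N) (j : ℕ) (L : Subgroup G) (hL : L ≤ stabilizer G a)
    (h : Nat.card N < 2 ^ (j + 1) * Nat.card ↥(N ⊓ Subgroup.centralizer (L : Set G))) :
    Nat.card L ≤ (Nat.card N - 1) ^ j := by
  have key : ∀ L : Subgroup G, L ≤ stabilizer G a → N ≤ Subgroup.centralizer (L : Set G) →
      Nat.card L = 1 := fun L hL h => Subgroup.card_eq_one.mpr (eq_bot_iff.mpr fun g hg =>
    eq_one_of_comm_of_fix htr (fun m hm => (h hm g hg).symm) (hL hg))
  have key2 : ∀ A B : Subgroup G, A < B → 2 * Nat.card A ≤ Nat.card B := by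
    intro A B h
    obtain ⟨m, hm⟩ := Subgroup.card_dvd_of_le h.le
    have h2 : 2 ≤ m := by
      by_contra h2
      refine h.ne (Subgroup.eq_of_le_of_card_ge h.le ?_)
      rw [hm]
      exact mul_le_of_le_one_right' (by omega)
    rw [hm, mul_comm]
    exact Nat.mul_le_mul_left _ h2
  induction j generalizing L with
  | zero =>
    refine (key L hL (inf_eq_left.mp ?_)).le
    by_contra h1
    have := key2 _ _ (lt_of_le_of_ne inf_le_left h1)
    omega
  | succ j ih =>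
    by_cases h1 : N ≤ Subgroup.centralizer (L : Set G)
    · rw [key L hL h1]; exact Nat.one_le_pow _ _ (by omega)
    obtain ⟨x, hx, hx'⟩ := SetLike.not_le_iff_exists.mp h1
    have h3 := key2 (N ⊓ Subgroup.centralizer (L : Set G))
      (N ⊓ Subgroup.centralizer ((L ⊓ Subgroup.centralizer {x} : Subgroup G) : Set G))
      (SetLike.lt_iff_le_and_exists.mpr ⟨inf_le_inf_left _ (Subgroup.centralizer_le inf_le_left),
        x, Subgroup.mem_inf.mpr ⟨hx, fun g hg => (Subgroup.mem_centralizer_singleton_iff.mp hg.2)⟩,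
        fun h => hx' (Subgroup.mem_inf.mp h).2⟩)
    have h4 := ih (L ⊓ Subgroup.centralizer {x}) (inf_le_left.trans hL) (by
      rw [pow_succ, mul_assoc] at h
      exact h.trans_le (Nat.mul_le_mul_left _ h3))
    let _ : MulAction L G := MulAction.compHom G (MulAut.conj.comp L.subtype)
    have h5 := (stabilizer L x).card_mul_index
    have h6 : Nat.card (stabilizer L x) = Nat.card ↥(L ⊓ Subgroup.centralizer {x}) := by
      rw [← Subgroup.card_map_of_injective L.subtype_injective]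
      congr 2
      ext g
      constructor
      · rintro ⟨g, hg, rfl⟩
        exact ⟨g.2, Subgroup.mem_centralizer_singleton_iff.mpr (mul_inv_eq_iff_eq_mul.mp hg)⟩
      · exact fun hg => ⟨⟨g, hg.1⟩,
          mul_inv_eq_iff_eq_mul.mpr (Subgroup.mem_centralizer_singleton_iff.mp hg.2), rfl⟩
    have h7 : (stabilizer L x).index ≤ Nat.card N - 1 := by
      rw [index_stabilizer, show Nat.card N = (N : Set G).ncard from rfl,
        ← Set.ncard_sdiff_singleton_of_mem N.one_mem]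
      refine Set.ncard_le_ncard ?_
      rintro _ ⟨g, rfl⟩
      refine ⟨hN.conj_mem x hx g, fun h => hx' ?_⟩
      rw [eq_one_of_conj h]
      exact Subgroup.one_mem _
    rw [← h5, h6, pow_succ]
    exact Nat.mul_le_mul h4 h7

theorem prim_abelian [Nontrivial Ω] (hprim : IsPreprimitive G Ω) {N : Subgroup G} (hN : MinN N)
    (hc : IsMulCommutative N) : 3 * cl (⊤ : Subgroup G) + 4 ≤ 4 * Nat.card Ω := by
  classical
  have := hN.normal
  have htr := exists_smul_of_normal hprim hN.normal hN.ne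
  obtain ⟨a⟩ : Nonempty Ω := inferInstance
  have : IsPretransitive N Ω := ⟨fun x y => by
    obtain ⟨n, hn, h⟩ := htr x y
    exact ⟨⟨n, hn⟩, h⟩⟩
  have h1 : Nat.card N = Nat.card Ω := by
    rw [← Subgroup.index_bot, ← stabilizer_eq_bot_of
      (fun n hn a ha => eq_one_of_comm_normal hprim hN.normal hN.ne hc hn ha) a,
      index_stabilizer_of_transitive]
  have h2 : 2 ≤ Nat.card Ω := Finite.one_lt_card
  have h3 := card_le_pow htr a (h1 ▸ h2) (Nat.log 2 (Nat.card Ω)) _ le_rfl (by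
    rw [h1]
    exact (Nat.lt_pow_succ_log_self (by norm_num) _).trans_le
      (Nat.le_mul_of_pos_right _ Nat.card_pos))
  have h4 := (stabilizer G a).card_mul_index
  rw [index_stabilizer_of_transitive] at h4
  refine numeric h2 ?_ (two_pow_cl_le ⊤) (three_pow_cl_le ⊤ ?_)
  · rw [Subgroup.card_top, ← h4, mul_comm, ← h1]
    exact Nat.mul_le_mul_left _ (h1 ▸ h3)
  · rw [Subgroup.card_top, ← Nat.card_perm]
    exact (Nat.factorization_le_iff_dvd Nat.card_pos.ne' Nat.card_pos.ne').mpr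
      (Subgroup.card_dvd_of_injective (toPermHom G Ω) toPerm_injective) 2

section Factors
omit [Finite Ω] [MulAction G Ω] [FaithfulSMul G Ω]
variable {N : Subgroup G}

theorem cl_sup_factors (hN : MinN N) (S : Finset (Subgroup G)) (hS : ∀ T ∈ S, Factor N T) :
    cl (S.sup id) ≤ S.card := by
  classical
  induction S using Finset.induction_on with
  | empty => exact cl_bot.le
  | insert T S hT ih =>
    have h1 := hS T (Finset.mem_insert_self _ _)
    have h2 : ∀ U ∈ S, Factor N U := fun U hU => hS U (Finset.mem_insert_of_mem hU)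
    have h3 : S.sup id ≤ N := Finset.sup_le fun U hU => (h2 U hU).le
    have h4 := cl_sup_le T (S.sup id) fun b hb => h1.conj b (h3 hb)
    have h5 := cl_le_one (h1.min' hN)
    have h6 := ih h2
    rw [Finset.sup_insert, Finset.card_insert_of_notMem hT, id]
    omega

omit [Finite G] in
theorem conj_mem_sup_factors (S : Finset (Subgroup G)) (hS : ∀ T ∈ S, Factor N T) {n : G}
    (hn : n ∈ N) {x : G} (hx : x ∈ S.sup id) : n * x * n⁻¹ ∈ S.sup id :=
  (show S.sup id ≤ (S.sup id).comap (MulAut.conj n).toMonoidHom from Finset.sup_le fun U hU _ hy =>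
    Finset.le_sup (f := id) hU ((hS U hU).conj n hn _ hy)) hx

theorem card_le_cl (hN : MinN N) (hna : ¬ IsMulCommutative N) {H : Subgroup G} (hH : H ≤ N)
    (S : Finset (Subgroup G)) (hS : ∀ T ∈ S, Factor N T ∧ ∃ t ∈ T, t ∈ H ∧ t ≠ 1) :
    S.card ≤ cl (H ⊓ S.sup id) := by
  classical
  induction S using Finset.induction_on with
  | empty => exact Nat.zero_le _
  | insert T S hT ih =>
    obtain ⟨h1, t, ht, htH, ht1⟩ := hS T (Finset.mem_insert_self _ _)
    have h2 := fun U hU => hS U (Finset.mem_insert_of_mem hU)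
    have h3 : S.sup id ≤ Subgroup.centralizer (T : Set G) := Finset.sup_le fun U hU x hx s hs =>
      h1.comm (h2 U hU).1 (fun h => hT (h ▸ hU)) hs hx
    rw [Finset.sup_insert, Finset.card_insert_of_notMem hT, id]
    refine (ih h2).trans_lt (cl_lt_of_lt (SetLike.lt_iff_le_and_exists.mpr
      ⟨inf_le_inf_left _ le_sup_right, t, Subgroup.mem_inf.mpr ⟨htH, Subgroup.mem_sup_left ht⟩,
        fun h => ht1 (h1.eq_one_of_cent hN hna ht fun s hs =>
          (h3 (Subgroup.mem_inf.mp h).2 s hs).symm)⟩) fun c hc x hx =>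
      ⟨H.mul_mem (H.mul_mem hc.1 hx.1) (H.inv_mem hc.1),
        conj_mem_sup_factors S (fun U hU => (h2 U hU).1) (hH hc.1) hx.2⟩)

theorem bd_conj (X : Set G) (hX : ∀ g, ∀ x ∈ X, g * x * g⁻¹ ∈ X) (h : Bd X.ncard) (K : Subgroup G)
    (hK : ∀ k ∈ K, (∀ x ∈ X, k * x * k⁻¹ = x) → k = 1) : 3 * cl K ≤ 4 * X.ncard := by
  let S : SubMulAction (ConjAct G) G := ⟨X, fun g _ hx => hX (ConjAct.ofConjAct g) _ hx⟩
  have h1 := Bd.transfer (Ω := S) h ((toPermHom (ConjAct G) S).comp ConjAct.toConjAct.toMonoidHom)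
    K ∅ (by simp)
  rw [cl_map_of_inf_ker] at h1
  · exact le_self_add.trans h1
  · exact eq_bot_iff.mpr fun k hk => hK k hk.1 fun x hx =>
      congrArg Subtype.val (DFunLike.congr_fun hk.2 (⟨x, hx⟩ : S))

end Factors

omit [Finite G] [Finite Ω] [FaithfulSMul G Ω] in
theorem eq_one_of_three [Nontrivial Ω] (hprim : IsPreprimitive G Ω) {N : Subgroup G} (hN : MinN N)
    (hna : ¬ IsMulCommutative N) {a : Ω} {T₁ T₂ T₃ : Subgroup G} (h₁ : Factor N T₁)
    (h₂ : Factor N T₂) (h₃ : Factor N T₃) (h12 : T₁ ≠ T₂) (h13 : T₁ ≠ T₃) (h23 : T₂ ≠ T₃)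
    (hT : ∀ t ∈ T₁, t • a = a → t = 1) {x y z : G} (hx : x ∈ T₁) (hy : y ∈ T₂) (hz : z ∈ T₃)
    (hxy : x • a = y • a) (hxz : x • a = z • a) : x = 1 := by
  have hn := hN.normal
  let P : Subgroup G :=
    { carrier := {n | n ∈ N ∧ ∀ U, Factor N U → ∃ h ∈ N, h • a = a ∧
        ∀ s ∈ U, n * s * n⁻¹ = h * s * h⁻¹}
      one_mem' := ⟨N.one_mem, fun _ _ => ⟨1, N.one_mem, one_smul _ _, fun _ _ => rfl⟩⟩
      mul_mem' := by
        rintro n m ⟨h1, h2⟩ ⟨h3, h4⟩
        refine ⟨N.mul_mem h1 h3, fun U hU => ?_⟩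
        obtain ⟨h, h5, h6, h7⟩ := h2 U hU
        obtain ⟨k, h8, h9, h10⟩ := h4 U hU
        refine ⟨h * k, N.mul_mem h5 h8, by rw [mul_smul, h9, h6], fun s hs => ?_⟩
        calc n * m * s * (n * m)⁻¹ = n * (m * s * m⁻¹) * n⁻¹ := by group
          _ = h * (k * s * k⁻¹) * h⁻¹ := by rw [h10 s hs, h7 _ (hU.conj k h8 s hs)]
          _ = _ := by group
      inv_mem' := by
        rintro n ⟨h1, h2⟩
        refine ⟨N.inv_mem h1, fun U hU => ?_⟩
        obtain ⟨h, h5, h6, h7⟩ := h2 U hU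
        refine ⟨h⁻¹, N.inv_mem h5, by rw [inv_smul_eq_iff, h6], fun s hs => ?_⟩
        have := h7 _ (hU.conj' h1 hs)
        calc n⁻¹ * s * n⁻¹⁻¹ = h⁻¹ * (h * (n⁻¹ * s * n) * h⁻¹) * h := by group
          _ = _ := by rw [← this]; group }
  have hP : ∀ k : G, k • a = a → ∀ p ∈ P, k * p * k⁻¹ ∈ P := by
    rintro k hk p ⟨h1, h2⟩
    refine ⟨hn.conj_mem p h1 k, fun U hU => ?_⟩
    obtain ⟨h, h3, h4, h5⟩ := h2 _ (hU.smul k⁻¹)
    refine ⟨k * h * k⁻¹, hn.conj_mem h h3 k,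
      by rw [mul_smul, mul_smul, inv_smul_eq_iff.mpr hk.symm, h4, hk], fun s hs => ?_⟩
    have := h5 (k⁻¹ * s * k) (mem_cj.mpr (by simpa [mul_assoc] using hs))
    calc k * p * k⁻¹ * s * (k * p * k⁻¹)⁻¹ = k * (p * (k⁻¹ * s * k) * p⁻¹) * k⁻¹ := by group
      _ = _ := by rw [this]; group
  let M : Subgroup G :=
    { carrier := {g | ∃ p ∈ P, p • a = g • a}
      one_mem' := ⟨1, P.one_mem, rfl⟩
      mul_mem' := by
        rintro g k ⟨p, hp, h1⟩ ⟨q, hq, h2⟩
        have h3 : (p⁻¹ * g) • a = a := by rw [mul_smul, ← h1, inv_smul_smul]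
        refine ⟨p * (p⁻¹ * g * q * (p⁻¹ * g)⁻¹), P.mul_mem hp (hP _ h3 q hq), ?_⟩
        rw [mul_smul, mul_smul, inv_smul_eq_iff.mpr h3.symm, mul_smul, h2, mul_smul, smul_inv_smul,
          mul_smul]
      inv_mem' := by
        rintro g ⟨p, hp, h1⟩
        have h3 : (g⁻¹ * p) • a = a := by rw [mul_smul, h1, inv_smul_smul]
        refine ⟨g⁻¹ * p * p⁻¹ * (g⁻¹ * p)⁻¹, hP _ h3 _ (P.inv_mem hp), ?_⟩
        rw [mul_smul, inv_smul_eq_iff.mpr h3.symm, mul_inv_cancel_right] }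
  have hu : (y⁻¹ * x) • a = a := by rw [mul_smul, hxy, inv_smul_smul]
  have hv : (z⁻¹ * x) • a = a := by rw [mul_smul, hxz, inv_smul_smul]
  have huN : y⁻¹ * x ∈ N := N.mul_mem (N.inv_mem (h₂.le hy)) (h₁.le hx)
  rcases (IsPreprimitive.isCoatom_stabilizer_of_isPreprimitive G a).le_iff.mp
    (show stabilizer G a ≤ M from fun g hg => ⟨1, P.one_mem, by rw [one_smul, hg]⟩) with h | h
  · have key : ∀ t ∈ T₁, t * x * t⁻¹ * x = x * (t * x * t⁻¹) := by
      intro t ht
      obtain ⟨p, hp, h1⟩ : t ∈ M := h ▸ Subgroup.mem_top t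
      have h2 : t ∈ P := by
        simpa using P.mul_mem hp (show p⁻¹ * t ∈ P from
          ⟨N.mul_mem (N.inv_mem hp.1) (h₁.le ht), fun U _ => ⟨_, N.mul_mem (N.inv_mem hp.1)
            (h₁.le ht), by rw [mul_smul, ← h1, inv_smul_smul], fun _ _ => rfl⟩⟩)
      obtain ⟨h, h3, h4, h5⟩ := h2.2 _ h₁
      have h6 : (h * y⁻¹ * h⁻¹ * (t * x * t⁻¹)) • a = a := by
        rw [h5 x hx, show h * y⁻¹ * h⁻¹ * (h * x * h⁻¹) = h * (y⁻¹ * x) * h⁻¹ by group, mul_smul,
          mul_smul, inv_smul_eq_iff.mpr h4.symm, hu, h4]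
      have h7 := h₂.conj h h3 _ (T₂.inv_mem hy)
      have h8 := h₁.conj t (h₁.le ht) x hx
      generalize h * y⁻¹ * h⁻¹ = y' at h6 h7
      generalize t * x * t⁻¹ = x' at h6 h8
      have c1 : Commute x' y' := h₁.comm h₂ h12 h8 h7
      have c2 : Commute x y' := h₁.comm h₂ h12 hx h7
      have c3 : Commute x' z⁻¹ := h₁.comm h₃ h13 h8 (T₃.inv_mem hz)
      have c5 : Commute y' z⁻¹ := h₂.comm h₃ h23 h7 (T₃.inv_mem hz)
      have h9 : y' * x' * (z⁻¹ * x) = x' * x * (x * x')⁻¹ * (z⁻¹ * x * (y' * x')) := by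
        have c4 : Commute x z⁻¹ := h₁.comm h₃ h13 hx (T₃.inv_mem hz)
        have e1 : y' * x' * (z⁻¹ * x) = x' * x * (y' * z⁻¹) := by
          rw [← c4.eq, ← c1.eq, mul_assoc x', ← mul_assoc y', ← c2.eq]; group
        have e2 : z⁻¹ * x * (y' * x') = x * x' * (y' * z⁻¹) := by
          rw [← c4.eq, ← c1.eq, mul_assoc x, ← mul_assoc z⁻¹, ← c3.eq, mul_assoc x', ← c5.eq]; group
        rw [e1, e2]; group
      have h10 := hT (x' * x * (x * x')⁻¹)
        (T₁.mul_mem (T₁.mul_mem h8 hx) (T₁.inv_mem (T₁.mul_mem hx h8))) (by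
          have h11 : (y' * x' * (z⁻¹ * x)) • a = a := by rw [mul_smul, hv, h6]
          rwa [h9, mul_smul, mul_smul (z⁻¹ * x), h6, hv] at h11)
      exact mul_inv_eq_one.mp h10
    let X : Subgroup G :=
      { carrier := {s | s ∈ T₁ ∧ ∀ t ∈ T₁, Commute (t * x * t⁻¹) s}
        one_mem' := ⟨T₁.one_mem, fun _ _ => Commute.one_right _⟩
        mul_mem' := fun h1 h2 => ⟨T₁.mul_mem h1.1 h2.1, fun t ht => (h1.2 t ht).mul_right (h2.2 t ht)⟩
        inv_mem' := fun h1 => ⟨T₁.inv_mem h1.1, fun t ht => (h1.2 t ht).inv_right⟩ }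
    rcases h₁.min' hN X (fun _ h => h.1) (fun t ht s hs => ⟨h₁.conj t (h₁.le ht) s hs.1,
      fun r hr => by
        have := (hs.2 (t⁻¹ * r) (T₁.mul_mem (T₁.inv_mem ht) hr)).map (MulAut.conj t)
        simpa [mul_assoc] using this⟩) with h1 | h1
    · exact Subgroup.mem_bot.mp (h1 ▸ (⟨hx, key⟩ : x ∈ X))
    · exact h₁.eq_one_of_cent hN hna hx fun s hs => by
        simpa using ((h1.ge hs).2 1 T₁.one_mem).eq
  · refine hT x hx (h.le ⟨x, ⟨h₁.le hx, fun U hU => ?_⟩, rfl⟩)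
    by_cases h1 : T₁ = U
    · subst h1
      refine ⟨_, huN, hu, fun s hs => ?_⟩
      have := h₁.comm h₂ h12 (h₁.conj x (h₁.le hx) s hs) hy
      calc x * s * x⁻¹ = y⁻¹ * (y * (x * s * x⁻¹)) := by group
        _ = _ := by rw [← this]; group
    · exact ⟨1, N.one_mem, one_smul _ _, fun s hs => by rw [h₁.comm hU h1 hx hs]; group⟩

theorem prim_nonabelian [Nontrivial Ω] (ih : ∀ m < Nat.card Ω, Bd m) (hprim : IsPreprimitive G Ω)
    {N : Subgroup G} (hN : MinN N) (hna : ¬ IsMulCommutative N) :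
    3 * cl (⊤ : Subgroup G) + 4 ≤ 4 * Nat.card Ω := by
  classical
  have := Fintype.ofFinite G
  have := Fintype.ofFinite Ω
  have hn := hN.normal
  have htr := exists_smul_of_normal hprim hN.normal hN.ne
  obtain ⟨a, b, hab⟩ := exists_pair_ne Ω
  obtain ⟨T, hT⟩ := exists_factor hN.ne
  let S : Finset (Subgroup G) := Finset.univ.image fun g : G => MulAut.conj g • T
  have hS : ∀ U ∈ S, ∃ k : G, k • a = a ∧ U = MulAut.conj k • T := by
    intro U hU
    obtain ⟨g, -, rfl⟩ := Finset.mem_image.mp hU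
    obtain ⟨n, hn, h⟩ := htr a (g⁻¹ • a)
    refine ⟨g * n, by rw [mul_smul, h, smul_inv_smul], ?_⟩
    rw [map_mul, mul_smul]
    congr 1
    ext x
    rw [mem_cj]
    exact ⟨hT.conj' hn, fun h => by simpa [mul_assoc] using hT.conj n hn _ h⟩
  have hF : ∀ U ∈ S, Factor N U := fun U hU => by
    obtain ⟨k, -, rfl⟩ := hS U hU
    exact hT.smul k
  have hNS : S.sup id = N := le_antisymm (Finset.sup_le fun U hU => (hF U hU).le)
    (hT.le_of_conj_mem hN fun g t ht => (show MulAut.conj g • T ≤ S.sup id from Finset.le_sup (f := id)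
      (Finset.mem_image_of_mem _ (Finset.mem_univ g))) (mem_cj.mpr (by simpa [mul_assoc] using ht)))
  have h1 : cl N ≤ S.card := hNS ▸ cl_sup_factors hN S hF
  have h2 := cl_top_add htr a
  by_cases h3 : ∀ t ∈ T, t • a = a → t = 1
  swap
  · push Not at h3
    obtain ⟨t, ht, hta, ht1⟩ := h3
    have h4 := card_le_cl hN hna (H := stabilizer G a ⊓ N) inf_le_right S fun U hU => by
      obtain ⟨k, hk, rfl⟩ := hS U hU
      refine ⟨hT.smul k, k * t * k⁻¹, mem_cj.mpr (by simpa [mul_assoc] using ht),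
        ⟨mem_stabilizer_iff.mpr ?_, hn.conj_mem t (hT.le ht) k⟩, fun h => ht1 (eq_one_of_conj h)⟩
      rw [mul_smul, mul_smul, inv_smul_eq_iff.mpr hk.symm, hta, hk]
    rw [hNS, inf_assoc, inf_idem] at h4
    have h5 := intrans ih (stabilizer G a) (x := a) (y := b) (fun g hg h => hab (hg.symm.trans h))
      {a} fun g _ x hx h => h.trans hx.symm
    rw [Set.ncard_singleton] at h5
    omega
  have h4 : ∀ U ∈ S, ∀ t ∈ U, t • a = a → t = 1 := by
    intro U hU t ht hta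
    obtain ⟨k, hk, rfl⟩ := hS U hU
    have := h3 _ (mem_cj.mp ht) (by rw [mul_smul, mul_smul, hk, hta, inv_smul_eq_iff, hk])
    exact eq_one_of_conj (g := k⁻¹) (by rwa [inv_inv])
  let W : Finset G := S.biUnion fun U => (Finset.univ.filter (· ∈ U)).erase 1
  have hW : ∀ x, x ∈ W ↔ x ≠ 1 ∧ ∃ U ∈ S, x ∈ U := fun x => by
    simp only [W, Finset.mem_biUnion, Finset.mem_erase, Finset.mem_filter, Finset.mem_univ, true_and]
    tauto
  have h5 : W.card ≤ 2 * (Finset.univ.erase a).card := by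
    refine Finset.card_le_mul_card_image_of_maps_to (f := fun x => x • a) (fun x hx => ?_) 2
      fun c _ => ?_
    · obtain ⟨h5, U, hU, h6⟩ := (hW x).mp hx
      exact Finset.mem_erase.mpr ⟨fun h => h5 (h4 U hU x h6 h), Finset.mem_univ _⟩
    by_contra h5
    obtain ⟨x, hx, y, hy, z, hz, hxy, hxz, hyz⟩ := Finset.two_lt_card.mp (not_le.mp h5)
    rw [Finset.mem_filter, hW] at hx hy hz
    obtain ⟨⟨hx1, U₁, hU₁, hx2⟩, hx3⟩ := hx
    obtain ⟨⟨-, U₂, hU₂, hy2⟩, hy3⟩ := hy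
    obtain ⟨⟨-, U₃, hU₃, hz2⟩, hz3⟩ := hz
    have key : ∀ U ∈ S, ∀ u ∈ U, ∀ v ∈ U, u • a = c → v • a = c → u = v := fun U hU u hu v hv h h' =>
      inv_mul_eq_one.mp (h4 U hU _ (U.mul_mem (U.inv_mem hu) hv)
        (by rw [mul_smul, h', ← h, inv_smul_smul]))
    exact hx1 (eq_one_of_three hprim hN hna (hF _ hU₁) (hF _ hU₂) (hF _ hU₃)
      (fun h => hxy (key _ hU₂ x (h ▸ hx2) y hy2 hx3 hy3))
      (fun h => hxz (key _ hU₃ x (h ▸ hx2) z hz2 hx3 hz3))
      (fun h => hyz (key _ hU₃ y (h ▸ hy2) z hz2 hy3 hz3)) (h4 _ hU₁) hx2 hy2 hz2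
      (hx3.trans hy3.symm) (hx3.trans hz3.symm))
  rw [Finset.card_erase_of_mem (Finset.mem_univ _), Finset.card_univ, ← Nat.card_eq_fintype_card] at h5
  have h6 : S.card * 5 ≤ W.card := by
    rw [Finset.card_biUnion]
    · refine Finset.card_nsmul_le_sum S _ 5 fun U hU => ?_
      obtain ⟨s, h6, h7, h8⟩ := exists_three_primes ((hF U hU).not_isSolvable hN hna)
      have h9 : orderOf (s 0) * orderOf (s 1) ∣ Nat.card U :=
        ((Nat.coprime_primes (h7 0) (h7 1)).mpr (h8.ne (by decide))).mul_dvd_of_dvd_of_dvd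
          (U.orderOf_dvd_natCard (h6 0)) (U.orderOf_dvd_natCard (h6 1))
      have h10 := Nat.le_of_dvd Nat.card_pos h9
      have h11 := (h7 0).two_le
      have h12 := (h7 1).two_le
      have h13 : orderOf (s 0) ≠ orderOf (s 1) := h8.ne (by decide)
      have h14 : 6 ≤ orderOf (s 0) * orderOf (s 1) := by
        rcases h13.lt_or_gt with h | h <;> nlinarith
      rw [Finset.card_erase_of_mem (by simp), ← Fintype.card_subtype, ← Nat.card_eq_fintype_card]
      omega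
    · intro U hU V hV hUV
      refine Finset.disjoint_left.mpr fun x hx hx' => ?_
      simp only [Finset.mem_erase, Finset.mem_filter, Finset.mem_univ, true_and] at hx hx'
      exact hx.1 ((hF U hU).eq_one_of_mem (hF V hV) hUV hx.2 hx'.2)
  obtain ⟨s, h7, h8, h9⟩ := exists_three_primes (hT.not_isSolvable hN hna)
  obtain ⟨i, hi⟩ : ∃ i, 3 * (W.filter fun x => orderOf x = orderOf (s i)).card ≤ W.card := by
    have h10 : ∑ i, (W.filter fun x => orderOf x = orderOf (s i)).card ≤ W.card := by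
      rw [← Finset.card_biUnion]
      · exact Finset.card_le_card (Finset.biUnion_subset.mpr fun i _ => Finset.filter_subset _ _)
      · intro i _ j _ hij
        exact Finset.disjoint_filter.mpr fun x _ h h' => hij (h9 (h.symm.trans h'))
    rw [Fin.sum_univ_three] at h10
    by_contra h11
    push Not at h11
    have := h11 0
    have := h11 1
    have := h11 2
    omega
  have hs1 : s i ≠ 1 := fun h => (h8 i).ne_one (by rw [h, orderOf_one])
  have hX : ∀ g, ∀ x ∈ W.filter fun x => orderOf x = orderOf (s i),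
      g * x * g⁻¹ ∈ W.filter fun x => orderOf x = orderOf (s i) := by
    intro g x hx
    rw [Finset.mem_filter, hW] at hx ⊢
    obtain ⟨⟨h10, U, hU, h11⟩, h12⟩ := hx
    obtain ⟨k, -, rfl⟩ := hS U hU
    refine ⟨⟨fun h => h10 (eq_one_of_conj h), _, Finset.mem_image_of_mem _ (Finset.mem_univ (g * k)),
      mem_cj.mpr (by simpa [mul_assoc] using mem_cj.mp h11)⟩, ?_⟩
    rw [← h12]
    exact (MulAut.conj g).orderOf_eq x
  have h2' : 2 ≤ Nat.card Ω := Finite.one_lt_card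
  have h10 := bd_conj (W.filter fun x => orderOf x = orderOf (s i) : Finset G) hX
    (ih _ (by rw [Set.ncard_coe_finset]; omega)) (stabilizer G a) fun k hk h => by
      refine eq_one_of_comm_of_fix htr (fun m hm => ?_) hk
      have h11 : Subgroup.normalClosure {s i} ≤ Subgroup.centralizer {k} := by
        refine (Subgroup.closure_le _).mpr fun x hx => ?_
        obtain ⟨y, rfl, hy⟩ := Group.mem_conjugatesOfSet_iff.mp hx
        obtain ⟨g, rfl⟩ := isConj_iff.mp hy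
        refine Subgroup.mem_centralizer_singleton_iff.mpr (mul_inv_eq_iff_eq_mul.mp
          (h _ (hX g _ (Finset.mem_filter.mpr ⟨(hW _).mpr ⟨hs1, _, Finset.mem_image_of_mem _
            (Finset.mem_univ 1), by simpa using h7 i⟩, rfl⟩)))).symm
      rcases hN.min _ Subgroup.normalClosure_normal (Subgroup.normalClosure_le_normal
        (Set.singleton_subset_iff.mpr (hT.le (h7 i)))) with h12 | h12
      · exact absurd (Subgroup.mem_bot.mp (h12 ▸ Subgroup.subset_normalClosure rfl)) hs1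
      · exact Subgroup.mem_centralizer_singleton_iff.mp (h11 (h12.ge hm))
  rw [Set.ncard_coe_finset] at h10
  omega

theorem bound_of_ih (ih : ∀ m < Nat.card Ω, Bd m) (R : Set Ω)
    (hR : ∀ g : G, ∀ x ∈ R, g • x ∈ R → g • x = x) :
    3 * cl (⊤ : Subgroup G) + 4 * R.ncard ≤ 4 * Nat.card Ω := by
  rcases subsingleton_or_nontrivial Ω with h0 | h0
  · have : (⊤ : Subgroup G) = ⊥ :=
      eq_bot_iff.mpr fun g _ => eq_one_of_fix fun z : Ω => Subsingleton.elim _ _
    have h1 := Set.ncard_le_card R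
    rw [this, cl_bot]
    omega
  by_cases htr : IsPretransitive G Ω
  swap
  · obtain ⟨x, y, h⟩ : ∃ x y : Ω, y ∉ orbit G x := by
      by_contra h
      push Not at h
      exact htr ⟨h⟩
    exact intrans_top ih h R hR
  have h1 : R.ncard ≤ 1 := (Set.ncard_le_one (Set.toFinite _)).mpr fun x hx y hy => by
    obtain ⟨g, rfl⟩ := htr.exists_smul_eq x y
    exact (hR g x hx hy).symm
  suffices 3 * cl (⊤ : Subgroup G) + 4 ≤ 4 * Nat.card Ω by omega
  by_cases hprim : IsPreprimitive G Ω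
  swap
  · exact imprim ih hprim
  obtain ⟨N, hN, -⟩ := exists_minN (⊤ : Subgroup G) (by
    obtain ⟨x, y, h⟩ := exists_pair_ne Ω
    obtain ⟨g, rfl⟩ := htr.exists_smul_eq x y
    intro h'
    rw [Subgroup.mem_bot.mp (h'.le (Subgroup.mem_top g)), one_smul] at h
    exact h rfl)
  by_cases hc : IsMulCommutative N
  · exact prim_abelian hprim hN hc
  · exact prim_nonabelian ih hprim hN hc

theorem bd (n : ℕ) : Bd n := by
  induction n using Nat.strong_induction_on with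
  | _ n ih =>
  intro H R hR
  have := bound_of_ih (G := H) (Ω := Fin n) (by simpa using ih) R fun g => hR g g.2
  rwa [cl_top_coe, Nat.card_fin] at this

theorem bound (R : Set Ω) (hR : ∀ g : G, ∀ x ∈ R, g • x ∈ R → g • x = x) :
    3 * cl (⊤ : Subgroup G) + 4 * R.ncard ≤ 4 * Nat.card Ω :=
  bound_of_ih (fun m _ => bd m) R hR

end Cfsg.Lib.Perm.CompLen
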