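import Mathlib.GroupTheory.GroupAction.MultipleTransitivity
import Mathlib.Tactic.Positivity
import Mathlib.Tactic.FieldSimp
import Mathlib.Algebra.BigOperators.Field
import Cfsg.Agent.Perm.Derange

/-!
Counting derangements: rank bound and the formula for doubly transitive groups.
-/

set_option autoImplicit false

namespace Cfsg.Lib.Perm.Derange

open MulAction Finset
open scoped Pointwise

variable {G Ω : Type*} [Group G] [MulAction G Ω]

theorem card_fixedBy_le [Finite Ω] (g : G) : Nat.card (fixedBy Ω g) ≤ Nat.card Ω :=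
  Finite.card_subtype_le _

theorem card_fixedBy_lt [Finite Ω] [FaithfulSMul G Ω] {g : G} (hg : g ≠ 1) :
    Nat.card (fixedBy Ω g) < Nat.card Ω := by
  refine lt_of_le_of_ne (card_fixedBy_le g) fun h => hg ?_
  rw [Nat.card_coe_set_eq, ← Set.eq_univ_iff_ncard] at h
  exact fixedBy_eq_univ_iff_eq_one.mp h

theorem card_fixedBy_eq_zero_iff [Finite Ω] {g : G} :
    Nat.card (fixedBy Ω g) = 0 ↔ ∀ ω : Ω, g • ω ≠ ω := by
  rw [Nat.card_coe_set_eq, Set.ncard_eq_zero, Set.eq_empty_iff_forall_notMem]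
  rfl

theorem card_der_eq [Fintype G] [Finite Ω] : Nat.card {g : G // ∀ ω : Ω, g • ω ≠ ω} =
    ∑ g : G, if Nat.card (fixedBy Ω g) = 0 then 1 else 0 := by
  classical
  rw [← card_filter, Nat.card_eq_fintype_card, Fintype.card_subtype]
  simp only [card_fixedBy_eq_zero_iff]

theorem pointwise_le {f n : ℕ} (h : f ≤ n) :
    f * f + n ≤ (n + 1) * f + n * if f = 0 then 1 else 0 := by
  split_ifs with h0
  · simp [h0]
  · obtain ⟨k, rfl⟩ := Nat.exists_eq_succ_of_ne_zero h0
    nlinarith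

theorem sum_pointwise [Fintype G] [Finite Ω] [IsPretransitive G Ω] [Nonempty Ω] :
    ∑ g : G, (Nat.card (fixedBy Ω g) * Nat.card (fixedBy Ω g) + Nat.card Ω) =
        Nat.card (orbitRel.Quotient G (Ω × Ω)) * Nat.card G + Nat.card Ω * Nat.card G ∧
      ∑ g : G, ((Nat.card Ω + 1) * Nat.card (fixedBy Ω g) +
        Nat.card Ω * if Nat.card (fixedBy Ω g) = 0 then 1 else 0) =
        (Nat.card Ω + 1) * Nat.card G + Nat.card Ω * Nat.card {g : G // ∀ ω : Ω, g • ω ≠ ω} := by
  constructor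
  · simp only [sum_add_distrib, ← card_fixedBy_prod, burnside, sum_const, card_univ, smul_eq_mul,
      ← Nat.card_eq_fintype_card, mul_comm]
  · simp only [sum_add_distrib, ← mul_sum, burnside, card_quotient_eq_one, one_mul, ← card_der_eq]

/-- The Cameron–Cohen bound. -/
theorem rank_mul_card_le [Finite G] [Finite Ω] [IsPretransitive G Ω] [Nonempty Ω] :
    Nat.card (orbitRel.Quotient G (Ω × Ω)) * Nat.card G ≤
      Nat.card G + Nat.card Ω * Nat.card {g : G // ∀ ω : Ω, g • ω ≠ ω} := by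
  have := Fintype.ofFinite G
  have h := sum_le_sum fun (g : G) (_ : g ∈ univ) => pointwise_le (card_fixedBy_le (Ω := Ω) g)
  rw [sum_pointwise.1, sum_pointwise.2] at h
  linarith

theorem rank_mul_card_lt [Finite G] [Finite Ω] [IsPretransitive G Ω] [FaithfulSMul G Ω]
    {g : G} (hg : g ≠ 1) (h2 : 1 < Nat.card (fixedBy Ω g)) :
    Nat.card (orbitRel.Quotient G (Ω × Ω)) * Nat.card G <
      Nat.card G + Nat.card Ω * Nat.card {g : G // ∀ ω : Ω, g • ω ≠ ω} := by
  have := Fintype.ofFinite G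
  have h3 := card_fixedBy_lt (Ω := Ω) hg
  have : Nonempty Ω := (Nat.card_pos_iff.mp (by omega)).1
  have h := sum_lt_sum
    (fun (g : G) (_ : g ∈ univ) => pointwise_le (card_fixedBy_le (Ω := Ω) g))
    ⟨g, mem_univ _, by rw [if_neg (by omega)]; nlinarith⟩
  rw [sum_pointwise.1, sum_pointwise.2] at h
  linarith

theorem rank_mul_card_eq [Finite G] [Finite Ω] [IsPretransitive G Ω] [Nonempty Ω]
    (h : ∀ g : G, g ≠ 1 → Nat.card (fixedBy Ω g) ≤ 1) :
    Nat.card (orbitRel.Quotient G (Ω × Ω)) * Nat.card G =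
      Nat.card G + Nat.card Ω * Nat.card {g : G // ∀ ω : Ω, g • ω ≠ ω} := by
  have := Fintype.ofFinite G
  have h1 : ∑ g : G, (Nat.card (fixedBy Ω g) * Nat.card (fixedBy Ω g) + Nat.card Ω) =
      ∑ g : G, ((Nat.card Ω + 1) * Nat.card (fixedBy Ω g) +
        Nat.card Ω * if Nat.card (fixedBy Ω g) = 0 then 1 else 0) := by
    refine sum_congr rfl fun g _ => ?_
    by_cases hg : g = 1
    · have : Nat.card Ω ≠ 0 := Nat.card_pos.ne'
      rw [hg, fixedBy_one_eq_univ, Nat.card_univ, if_neg this]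
      ring
    · rcases Nat.le_one_iff_eq_zero_or_eq_one.mp (h g hg) with h2 | h2 <;> simp [h2, add_comm]
  rw [sum_pointwise.1, sum_pointwise.2] at h1
  linarith

theorem mk_diag_ne {a c d : Ω} (hcd : c ≠ d) :
    (Quotient.mk'' (c, d) : orbitRel.Quotient G (Ω × Ω)) ≠ Quotient.mk'' (a, a) := by
  intro h
  obtain ⟨g, hg⟩ := Quotient.exact' h
  exact hcd ((congrArg Prod.fst hg).symm.trans (congrArg Prod.snd hg))

theorem three_le_rank [Finite Ω] (h : ¬ IsMultiplyPretransitive G Ω 2) :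
    3 ≤ Nat.card (orbitRel.Quotient G (Ω × Ω)) := by
  classical
  rw [is_two_pretransitive_iff] at h
  push Not at h
  obtain ⟨a, b, c, d, hab, hcd, h⟩ := h
  have := Fintype.ofFinite (orbitRel.Quotient G (Ω × Ω))
  rw [Nat.card_eq_fintype_card]
  refine Fintype.two_lt_card_iff.mpr ⟨Quotient.mk'' (a, a), Quotient.mk'' (a, b),
    Quotient.mk'' (c, d), (mk_diag_ne hab).symm, (mk_diag_ne hcd).symm, fun h' => ?_⟩
  obtain ⟨g, hg⟩ := Quotient.exact' h'.symm
  exact h g (congrArg Prod.fst hg) (congrArg Prod.snd hg)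

theorem rank_eq_two [IsPretransitive G Ω] [Nontrivial Ω] (h : IsMultiplyPretransitive G Ω 2) :
    Nat.card (orbitRel.Quotient G (Ω × Ω)) = 2 := by
  obtain ⟨a, b, hab⟩ := exists_pair_ne Ω
  rw [Nat.card_eq_two_iff' (Quotient.mk'' (a, a))]
  refine ⟨Quotient.mk'' (a, b), mk_diag_ne hab, fun y hy => ?_⟩
  obtain ⟨⟨c, d⟩, rfl⟩ := Quotient.exists_rep y
  by_cases hcd : c = d
  · subst hcd
    obtain ⟨g, hg⟩ := exists_smul_eq G a c
    exact (hy (Quotient.sound' ⟨g, Prod.ext hg hg⟩)).elim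
  · obtain ⟨g, h1, h2⟩ := is_two_pretransitive_iff.mp h hab hcd
    exact Quotient.sound' ⟨g, Prod.ext h1 h2⟩

theorem card_fixedBy_conj (k g : G) :
    Nat.card (fixedBy Ω (k * g * k⁻¹)) = Nat.card (fixedBy Ω g) := by
  rw [← smul_fixedBy, Nat.card_coe_set_eq, Nat.card_coe_set_eq, Set.ncard_smul_set]

theorem sum_weight [Fintype G] [Fintype Ω] [DecidableEq Ω] (h2 : IsMultiplyPretransitive G Ω 2)
    {a b : Ω} (hab : a ≠ b) (w : ℕ → ℚ) :
    ∑ g : G, (Nat.card (fixedBy Ω g) : ℚ) * (Nat.card (fixedBy Ω g) - 1) *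
        w (Nat.card (fixedBy Ω g)) =
      (Fintype.card Ω : ℚ) * (Fintype.card Ω - 1) *
        ∑ g ∈ univ.filter fun g : G => g • a = a ∧ g • b = b, w (Nat.card (fixedBy Ω g)) := by
  have h1 : ∀ g : G, (Nat.card (fixedBy Ω g) : ℚ) * (Nat.card (fixedBy Ω g) - 1) =
      ∑ x ∈ (univ : Finset Ω).offDiag, if g • x.1 = x.1 ∧ g • x.2 = x.2 then 1 else 0 := by
    intro g
    have h3 : Nat.card (fixedBy Ω g) = (univ.filter fun x : Ω => g • x = x).card := by
      rw [← Fintype.card_subtype, ← Nat.card_eq_fintype_card]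
      rfl
    rw [sum_boole, h3, show (univ.offDiag.filter fun x : Ω × Ω => g • x.1 = x.1 ∧ g • x.2 = x.2) =
      (univ.filter fun x : Ω => g • x = x).offDiag by ext x; simp; tauto, offDiag_card,
      Nat.cast_sub (Nat.le_mul_self _)]
    push_cast
    ring
  simp only [h1, sum_mul]
  rw [sum_comm, sum_congr rfl (g := fun _ => ∑ g ∈ univ.filter fun g : G => g • a = a ∧ g • b = b,
    w (Nat.card (fixedBy Ω g))), sum_const, offDiag_card, nsmul_eq_mul, card_univ,
    Nat.cast_sub (Nat.le_mul_self _)]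
  · push_cast
    ring
  intro x hx
  obtain ⟨k, h3, h4⟩ := is_two_pretransitive_iff.mp h2 hab (mem_offDiag.mp hx).2.2
  rw [sum_filter, ← Equiv.sum_comp (MulAut.conj k).toEquiv]
  refine sum_congr rfl fun g _ => ?_
  simp only [MulEquiv.toEquiv_eq_coe, EquivLike.coe_coe, MulAut.conj_apply, card_fixedBy_conj]
  simp [← h3, ← h4, mul_smul]

theorem card_eq_of_two_transitive [Fintype G] [Fintype Ω] [DecidableEq Ω] [IsPretransitive G Ω]
    (h2 : IsMultiplyPretransitive G Ω 2) {a b : Ω} (hab : a ≠ b) :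
    (Nat.card G : ℚ) = (Fintype.card Ω : ℚ) * (Fintype.card Ω - 1) *
      (univ.filter fun g : G => g • a = a ∧ g • b = b).card := by
  have : Nontrivial Ω := ⟨a, b, hab⟩
  have h1 := sum_weight h2 hab fun _ => 1
  simp only [mul_one, sum_const, nsmul_eq_mul, mul_sub, sum_sub_distrib, ← Nat.cast_mul,
    ← Nat.cast_sum, ← card_fixedBy_prod, burnside, card_quotient_eq_one, rank_eq_two h2] at h1
  push_cast at h1
  linarith

theorem card_der_of_two_transitive [Fintype G] [Fintype Ω] [DecidableEq Ω] [IsPretransitive G Ω]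
    (h2 : IsMultiplyPretransitive G Ω 2) {a b : Ω} (hab : a ≠ b) :
    (Nat.card {g : G // ∀ ω : Ω, g • ω ≠ ω} : ℚ) = (Fintype.card Ω : ℚ) * (Fintype.card Ω - 1) *
      ∑ g ∈ univ.filter fun g : G => g • a = a ∧ g • b = b, (Nat.card (fixedBy Ω g) : ℚ)⁻¹ := by
  have : Nontrivial Ω := ⟨a, b, hab⟩
  rw [← sum_weight h2 hab fun n => (n : ℚ)⁻¹, card_der_eq]
  have h1 := burnside G Ω
  rw [card_quotient_eq_one, one_mul, Nat.card_eq_fintype_card (α := G)] at h1
  have h3 : ∑ g : G, ((Nat.card (fixedBy Ω g) : ℚ) - 1) = 0 := by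
    rw [sum_sub_distrib, ← Nat.cast_sum, h1]
    simp
  rw [← add_zero (Nat.cast _), ← h3, Nat.cast_sum, ← sum_add_distrib]
  refine sum_congr rfl fun g _ => ?_
  split_ifs with h
  · rw [h]
    simp
  · have : (Nat.card (fixedBy Ω g) : ℚ) ≠ 0 := Nat.cast_ne_zero.mpr h
    field_simp
    simp

end Cfsg.Lib.Perm.Derange
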