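import Cfsg.Agent.Perm.Derange2

/-!
Two-point stabilisers in doubly transitive groups: lines, and suborbits of length two.
-/

set_option autoImplicit false

namespace Cfsg.Lib.Perm.Derange

open MulAction Finset
open scoped Pointwise

variable {G Ω : Type*} [Group G] [MulAction G Ω]

variable (G) in
/-- The two-point stabiliser. -/
def st (x y : Ω) : Subgroup G := stabilizer G x ⊓ stabilizer G y

theorem mem_st {x y : Ω} {g : G} : g ∈ st G x y ↔ g • x = x ∧ g • y = y := Iff.rfl

theorem st_comm (x y : Ω) : st G x y = st G y x := inf_comm _ _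

theorem st_smul (k : G) (x y : Ω) : st G (k • x) (k • y) = (st G x y).map (MulAut.conj k) := by
  rw [st, st, stabilizer_smul_eq_stabilizer_map_conj, stabilizer_smul_eq_stabilizer_map_conj,
    Subgroup.map_inf_eq _ _ _ (MulAut.conj k).injective]
  rfl

theorem card_st (h2 : IsMultiplyPretransitive G Ω 2) {a b x y : Ω} (hab : a ≠ b) (hxy : x ≠ y) :
    Nat.card (st G x y) = Nat.card (st G a b) := by
  obtain ⟨k, rfl, rfl⟩ := is_two_pretransitive_iff.mp h2 hab hxy
  rw [st_smul]
  exact Subgroup.card_map_of_injective (MulAut.conj k).injective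

variable (G) in
/-- The line through two points. -/
def line (x y : Ω) : Set Ω := {z | ∀ g ∈ st G x y, g • z = z}

theorem left_mem_line (x y : Ω) : x ∈ line G x y := fun _ hg => hg.1

theorem right_mem_line (x y : Ω) : y ∈ line G x y := fun _ hg => hg.2

theorem line_smul (k : G) (x y : Ω) : line G (k • x) (k • y) = k • line G x y := by
  ext z
  rw [Set.mem_smul_set_iff_inv_smul_mem, line, line, st_smul]
  simp only [Set.mem_ofPred_eq, Subgroup.mem_map, forall_exists_index, and_imp,
    forall_apply_eq_imp_iff₂, MonoidHom.coe_coe, MulAut.conj_apply, mul_smul, smul_eq_iff_eq_inv_smul k]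

theorem ncard_line (h2 : IsMultiplyPretransitive G Ω 2) {a b x y : Ω} (hab : a ≠ b) (hxy : x ≠ y) :
    (line G x y).ncard = (line G a b).ncard := by
  obtain ⟨k, rfl, rfl⟩ := is_two_pretransitive_iff.mp h2 hab hxy
  rw [line_smul, Set.ncard_smul_set]

theorem st_eq_of_mem_line [Finite G] (h2 : IsMultiplyPretransitive G Ω 2) {x y z w : Ω}
    (hxy : x ≠ y) (hzw : z ≠ w) (hz : z ∈ line G x y) (hw : w ∈ line G x y) :
    st G x y = st G z w :=
  Subgroup.eq_of_le_of_card_ge (fun g hg => ⟨hz g hg, hw g hg⟩) (card_st h2 hxy hzw).le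

theorem exists_num_lines [Finite G] [Fintype Ω] (h2 : IsMultiplyPretransitive G Ω 2) {a b : Ω}
    (hab : a ≠ b) (y : Ω) : ∃ N, Fintype.card Ω - 1 = N * ((line G a b).ncard - 1) ∧
      ∀ g : G, g • y ≠ y → Nat.card (fixedBy Ω g) ≤ N := by
  classical
  refine ⟨((univ.erase y).image fun z => st G y z).card, ?_, fun g hg => ?_⟩
  · rw [← card_univ, ← card_erase_of_mem (mem_univ y),
      card_eq_sum_card_image (fun z => st G y z), ← smul_eq_mul, ← sum_const]
    refine sum_congr rfl fun K hK => ?_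
    obtain ⟨w, hw, rfl⟩ := mem_image.mp hK
    have hw' := (ne_of_mem_erase hw).symm
    rw [← ncard_line h2 hab hw', ← Set.ncard_sdiff_singleton_of_mem (left_mem_line y w),
      ← Set.ncard_coe_finset]
    congr 1
    ext z
    simp only [coe_filter, mem_erase, mem_univ, and_true, Set.mem_ofPred_eq, Set.mem_sdiff,
      Set.mem_singleton_iff]
    exact ⟨fun h => ⟨fun g hg => (h.2 ▸ hg : g ∈ st G y z).2, h.1⟩,
      fun h => ⟨h.2, (st_eq_of_mem_line h2 hw' (Ne.symm h.2) (left_mem_line y w) h.1).symm⟩⟩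
  · rw [Nat.card_coe_set_eq, Set.ncard_eq_toFinset_card']
    refine card_le_card_of_injOn (fun z => st G y z) (fun z hz => ?_) fun z hz w hw h => ?_
    · refine mem_image_of_mem _ (mem_erase.mpr ⟨?_, mem_univ _⟩)
      rintro rfl
      exact hg (by simpa using hz)
    · by_contra hzw
      have hz' : g • z = z := by simpa using hz
      have hw' : g • w = w := by simpa using hw
      have hyz : y ≠ z := by
        rintro rfl
        exact hg hz'
      have h1 := st_eq_of_mem_line h2 hyz hzw (right_mem_line y z)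
        fun k hk => ((show st G y z = st G y w from h) ▸ hk : k ∈ st G y w).2
      exact hg (h1 ▸ (⟨hz', hw'⟩ : g ∈ st G z w) : g ∈ st G y z).1

theorem card_inf_mul (H : Subgroup G) (z : Ω) :
    Nat.card ↥(H ⊓ stabilizer G z) * (orbit H z).ncard = Nat.card H := by
  rw [← index_stabilizer, ← (stabilizer H z).card_mul_index]
  congr 1
  rw [← Subgroup.card_map_of_injective H.subtype_injective, inf_comm,
    ← Subgroup.subgroupOf_map_subtype]
  rfl

theorem ncard_orbit_eq_one_iff {H : Subgroup G} {z : Ω} :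
    (orbit H z).ncard = 1 ↔ ∀ g ∈ H, g • z = z := by
  rw [← index_stabilizer, Subgroup.index_eq_one, Subgroup.eq_top_iff']
  exact ⟨fun h g hg => h ⟨g, hg⟩, fun h g => h g g.2⟩

theorem ncard_orbit_pos [Finite Ω] (H : Subgroup G) (z : Ω) : 0 < (orbit H z).ncard :=
  (Set.ncard_pos).mpr ⟨z, mem_orbit_self z⟩

variable (G) in
/-- Points in suborbits of length at least three. -/
def big (x y : Ω) : Set Ω := {z | 3 ≤ (orbit (st G x y) z).ncard}

theorem six_mul_le [Finite G] [Fintype Ω] (a b : Ω) :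
    6 * Nat.card (orbitRel.Quotient (st G a b) Ω) + (big G a b).ncard ≤
      3 * Fintype.card Ω + 3 * (line G a b).ncard := by
  classical
  have := Fintype.ofFinite G
  have h1 := burnside_sub (Ω := Ω) (st G a b)
  have h2 : ∑ g ∈ univ.filter (· ∈ st G a b), Nat.card (fixedBy Ω g) =
      ∑ z : Ω, Nat.card ↥(st G a b ⊓ stabilizer G z) := by
    have h3 : ∀ g : G, Nat.card (fixedBy Ω g) = ∑ z : Ω, if g • z = z then 1 else 0 := by
      intro g
      rw [← card_filter, ← Fintype.card_subtype, ← Nat.card_eq_fintype_card]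
      rfl
    simp only [h3]
    rw [sum_comm]
    refine sum_congr rfl fun z _ => ?_
    rw [← card_filter, filter_filter, ← card_filter_mem]
    congr
  apply Nat.le_of_mul_le_mul_right _ (Nat.card_pos (α := st G a b))
  rw [Set.ncard_eq_toFinset_card', Set.ncard_eq_toFinset_card', ← Set.filter_mem_univ_eq_toFinset,
    ← Set.filter_mem_univ_eq_toFinset, card_filter, card_filter, add_mul, mul_assoc, ← h1, h2, mul_sum,
    sum_mul, ← sum_add_distrib, ← card_univ, card_eq_sum_ones, mul_sum, mul_sum, ← sum_add_distrib,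
    sum_mul]
  refine sum_le_sum fun z _ => ?_
  have h3 := card_inf_mul (st G a b) z
  have h4 := ncard_orbit_pos (st G a b) z
  by_cases h5 : z ∈ big G a b
  · have h6 : 3 ≤ (orbit (st G a b) z).ncard := h5
    rw [if_pos h5]
    split_ifs <;> nlinarith
  · have h6 : ¬ 3 ≤ (orbit (st G a b) z).ncard := h5
    rw [if_neg h5]
    by_cases h7 : z ∈ line G a b
    · rw [if_pos h7]
      nlinarith
    · have h8 := mt ncard_orbit_eq_one_iff.mp h7
      rw [show (orbit (st G a b) z).ncard = 2 by omega] at h3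
      rw [if_neg h7]
      omega

theorem fix_of_ncard_le_two [Finite Ω] {H : Subgroup G} {y : Ω} (h : (orbit H y).ncard ≤ 2) {m u : G}
    (hm : m ∈ H) (hu : u ∈ H) (hmy : m • y ≠ y) (huy : u • y = y) : u • m • y = m • y := by
  have h1 : ({y, m • y} : Set Ω) = orbit H y :=
    Set.eq_of_subset_of_ncard_le (Set.insert_subset (mem_orbit_self y)
      (Set.singleton_subset_iff.mpr ⟨⟨m, hm⟩, rfl⟩)) (by rwa [Set.ncard_pair hmy.symm])
  have h2 : u • m • y ∈ ({y, m • y} : Set Ω) := h1 ▸ ⟨⟨u * m, mul_mem hu hm⟩, mul_smul _ _ _⟩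
  rcases h2 with h2 | h2
  · exact absurd (smul_left_cancel u (h2.trans huy.symm)) hmy
  · exact h2

theorem st_eq_aux [Finite G] [Finite Ω] (h2 : IsMultiplyPretransitive G Ω 2)
    (hB : ∀ x y z : Ω, x ≠ y → (orbit (st G x y) z).ncard ≤ 2) {c d e y : Ω} (hcd : c ≠ d)
    (hce : c ≠ e) (he : e ∉ line G c d) {m : G} (hc : m • c = c) (hd : m • d = d)
    (hme : m • e = e) (hy : m • y ≠ y) : ∀ g ∈ st G c y, g • m • y = m • y := by
  have hcy : c ≠ y := by
    rintro rfl
    exact hy hc
  have hcard : ∀ x y z : Ω, x ≠ y → z ∉ line G x y →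
      Nat.card ↥(st G x y ⊓ stabilizer G z) * 2 = Nat.card (st G c d) := by
    intro x y z hxy hz
    have h3 := hB x y z hxy
    have h4 := ncard_orbit_pos (st G x y) z
    have h5 := mt ncard_orbit_eq_one_iff.mp hz
    rw [← card_st h2 hcd hxy, ← card_inf_mul (st G x y) z,
      show (orbit (st G x y) z).ncard = 2 by omega]
  have hU : ∀ u ∈ st G c d ⊓ stabilizer G y, u • m • y = m • y := fun u hu =>
    fix_of_ncard_le_two (hB c d y hcd) ⟨hc, hd⟩ hu.1 hy hu.2
  have hV : ∀ u ∈ st G c e ⊓ stabilizer G y, u • m • y = m • y := fun u hu =>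
    fix_of_ncard_le_two (hB c e y hce) ⟨hc, hme⟩ hu.1 hy hu.2
  have hUc := hcard c d y hcd fun h => hy (h m ⟨hc, hd⟩)
  have hVc := hcard c e y hce fun h => hy (h m ⟨hc, hme⟩)
  have hMc := hcard c d e hcd he
  by_contra h
  have hWc := hcard c y (m • y) hcy h
  have h3 : st G c d ⊓ stabilizer G y = st G c y ⊓ stabilizer G (m • y) :=
    Subgroup.eq_of_le_of_card_ge (fun u hu => ⟨⟨hu.1.1, hu.2⟩, hU u hu⟩) (by omega)
  have h4 : st G c e ⊓ stabilizer G y = st G c y ⊓ stabilizer G (m • y) :=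
    Subgroup.eq_of_le_of_card_ge (fun u hu => ⟨⟨hu.1.1, hu.2⟩, hV u hu⟩) (by omega)
  have h5 : st G c d ⊓ stabilizer G y = st G c d ⊓ stabilizer G e :=
    Subgroup.eq_of_le_of_card_ge (fun u hu => ⟨hu.1,
      ((h3.trans h4.symm) ▸ hu : u ∈ st G c e ⊓ stabilizer G y).1.2⟩) (by omega)
  exact hy (h5 ▸ (⟨⟨hc, hd⟩, hme⟩ : m ∈ st G c d ⊓ stabilizer G e) :
    m ∈ st G c d ⊓ stabilizer G y).2

theorem card_st_le_two [Finite G] [Finite Ω] [FaithfulSMul G Ω]
    (h2 : IsMultiplyPretransitive G Ω 2)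
    (hB : ∀ x y z : Ω, x ≠ y → (orbit (st G x y) z).ncard ≤ 2) {a b : Ω} (hab : a ≠ b) :
    Nat.card (st G a b) ≤ 2 := by
  by_cases h : ∀ x, x ∈ line G a b
  · rw [(st G a b).eq_bot_iff_forall.mpr fun g hg =>
      eq_of_smul_eq_smul (α := Ω) fun x => by rw [h x g hg, one_smul]]
    simp
  push Not at h
  obtain ⟨x, hx⟩ := h
  rw [← card_inf_mul (st G a b) x, (st G a b ⊓ stabilizer G x).eq_bot_iff_forall.mpr,
    Subgroup.card_bot, one_mul]
  · exact hB a b x hab
  intro m hm
  refine eq_of_smul_eq_smul (α := Ω) fun y => ?_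
  rw [one_smul]
  by_contra hy
  have hax : a ≠ x := by
    rintro rfl
    exact hx (left_mem_line _ _)
  have hbx : b ≠ x := by
    rintro rfl
    exact hx (right_mem_line _ _)
  have hay : a ≠ y := by
    rintro rfl
    exact hy hm.1.1
  have hby : b ≠ y := by
    rintro rfl
    exact hy hm.1.2
  have h3 := st_eq_aux h2 hB hab hax hx hm.1.1 hm.1.2 hm.2 hy
  have h4 := st_eq_aux h2 hB hab.symm hbx (by rwa [line, st_comm]) hm.1.2 hm.1.1 hm.2 hy
  have h5 := (st_eq_of_mem_line h2 hay hy h3 (right_mem_line _ _)).trans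
    (st_eq_of_mem_line h2 hby hy h4 (right_mem_line _ _)).symm
  have h6 := st_eq_of_mem_line h2 hay hab (left_mem_line _ _)
    fun g hg => (h5 ▸ hg : g ∈ st G b y).1
  exact hy (h6 ▸ hm.1 : m ∈ st G a y).2

end Cfsg.Lib.Perm.Derange
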