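import Cfsg.Agent.Perm.FCExist
import Mathlib.RepresentationTheory.Maschke
import Mathlib.RingTheory.Idempotents
import Mathlib.RingTheory.Localization.Integer
import Mathlib.RingTheory.Localization.FractionRing
import Mathlib.LinearAlgebra.Dual.Lemmas

/-!
A Frobenius complement has a fixed-point-free representation in characteristic zero.
-/

set_option autoImplicit false

namespace Cfsg.Lib.Perm

open MonoidAlgebra

variable {G : Type*} [Group G]

/-- The sum of the elements of the cyclic group generated by `g`. -/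
noncomputable def cycSum (R : Type*) [CommRing R] (g : G) : MonoidAlgebra R G :=
  ∑ i ∈ Finset.range (orderOf g), of R G g ^ i

/-- Generators of the ideal defining the truncated group ring. -/
noncomputable def tgen (R : Type*) [CommRing R] (t : G × {g : G // g ≠ 1} × G) :
    MonoidAlgebra R G := of R G t.1 * cycSum R t.2.1.1 * of R G t.2.2

/-- The ideal defining the truncated group ring. -/
noncomputable def tspan (R : Type*) [CommRing R] (G : Type*) [Group G] :
    Submodule R (MonoidAlgebra R G) := Submodule.span R (Set.range (tgen R))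

variable {R S : Type*} [CommRing R] [CommRing S]

theorem map_cycSum (f : R →+* S) (g : G) : mapRingHom G f (cycSum R g) = cycSum S g := by
  simp [cycSum]

theorem map_tgen (f : R →+* S) (t : G × {g : G // g ≠ 1} × G) :
    mapRingHom G f (tgen R t) = tgen S t := by
  simp [tgen, map_cycSum]

theorem of_mul_cycSum (g : G) : of R G g * cycSum R g = cycSum R g := by
  have := mul_geom_sum (of R G g) (orderOf g)
  rw [← map_pow, pow_orderOf_eq_one, map_one, sub_self, sub_mul, one_mul, sub_eq_zero] at this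
  exact this

theorem cycSum_mul_self (g : G) : cycSum R g * cycSum R g = (orderOf g : R) • cycSum R g := by
  have := sum_pow_apply_of_fixed (k := R) (f := Algebra.lmul R _ (of R G g))
    (of_mul_cycSum (R := R) g) (orderOf g)
  simp only [← map_pow, ← map_sum] at this
  simp only [map_pow] at this
  rw [Nat.cast_smul_eq_nsmul]
  exact this

theorem mul_mem_tspan (a : MonoidAlgebra R G) {w : MonoidAlgebra R G} (hw : w ∈ tspan R G) :
    a * w ∈ tspan R G := by
  induction a using MonoidAlgebra.induction_on with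
  | add x y hx hy => rw [add_mul]; exact add_mem hx hy
  | smul r x hx => rw [smul_mul_assoc]; exact Submodule.smul_mem _ r hx
  | of g =>
    refine (Submodule.span_le (p := (tspan R G).comap (LinearMap.mulLeft R (of R G g)))).mpr ?_ hw
    rintro _ ⟨t, rfl⟩
    exact Submodule.subset_span ⟨(g * t.1, t.2), by simp only [tgen, map_mul, mul_assoc]; rfl⟩

theorem cycSum_mul_mem {g : G} (hg : g ≠ 1) (b : MonoidAlgebra R G) :
    cycSum R g * b ∈ tspan R G := by
  induction b using MonoidAlgebra.induction_on with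
  | add x y hx hy => rw [mul_add]; exact add_mem hx hy
  | smul r x hx => rw [mul_smul_comm]; exact Submodule.smul_mem _ r hx
  | of y => exact Submodule.subset_span ⟨(1, ⟨g, hg⟩, y), by simp only [tgen, map_one, one_mul]⟩

theorem FPF.one_notMem_tspan {A : Type*} [Ring A] [Algebra R A] [Nontrivial A] {ρ : G →* A}
    (h : FPF ρ) : (1 : MonoidAlgebra R G) ∉ tspan R G := fun h1 => by
  have : tspan R G ≤ LinearMap.ker (lift R A G ρ).toLinearMap := Submodule.span_le.mpr (by
    rintro _ ⟨t, rfl⟩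
    simp [tgen, cycSum, h.geom_sum t.2.1.2 (pow_orderOf_eq_one _)])
  simpa using this h1

theorem one_mem_tspan_rat {F : Type*} [Field F] [CharZero F]
    (h : (1 : MonoidAlgebra F G) ∈ tspan F G) : (1 : MonoidAlgebra ℚ G) ∈ tspan ℚ G := by
  obtain ⟨φ, hφ⟩ := Module.Projective.exists_dual_eq_one ℚ (one_ne_zero (α := F))
  have key : ∀ (c : F) (x : MonoidAlgebra ℚ G),
      map φ.toAddMonoidHom (c • mapRingHom G (algebraMap ℚ F) x) = φ c • x := fun c x => by
    ext g
    simp only [coeff_map, Finsupp.mapRange_apply, coeff_smul_apply, coeff_mapRingHom, smul_eq_mul,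
      LinearMap.toAddMonoidHom_coe]
    rw [mul_comm, ← Algebra.smul_def, map_smul, smul_eq_mul, mul_comm]
  have h2 : ∀ w ∈ tspan F G, ∀ c : F, map φ.toAddMonoidHom (c • w) ∈ tspan ℚ G := by
    intro w hw
    induction hw using Submodule.span_induction with
    | mem _ hx =>
      obtain ⟨t, rfl⟩ := hx
      intro c
      rw [← map_tgen (algebraMap ℚ F), key]
      exact Submodule.smul_mem _ _ (Submodule.subset_span ⟨t, rfl⟩)
    | zero => intro c; simp
    | add x y _ _ hx hy => intro c; rw [smul_add, MonoidAlgebra.map_add]; exact add_mem (hx c) (hy c)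
    | smul a x _ hx => intro c; rw [smul_smul]; exact hx _
  have := h2 _ h 1
  rwa [← map_one (mapRingHom G (algebraMap ℚ F)), key, hφ, one_smul] at this

theorem map_mem_tspan (f : R →+* S) {w : MonoidAlgebra R G} (hw : w ∈ tspan R G) :
    mapRingHom G f w ∈ tspan S G := by
  induction hw using Submodule.span_induction with
  | mem _ hx =>
    obtain ⟨t, rfl⟩ := hx
    rw [map_tgen]
    exact Submodule.subset_span ⟨t, rfl⟩
  | zero => simp
  | add x y _ _ hx hy => rw [map_add]; exact add_mem hx hy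
  | smul a x _ hx => rw [Algebra.smul_def, map_mul]; exact mul_mem_tspan _ hx

theorem exists_natCast_mem_tspan [Finite G] (h : (1 : MonoidAlgebra ℚ G) ∈ tspan ℚ G) :
    ∃ N : ℕ, N ≠ 0 ∧ (N : MonoidAlgebra ℤ G) ∈ tspan ℤ G := by
  have := Fintype.ofFinite (G × {g : G // g ≠ 1} × G)
  obtain ⟨c, hc⟩ := (Submodule.mem_span_range_iff_exists_fun ℚ).mp h
  obtain ⟨⟨b, hb⟩, h1⟩ := IsLocalization.exist_integer_multiples_of_finite (nonZeroDivisors ℤ) c
  choose d hd using h1
  have h2 : (b : MonoidAlgebra ℤ G) ∈ tspan ℤ G := by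
    refine (Submodule.mem_span_range_iff_exists_fun ℤ).mpr ⟨d, ?_⟩
    apply map_injective (algebraMap ℤ ℚ).toAddMonoidHom (algebraMap ℤ ℚ).injective_int
    change mapRingHom G (algebraMap ℤ ℚ) _ = mapRingHom G (algebraMap ℤ ℚ) _
    rw [map_intCast, ← mul_one (b : MonoidAlgebra ℚ G), ← hc, ← zsmul_eq_mul, Finset.smul_sum,
      map_sum]
    refine Finset.sum_congr rfl fun t _ => ?_
    rw [map_zsmul, map_tgen, ← smul_assoc, ← hd t, algebraMap_smul]
  refine ⟨b.natAbs, Int.natAbs_ne_zero.mpr (nonZeroDivisors.ne_zero hb), ?_⟩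
  rcases Int.natAbs_eq b with h3 | h3
  · rwa [h3, Int.cast_natCast] at h2
  · rwa [h3, Int.cast_neg, Int.cast_natCast, neg_mem_iff] at h2

theorem one_mem_tspan_zmod [Finite G] {p : ℕ} [hp : Fact p.Prime] (hpG : ¬ p ∣ Nat.card G)
    (h : (1 : MonoidAlgebra ℚ G) ∈ tspan ℚ G) :
    (1 : MonoidAlgebra (ZMod p) G) ∈ tspan (ZMod p) G := by
  obtain ⟨N, hN0, hN⟩ := exists_natCast_mem_tspan h
  obtain ⟨k, u, hu, rfl⟩ := Nat.exists_eq_pow_mul_and_not_dvd hN0 p hp.out.one_lt.ne'
  have : NeZero (Nat.card G : ZMod p) := ⟨by rwa [Ne, ZMod.natCast_eq_zero_iff]⟩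
  let I : Ideal (MonoidAlgebra (ZMod p) G) :=
    { (tspan (ZMod p) G).toAddSubmonoid with smul_mem' := fun a _ hw => mul_mem_tspan a hw }
  obtain ⟨f, hf, hI⟩ := IsSemisimpleRing.ideal_eq_span_idempotent I
  have hIf : ∀ w ∈ tspan (ZMod p) G, w * (1 - f) = 0 := fun w hw => by
    obtain ⟨a, rfl⟩ := Ideal.mem_span_singleton'.mp (hI.le hw)
    rw [mul_assoc, hf.mul_one_sub_self, mul_zero]
  let c := ZMod.castHom (dvd_pow_self p k.succ_ne_zero) (ZMod p)
  let π := mapRingHom G c
  have hker : ∀ x, π x = 0 → ∃ b, x = (p : ZMod (p ^ (k + 1))) • b := fun x hx => by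
    have h1 : ∀ g, ∃ b, x.coeff g = p * b := fun g => by
      obtain ⟨m, hm⟩ := ZMod.natCast_zmod_surjective (x.coeff g)
      have : c (x.coeff g) = 0 := by rw [← coeff_mapRingHom, hx]; rfl
      rw [← hm, map_natCast, ZMod.natCast_eq_zero_iff] at this
      obtain ⟨b, rfl⟩ := this
      exact ⟨b, by rw [← hm, Nat.cast_mul]⟩
    choose b hb using h1
    exact ⟨ofCoeff (Finsupp.equivFunOnFinite.symm b), by ext g; simp [hb]⟩
  have hp0 : (p : ZMod (p ^ (k + 1))) ^ (k + 1) = 0 := by rw [← Nat.cast_pow, ZMod.natCast_self]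
  obtain ⟨e, he, hπ⟩ := exists_isIdempotentElem_eq_of_ker_isNilpotent π (fun x hx => by
    obtain ⟨b, rfl⟩ := hker x hx
    exact ⟨k + 1, by rw [smul_pow, hp0, zero_smul]⟩) (1 - f)
    (map_surjective c.toAddMonoidHom (ZMod.castHom_surjective (dvd_pow_self p k.succ_ne_zero)) _)
    hf.one_sub
  have hunit : ∀ n : ℕ, ¬ p ∣ n → IsUnit (n : ZMod (p ^ (k + 1))) := fun n hn =>
    (ZMod.isUnit_iff_coprime _ _).mpr
      (((Nat.Prime.coprime_iff_not_dvd hp.out).mpr hn).symm.pow_right _)
  have key : ∀ g : G, g ≠ 1 → ∀ j : ℕ, ∀ b, ∃ b',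
      cycSum _ g * b * e = (p : ZMod (p ^ (k + 1))) ^ j • b' := fun g hg j => by
    induction j with
    | zero => exact fun b => ⟨_, by rw [pow_zero, one_smul]⟩
    | succ j ih =>
      intro b
      obtain ⟨b₁, h1⟩ := hker (cycSum _ g * b * e) (by
        rw [map_mul, map_mul, map_cycSum, hπ]; exact hIf _ (cycSum_mul_mem hg _))
      obtain ⟨b₂, h2⟩ := ih b₁
      obtain ⟨v, hv⟩ := hunit (orderOf g) fun hd => hpG (hd.trans (orderOf_dvd_natCard g))
      refine ⟨(v⁻¹ : (ZMod (p ^ (k + 1)))ˣ) • b₂, ?_⟩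
      rw [smul_comm, eq_inv_smul_iff, Units.smul_def, hv, pow_succ' (p : ZMod (p ^ (k + 1))),
        mul_smul, ← h2, ← smul_mul_assoc, ← smul_mul_assoc, ← cycSum_mul_self, ← smul_mul_assoc,
        ← mul_smul_comm, ← h1]
      simp only [mul_assoc, he.eq]
  have h3 : ∀ w ∈ tspan (ZMod (p ^ (k + 1))) G, w * e = 0 := fun w hw => by
    refine (Submodule.span_le (p := LinearMap.ker (LinearMap.mulRight _ e))).mpr ?_ hw
    rintro _ ⟨t, rfl⟩
    obtain ⟨b, hb⟩ := key _ t.2.1.2 (k + 1) (of _ G t.2.2)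
    rw [hp0, zero_smul] at hb
    change tgen _ t * e = 0
    rw [tgen, mul_assoc (of _ G t.1), mul_assoc (of _ G t.1), hb, mul_zero]
  have h4 := h3 _ (map_mem_tspan (Int.castRingHom _) hN)
  rw [map_natCast, ← nsmul_eq_mul, ← Nat.cast_smul_eq_nsmul (ZMod (p ^ (k + 1))), Nat.cast_mul,
    mul_comm, mul_smul, (hunit u hu).smul_eq_zero] at h4
  have h5 : π e = 0 := by
    ext g
    obtain ⟨m, hm⟩ := ZMod.natCast_zmod_surjective (e.coeff g)
    have h6 : ((p ^ k : ℕ) : ZMod (p ^ (k + 1))) * e.coeff g = 0 := congrArg (·.coeff g) h4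
    rw [← hm, ← Nat.cast_mul, ZMod.natCast_eq_zero_iff, pow_succ,
      Nat.mul_dvd_mul_iff_left (pow_pos hp.out.pos k)] at h6
    rw [coeff_mapRingHom, ← hm, map_natCast, (ZMod.natCast_eq_zero_iff _ _).mpr h6]
    rfl
  rw [hπ, sub_eq_zero] at h5
  rw [h5]
  exact (hI ▸ Ideal.mem_span_singleton_self f : f ∈ I)

theorem IsFC.one_notMem_tspan [Finite G] (h : IsFC G) (F : Type*) [Field F] [CharZero F] :
    (1 : MonoidAlgebra F G) ∉ tspan F G := fun h1 => by
  have h2 := one_mem_tspan_rat h1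
  obtain ⟨K, _, _, n, ρ, hρ⟩ := h
  obtain ⟨p, hp⟩ := CharP.exists K
  rcases CharP.char_is_prime_or_zero K p with hp | rfl
  · have := Fact.mk hp
    let _ := ZMod.algebra K p
    exact hρ.one_notMem_tspan (one_mem_tspan_zmod
      (fun hd => hρ.natCast_ne_zero hp hd (CharP.cast_eq_zero K p)) h2)
  · have := CharP.charP_to_charZero K
    exact hρ.one_notMem_tspan h2

/-- A Frobenius complement has an irreducible fixed-point-free representation over every field of
characteristic zero. -/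
theorem IsFC.exists_rep_charZero [Finite G] (h : IsFC G) (F : Type*) [Field F] [CharZero F] :
    ∃ (n : ℕ) (ρ : G →* Module.End F (Fin (n + 1) → F)), FPF ρ ∧
      ∀ W : Submodule F (Fin (n + 1) → F), (∀ g, ∀ w ∈ W, ρ g w ∈ W) → W = ⊥ ∨ W = ⊤ := by
  let τ₀ : G →* Module.End F (MonoidAlgebra F G) :=
    (Algebra.lmul F _).toRingHom.toMonoidHom.comp (of F G)
  let τ : G →* Module.End F (MonoidAlgebra F G ⧸ tspan F G) :=
    Representation.quotient τ₀ (tspan F G) fun g w hw => mul_mem_tspan _ hw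
  have hτ : FPF τ := FPF.of_apply fun g v hv0 hv => by
    by_contra hg
    have h1 := sum_pow_apply_of_fixed hv (orderOf g)
    have h2 : (∑ i ∈ Finset.range (orderOf g), τ g ^ i) v = 0 := by
      obtain ⟨a, rfl⟩ := (tspan F G).mkQ_surjective v
      have h3 := (Submodule.Quotient.mk_eq_zero _).mpr (cycSum_mul_mem (R := F) hg a)
      rw [LinearMap.sum_apply, ← h3, cycSum, Finset.sum_mul, ← Submodule.mkQ_apply, map_sum]
      exact Finset.sum_congr rfl fun i _ => by rw [← map_pow, ← map_pow]; rfl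
    rw [h2, ← Nat.cast_smul_eq_nsmul F, eq_comm, smul_eq_zero, Nat.cast_eq_zero] at h1
    exact h1.elim (orderOf_pos g).ne' hv0
  have : Nontrivial (MonoidAlgebra F G ⧸ tspan F G) :=
    Submodule.Quotient.nontrivial_iff.mpr fun e => h.one_notMem_tspan F (e ▸ Submodule.mem_top)
  obtain ⟨U, ⟨hU0, hU⟩, hmin⟩ := (wellFounded_lt (α := Submodule F _)).has_min
    {U | U ≠ ⊥ ∧ ∀ g, ∀ u ∈ U, τ g u ∈ U} ⟨⊤, top_ne_bot, fun _ _ _ => trivial⟩
  let σ : G →* Module.End F U := Representation.subrepresentation τ U hU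
  have := Submodule.nontrivial_iff_ne_bot.mpr hU0
  obtain ⟨n, hn⟩ : ∃ n, Module.finrank F U = n + 1 :=
    Nat.exists_eq_succ_of_ne_zero Module.finrank_pos.ne'
  let b := (Module.finBasisOfFinrankEq F U hn).equivFun
  have hσ : FPF σ := FPF.of_apply fun g v hv0 hv =>
    hτ.eq_one_of_apply (fun e => hv0 (Subtype.ext e)) (congrArg Subtype.val hv)
  refine ⟨n, _, hσ.map b.conjRingEquiv.toRingHom, fun W hW => ?_⟩
  by_contra hcon
  push Not at hcon
  refine hmin ((W.comap b.toLinearMap).map U.subtype) ⟨fun e => hcon.1 ?_, ?_⟩ ?_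
  · rw [← LinearMap.le_ker_iff_map, Submodule.ker_subtype, le_bot_iff] at e
    rw [← Submodule.map_comap_eq_of_surjective (f := b.toLinearMap) b.surjective W, e,
      Submodule.map_bot]
  · rintro g _ ⟨u, hu, rfl⟩
    exact ⟨σ g u, by simpa using hW g _ hu, rfl⟩
  · refine lt_of_le_of_ne (Submodule.map_subtype_le _ _) fun e => hcon.2 ?_
    rw [eq_top_iff]
    intro x _
    obtain ⟨u, rfl⟩ := b.surjective x
    obtain ⟨u', hu', he⟩ : (u : MonoidAlgebra F G ⧸ tspan F G) ∈
      (W.comap b.toLinearMap).map U.subtype := e.symm ▸ u.2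
    rwa [← (Subtype.ext he : u' = u)]

end Cfsg.Lib.Perm
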