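import Mathlib
import Cfsg.Agent.Perm.MultiBasic

/-! Elementwise facts about `k`-homogeneous groups. -/

set_option autoImplicit false

namespace Cfsg.Lib.Perm

open MulAction
open scoped Pointwise

variable {G α : Type*} [Group G] [MulAction G α] [DecidableEq α]

theorem isPretransitive_powersetCard_iff {k : ℕ} :
    IsPretransitive G (Set.powersetCard α k) ↔
      ∀ s t : Finset α, s.card = k → t.card = k → ∃ g : G, g • s = t := by
  constructor
  · intro h s t hs ht
    obtain ⟨g, hg⟩ := exists_smul_eq G (⟨s, hs⟩ : Set.powersetCard α k) ⟨t, ht⟩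
    exact ⟨g, congrArg Subtype.val hg⟩
  · intro h
    refine ⟨fun s t => ?_⟩
    obtain ⟨g, hg⟩ := h s t s.2 t.2
    exact ⟨g, Subtype.ext hg⟩

theorem isPretransitive_powersetCard_iff' (G : Subgroup (Equiv.Perm α)) {k : ℕ} :
    IsPretransitive G (Set.powersetCard α k) ↔
      ∀ s t : Finset α, s.card = k → t.card = k → ∃ g : G, g • s = t :=
  isPretransitive_powersetCard_iff (G := G)

theorem not_dvd_choose_add_pred {p a k : ℕ} (hp : p.Prime) (hk : p ^ a ∣ k) :
    ¬ p ∣ (k + p ^ a - 1).choose k := by
  have key : ∀ j, j < p ^ a → ¬ p ∣ (k + j).choose k := by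
    intro j
    induction j with
    | zero => intro _; simpa using hp.one_lt.ne'
    | succ j ih =>
      intro hj hd
      apply ih (by omega)
      have h1 : (k + (j + 1)).choose k * (j + 1) = (k + j).choose k * (k + (j + 1)) := by
        have := Nat.choose_mul_succ_eq (k + j) k
        rw [show k + j + 1 - k = j + 1 by omega] at this
        exact this.symm
      obtain ⟨e, m, hm, hjm⟩ := Nat.exists_eq_pow_mul_and_not_dvd (show j + 1 ≠ 0 by omega) p
        hp.one_lt.ne'
      have hea : e + 1 ≤ a := by
        by_contra hlt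
        have : p ^ a ∣ j + 1 := (pow_dvd_pow p (by omega)).trans (hjm ▸ Dvd.intro _ rfl)
        have := Nat.le_of_dvd (by omega) this
        omega
      obtain ⟨c, hc⟩ := (pow_dvd_pow p hea).trans hk
      rw [hjm, hc, show p ^ (e + 1) * c + p ^ e * m = p ^ e * (p * c + m) by ring, ← hc] at h1
      have h2 : (k + (j + 1)).choose k * m = (k + j).choose k * (p * c + m) := by
        apply Nat.eq_of_mul_eq_mul_left (pow_pos hp.pos e)
        rw [hjm, hc, show p ^ (e + 1) * c + p ^ e * m = p ^ e * (p * c + m) by ring, ← hc]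
        linarith
      have h3 : p ∣ (k + j).choose k * (p * c + m) := h2 ▸ hd.mul_right m
      refine (hp.dvd_mul.1 h3).resolve_right fun h => hm ?_
      exact (Nat.dvd_add_right (Dvd.intro _ rfl)).1 h
  have := key (p ^ a - 1) (by have := pow_pos hp.pos a; omega)
  rwa [show k + p ^ a - 1 = k + (p ^ a - 1) by have := pow_pos hp.pos a; omega]

end Cfsg.Lib.Perm
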