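import Mathlib
import Cfsg.Agent.Char.ElemParts

/-!
# The number of conjugacy classes of a permutation group

Every element is split into its `p`-part `x` and its `p'`-part, which permutes the cycles of `x`.
-/

set_option autoImplicit false
set_option linter.unusedSectionVars false

namespace Cfsg.Lib.KPerm

open Subgroup MulAction Finset Equiv

universe u v

section orbits

variable {Ω : Type u} [Fintype Ω] [DecidableEq Ω] {p : ℕ}

theorem le_card_orbit [hp : Fact p.Prime] {b : Perm Ω} {k : ℕ} (hb : b ^ p ^ k = 1) {ω : Ω}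
    (h : b ω ≠ ω) : p ≤ Nat.card (orbit (zpowers b) ω) := by
  have hz : IsPGroup p (zpowers b) := by
    rintro ⟨_, i, rfl⟩
    refine ⟨k, Subtype.ext ?_⟩
    change (b ^ i) ^ p ^ k = 1
    rw [← zpow_natCast, ← zpow_mul, mul_comm, zpow_mul, zpow_natCast, hb, one_zpow]
  obtain ⟨n, hn⟩ := hz.card_orbit ω
  rcases n with _ | n
  · exfalso
    rw [pow_zero] at hn
    have := (Nat.card_eq_one_iff_unique.1 hn).1
    exact h (congrArg Subtype.val (Subsingleton.elim
      (⟨b ω, ⟨⟨b, mem_zpowers b⟩, rfl⟩⟩ : orbit (zpowers b) ω) ⟨ω, mem_orbit_self ω⟩))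
  · rw [hn]
    exact Nat.le_self_pow (by omega) p

/-- the set of cycles of a permutation. -/
abbrev Cyc (b : Perm Ω) : Type u := orbitRel.Quotient (zpowers b) Ω

theorem pow_cyc_le [hp : Fact p.Prime] {b : Perm Ω} {k : ℕ} (hb : b ^ p ^ k = 1) {A v : ℝ}
    (hA : 0 ≤ A) (hv : 1 ≤ v) (hAv : A ≤ v ^ p) :
    A ^ Nat.card (Cyc b) ≤ ∏ ω, if b ω = ω then A else v := by
  classical
  have := Fintype.ofFinite (Cyc b)
  rw [← prod_fiberwise (s := univ) (g := fun ω => (Quotient.mk'' ω : Cyc b)),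
    Nat.card_eq_fintype_card, ← card_univ, ← prod_const]
  refine prod_le_prod (fun _ _ => hA) fun c _ => ?_
  induction c using Quotient.inductionOn' with
  | h ω =>
  have hm : ∀ ω', ω' ∈ univ.filter (fun ω' => (Quotient.mk'' ω' : Cyc b) = Quotient.mk'' ω) ↔
      ω' ∈ orbit (zpowers b) ω := fun ω' => by
    rw [mem_filter, Quotient.eq'', orbitRel_apply]; simp
  by_cases h : b ω = ω
  · have : univ.filter (fun ω' => (Quotient.mk'' ω' : Cyc b) = Quotient.mk'' ω) = {ω} := by
      ext ω'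
      rw [hm, mem_singleton]
      constructor
      · rintro ⟨⟨_, i, rfl⟩, rfl⟩
        exact Perm.zpow_apply_eq_self_of_apply_eq_self h i
      · rintro rfl
        exact mem_orbit_self _
    rw [this, prod_singleton, if_pos h]
  · rw [prod_congr rfl (g := fun _ => v), prod_const]
    · refine hAv.trans (pow_le_pow_right₀ hv ((le_card_orbit hb h).trans (le_of_eq ?_)))
      rw [← Nat.card_eq_finsetCard]
      exact Nat.card_congr (Equiv.subtypeEquivRight fun ω' => (hm ω').symm)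
    · intro ω' h'
      obtain ⟨⟨_, i, rfl⟩, rfl⟩ := (hm ω').1 h'
      rw [if_neg]
      intro e
      apply h
      change b ((b ^ i) ω) = (b ^ i) ω at e
      rw [← Perm.mul_apply, (Commute.self_zpow b i).eq, Perm.mul_apply] at e
      exact (b ^ i).injective e

theorem card_le_pow [hp : Fact p.Prime] {R : Subgroup (Perm Ω)} (hR : IsPGroup p R) (S : Finset Ω)
    (hS : ∀ x ∈ R, ∀ ω, x ω ≠ ω → ω ∈ S) {u : ℝ} (hu : 1 ≤ u) (hpu : (p : ℝ) ≤ u ^ (p - 1)) :
    (Nat.card R : ℝ) ≤ u ^ S.card := by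
  obtain ⟨k, hk⟩ := IsPGroup.iff_card.1 hR
  have h1 : R ≤ (Perm.ofSubtype : Perm {x // x ∈ S} →* Perm Ω).range := fun x hx =>
    Perm.mem_range_ofSubtype_iff.2 fun ω hω => hS x hx ω (Perm.mem_support.1 hω)
  have h2 : p ^ k ∣ S.card.factorial := by
    rw [← hk]
    refine (card_dvd_of_le h1).trans (dvd_of_eq ?_)
    rw [← Nat.card_congr (MonoidHom.ofInjective Perm.ofSubtype_injective).toEquiv,
      Nat.card_eq_fintype_card, Fintype.card_perm, Fintype.card_coe]
  have h3 : k ≤ padicValNat p S.card.factorial :=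
    (padicValNat_dvd_iff_le (Nat.factorial_ne_zero _)).1 h2
  have h4 : (p - 1) * k ≤ S.card := by
    refine (Nat.mul_le_mul_left _ h3).trans ?_
    rw [sub_one_mul_padicValNat_factorial]
    exact Nat.sub_le _ _
  rw [hk, Nat.cast_pow]
  calc (p : ℝ) ^ k ≤ (u ^ (p - 1)) ^ k := pow_le_pow_left₀ (Nat.cast_nonneg _) hpu k
    _ = u ^ ((p - 1) * k) := (pow_mul _ _ _).symm
    _ ≤ u ^ S.card := pow_le_pow_right₀ hu h4

theorem add_pow_le {A D B : ℝ} (hA : 0 ≤ A) (hD : 0 ≤ D) (hB : 0 ≤ B) {p s : ℕ} (hp : p ≠ 0)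
    (h : A ^ p + D ^ p ≤ B ^ p) (hs : p ≤ s) : D ^ s + A ^ s ≤ B ^ s := by
  have h1 : A ≤ B := le_of_pow_le_pow_left₀ hp hB (by linarith [pow_nonneg hD p])
  have h2 : D ≤ B := le_of_pow_le_pow_left₀ hp hB (by linarith [pow_nonneg hA p])
  obtain ⟨t, rfl⟩ := Nat.exists_eq_add_of_le hs
  rw [pow_add, pow_add, pow_add]
  have h3 : A ^ t ≤ B ^ t := pow_le_pow_left₀ hA h1 t
  have h4 : D ^ t ≤ B ^ t := pow_le_pow_left₀ hD h2 t
  calc D ^ p * D ^ t + A ^ p * A ^ t ≤ D ^ p * B ^ t + A ^ p * B ^ t := by gcongr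
    _ = (A ^ p + D ^ p) * B ^ t := by ring
    _ ≤ B ^ p * B ^ t := by gcongr

theorem sum_le [hp : Fact p.Prime] {P : Subgroup (Perm Ω)} [Fintype P] (hP : IsPGroup p P)
    {A u v B : ℝ} (hA : 0 ≤ A) (hB : 0 ≤ B) (hu : 1 ≤ u) (hv : 1 ≤ v)
    (hpu : (p : ℝ) ≤ u ^ (p - 1)) (hAv : A ≤ v ^ p) (h : A ^ p + (u * v) ^ p ≤ B ^ p) :
    ∑ x : P, A ^ Nat.card (Cyc (x : Perm Ω)) ≤ B ^ Fintype.card Ω := by
  classical
  have hu0 : 0 ≤ u := zero_le_one.trans hu
  have hv0 : 0 ≤ v := zero_le_one.trans hv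
  let st : Ω → Subgroup P := fun ω => stabilizer P ω
  let fib : Subgroup P → Finset Ω := fun H => univ.filter fun ω => st ω = H
  let T : Finset (Subgroup P) := univ.image st
  let g : Subgroup P → ℝ := fun H => if H = ⊤ then 0 else (u * v) ^ (fib H).card
  let J : P → Finset (Subgroup P) := fun x => T.filter fun H => x ∉ H
  have hT : ∀ ω, st ω ∈ T := fun ω => mem_image_of_mem _ (mem_univ ω)
  have hfib : ∀ (f : Subgroup P → ℝ), ∏ ω, f (st ω) = ∏ H ∈ T, f H ^ (fib H).card := fun f => by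
    rw [← prod_fiberwise_of_maps_to (s := univ) (t := T) (g := st) fun ω _ => hT ω]
    refine prod_congr rfl fun H _ => ?_
    rw [prod_congr rfl (g := fun _ => f H) fun ω hω => by rw [(mem_filter.1 hω).2], prod_const]
  have big : ∀ H ∈ T, H ≠ ⊤ → p ≤ (fib H).card := by
    intro H hH hne
    obtain ⟨ω, -, rfl⟩ := mem_image.1 hH
    have := hP.isNilpotent
    obtain ⟨n, hn, hn'⟩ := SetLike.exists_of_lt
      (Group.normalizerCondition_of_isNilpotent (G := P) (st ω) (lt_top_iff_ne_top.2 hne))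
    obtain ⟨k, hk⟩ := hP n
    refine (le_card_orbit (b := (n : Perm Ω)) (k := k) (congrArg Subtype.val hk) hn').trans ?_
    rw [← Nat.card_eq_finsetCard]
    refine Nat.card_le_card_of_injective (fun y => ⟨y.1, ?_⟩) fun y y' e =>
      Subtype.ext (Subtype.mk.inj e)
    obtain ⟨_, ⟨_, i, rfl⟩, rfl⟩ := y
    refine mem_filter.2 ⟨mem_univ _, ?_⟩
    change stabilizer P ((n ^ i) • ω) = stabilizer P ω
    rw [stabilizer_smul_eq_stabilizer_map_conj]
    ext y
    have h1 := mem_normalizer_iff.1 (zpow_mem hn i)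
    constructor
    · rintro ⟨z, hz, rfl⟩
      exact (h1 z).1 hz
    · intro hy
      have e : n ^ i * ((n ^ i)⁻¹ * y * n ^ i) * (n ^ i)⁻¹ = y := by group
      exact ⟨(n ^ i)⁻¹ * y * n ^ i, (h1 _).2 (e.symm ▸ hy), e⟩
  calc ∑ x : P, A ^ Nat.card (Cyc (x : Perm Ω))
      ≤ ∑ x : P, (∏ H ∈ J x, v ^ (fib H).card) * ∏ H ∈ T \ J x, A ^ (fib H).card := by
        refine sum_le_sum fun x _ => ?_
        obtain ⟨k, hk⟩ := hP x
        refine (pow_cyc_le (k := k) (congrArg Subtype.val hk) hA hv hAv).trans (le_of_eq ?_)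
        refine Eq.trans (b := ∏ ω, (fun H : Subgroup P => if x ∈ H then A else v) (st ω))
          (prod_congr rfl fun ω _ => by
            by_cases e : (x : Perm Ω) ω = ω
            · rw [if_pos e]; exact (if_pos e).symm
            · rw [if_neg e]; exact (if_neg e).symm) ?_
        rw [hfib fun H : Subgroup P => if x ∈ H then A else v,
          ← prod_sdiff (filter_subset (fun H => x ∉ H) T), mul_comm]
        congr 1
        · exact prod_congr rfl fun H hH => by rw [if_neg (mem_filter.1 hH).2]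
        · refine prod_congr rfl fun H hH => ?_
          rw [if_pos]
          by_contra hx
          exact (mem_sdiff.1 hH).2 (mem_filter.2 ⟨(mem_sdiff.1 hH).1, hx⟩)
    _ = ∑ t ∈ T.powerset, ∑ x ∈ univ.filter (fun x : P => J x = t),
          (∏ H ∈ J x, v ^ (fib H).card) * ∏ H ∈ T \ J x, A ^ (fib H).card :=
        (sum_fiberwise_of_maps_to (fun x _ => mem_powerset.2 (filter_subset _ _)) _).symm
    _ ≤ ∑ t ∈ T.powerset, (∏ H ∈ t, g H) * ∏ H ∈ T \ t, A ^ (fib H).card := by
        refine sum_le_sum fun t ht => ?_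
        rw [sum_congr rfl (g := fun _ => (∏ H ∈ t, v ^ (fib H).card) *
          ∏ H ∈ T \ t, A ^ (fib H).card) fun x hx => by rw [(mem_filter.1 hx).2], sum_const,
          nsmul_eq_mul, ← mul_assoc]
        refine mul_le_mul_of_nonneg_right ?_ (prod_nonneg fun _ _ => pow_nonneg hA _)
        by_cases htop : ⊤ ∈ t
        · have : univ.filter (fun x : P => J x = t) = ∅ := by
            refine filter_eq_empty_iff.2 fun x _ e => ?_
            rw [← e] at htop
            exact (mem_filter.1 htop).2 (Subgroup.mem_top x)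
          rw [this, card_empty, Nat.cast_zero, zero_mul]
          exact prod_nonneg fun H _ => by
            simp only [g]; split_ifs
            · exact le_rfl
            · positivity
        · rw [prod_congr rfl (f := g) (g := fun H => u ^ (fib H).card * v ^ (fib H).card)
            fun H hH => by
              simp only [g]; rw [if_neg (fun e : H = ⊤ => htop (e ▸ hH)), mul_pow], prod_mul_distrib]
          refine mul_le_mul_of_nonneg_right ?_ (prod_nonneg fun _ _ => pow_nonneg hv0 _)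
          let S : Finset Ω := univ.filter fun ω => st ω ∈ t
          let R : Subgroup (Perm Ω) := P ⊓ fixingSubgroup (Perm Ω) ((S : Set Ω)ᶜ)
          have h1 := card_le_pow (R := R) (hP.to_le inf_le_left) S (fun x hx ω hω => by
            by_contra hs
            exact hω ((mem_fixingSubgroup_iff _).1 hx.2 ω hs)) hu hpu
          have h2 : (univ.filter (fun x : P => J x = t)).card ≤ Nat.card R := by
            rw [← Nat.card_eq_finsetCard]
            refine Nat.card_le_card_of_injective (fun x => ⟨x.1.1, x.1.2, ?_⟩) fun x y e =>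
              Subtype.ext (Subtype.ext (Subtype.mk.inj e))
            refine (mem_fixingSubgroup_iff _).2 fun ω hω => ?_
            by_contra hx
            apply hω
            refine mem_coe.2 (mem_filter.2 ⟨mem_univ _, ?_⟩)
            rw [← (mem_filter.1 x.2).2]
            exact mem_filter.2 ⟨hT ω, hx⟩
          refine (Nat.cast_le.2 h2).trans (h1.trans (le_of_eq ?_))
          rw [prod_pow_eq_pow_sum, card_eq_sum_card_fiberwise (f := st) (s := S) (t := t)
            fun ω hω => mem_coe.2 (mem_filter.1 (mem_coe.1 hω)).2]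
          congr 1
          refine sum_congr rfl fun H hH => congrArg card ?_
          ext ω
          simp only [S, fib, mem_filter, mem_univ, true_and]
          exact ⟨fun h => h.2, fun h => ⟨h ▸ hH, h⟩⟩
    _ = ∏ H ∈ T, (g H + A ^ (fib H).card) := (prod_add _ _ _).symm
    _ ≤ ∏ H ∈ T, B ^ (fib H).card := by
        refine prod_le_prod (fun H _ => add_nonneg ?_ (pow_nonneg hA _)) fun H hH => ?_
        · simp only [g]; split_ifs
          · exact le_rfl
          · positivity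
        · simp only [g]; split_ifs with e
          · rw [zero_add]
            exact pow_le_pow_left₀ hA (le_of_pow_le_pow_left₀ hp.out.ne_zero hB
              (by linarith [pow_nonneg (mul_nonneg hu0 hv0) p])) _
          · exact add_pow_le hA (mul_nonneg hu0 hv0) hB hp.out.ne_zero h (big H hH e)
    _ = B ^ Fintype.card Ω := by rw [← hfib fun _ => B, prod_const, card_univ]

/-- an element commuting with `b` permutes the cycles of `b`. -/
def cycHom {C : Type v} [Group C] (φ : C →* Perm Ω) (b : Perm Ω) (h : ∀ c, Commute (φ c) b) :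
    C →* Perm (Cyc b) where
  toFun c := Quotient.congr (φ c) fun x y => by
    rw [orbitRel_apply, orbitRel_apply]
    constructor
    · rintro ⟨⟨_, i, rfl⟩, rfl⟩
      refine ⟨⟨_, i, rfl⟩, ?_⟩
      change (b ^ i) (φ c y) = φ c ((b ^ i) y)
      rw [← Perm.mul_apply, ← ((h c).zpow_right i).eq, Perm.mul_apply]
    · rintro ⟨⟨_, i, rfl⟩, e⟩
      refine ⟨⟨_, i, rfl⟩, (φ c).injective ?_⟩
      change (b ^ i) (φ c y) = φ c x at e
      change φ c ((b ^ i) y) = φ c x
      rw [← e, ← Perm.mul_apply, ((h c).zpow_right i).eq, Perm.mul_apply]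
  map_one' := Equiv.ext fun x => Quotient.inductionOn' x fun y =>
    show (Quotient.mk'' (φ 1 y) : Cyc b) = Quotient.mk'' y by rw [map_one]; rfl
  map_mul' c d := Equiv.ext fun x => Quotient.inductionOn' x fun y =>
    show (Quotient.mk'' (φ (c * d) y) : Cyc b) = Quotient.mk'' (φ c (φ d y)) by rw [map_mul]; rfl

theorem cycHom_eq_1' : type_of% @cycHom.eq_1 := @cycHom.eq_1

theorem pow_eq_one_of_cycHom {C : Type v} [Group C] (φ : C →* Perm Ω) (b : Perm Ω)
    (h : ∀ c, Commute (φ c) b) {m : ℕ} (hb : b ^ m = 1) {c : C} (hc : cycHom φ b h c = 1) :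
    φ c ^ m = 1 := by
  ext ω
  have h1 : (Quotient.mk'' (φ c ω) : Cyc b) = Quotient.mk'' ω :=
    congrArg (fun e : Perm (Cyc b) => e (Quotient.mk'' ω)) hc
  rw [Quotient.eq'', orbitRel_apply] at h1
  obtain ⟨⟨_, i, rfl⟩, e⟩ := h1
  change (b ^ i) ω = φ c ω at e
  have h2 : ∀ n : ℕ, (φ c ^ n) ω = ((b ^ i) ^ n) ω := by
    intro n
    induction n with
    | zero => rfl
    | succ n ih =>
      rw [pow_succ', Perm.mul_apply, ih, ← Perm.mul_apply,
        (((h c).zpow_right i).pow_right n).eq, Perm.mul_apply, ← e, pow_succ, Perm.mul_apply]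
  rw [h2, ← zpow_natCast, ← zpow_mul, mul_comm, zpow_mul, zpow_natCast, hb, one_zpow]

end orbits

/-- the classes of elements whose order has only prime divisors below `N`. -/
def Sm (N : ℕ) (H : Type v) [Group H] : Set (ConjClasses H) :=
  {c | ∃ g : H, ConjClasses.mk g = c ∧ ∀ q : ℕ, q.Prime → q ∣ orderOf g → q < N}

theorem Sm_eq_1' : type_of% @Sm.eq_1 := @Sm.eq_1

theorem card_sm_succ {H : Type v} [Group H] [Finite H] {p : ℕ} [hp : Fact p.Prime] (P : Sylow p H)
    [Fintype P] :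
    Nat.card (Sm (p + 1) H) ≤ ∑ x : P, Nat.card (Sm p (centralizer ({(x : H)} : Set H))) := by
  rw [← Nat.card_sigma]
  let f : (Σ x : P, Sm p (centralizer ({(x : H)} : Set H))) → ConjClasses H :=
    fun y => ConjClasses.mk ((y.1 : H) * (y.2.2.choose : H))
  refine le_trans (Nat.card_mono (Set.toFinite _) (t := Set.range f) ?_)
    (Nat.card_le_card_of_surjective _ Set.rangeFactorization_surjective)
  rintro _ ⟨g, rfl, hg⟩
  obtain ⟨x, -, y, hy, rfl, hc, ⟨k, hk⟩, hpy⟩ :=
    Char.Parts.exists_pPart_mul_pPrimePart hp.out (isOfFinOrder_of_finite g)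
  have hz : IsPGroup p (zpowers x) := IsPGroup.of_card (n := k) (by rw [Nat.card_zpowers, hk])
  obtain ⟨Q, hQ⟩ := hz.exists_le_sylow
  obtain ⟨a, ha⟩ := exists_smul_eq H Q P
  have hx : a * x * a⁻¹ ∈ (P : Subgroup H) := by
    rw [← ha]
    exact ⟨x, hQ (mem_zpowers x), rfl⟩
  have hy' : a * y * a⁻¹ ∈ centralizer ({a * x * a⁻¹} : Set H) := by
    rw [mem_centralizer_singleton_iff]
    calc a * y * a⁻¹ * (a * x * a⁻¹) = a * (y * x) * a⁻¹ := by group
      _ = a * x * a⁻¹ * (a * y * a⁻¹) := by rw [← hc.eq]; group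
  have hm : ConjClasses.mk (⟨_, hy'⟩ : centralizer ({a * x * a⁻¹} : Set H)) ∈
      Sm p (centralizer ({a * x * a⁻¹} : Set H)) := by
    refine ⟨_, rfl, fun q hq hd => ?_⟩
    rw [← Subgroup.orderOf_coe] at hd
    change q ∣ orderOf (MulAut.conj a y) at hd
    rw [MulEquiv.orderOf_eq] at hd
    have h1 := hg q hq (hd.trans (orderOf_dvd_of_mem_zpowers hy))
    have h2 : q ≠ p := fun e => hpy (e ▸ hd)
    omega
  refine ⟨⟨⟨_, hx⟩, ⟨_, hm⟩⟩, ?_⟩
  obtain ⟨c, hc'⟩ := isConj_iff.1 (ConjClasses.mk_eq_mk_iff_isConj.1 hm.choose_spec.1)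
  refine ConjClasses.mk_eq_mk_iff_isConj.2 (isConj_iff.2 ⟨a⁻¹ * c, ?_⟩)
  have h1 : (c : H) * (a * x * a⁻¹) = a * x * a⁻¹ * c := mem_centralizer_singleton_iff.1 c.2
  have h2 : (c : H) * (hm.choose : H) * (c : H)⁻¹ = a * y * a⁻¹ := congrArg Subtype.val hc'
  change a⁻¹ * c * (a * x * a⁻¹ * (hm.choose : H)) * (a⁻¹ * c)⁻¹ = x * y
  calc a⁻¹ * c * (a * x * a⁻¹ * (hm.choose : H)) * (a⁻¹ * c)⁻¹
      = a⁻¹ * (c * (a * x * a⁻¹)) * (c : H)⁻¹ * (c * (hm.choose : H) * (c : H)⁻¹) * a := by group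
    _ = x * y := by rw [h1, h2]; group

/-- the bound for classes of `N`-smooth elements. -/
def Bd (N : ℕ) (A : ℝ) : Prop :=
  ∀ (Ω : Type u) [Fintype Ω] [DecidableEq Ω] [Nonempty Ω] (H : Type v) [Group H] [Finite H]
    (ρ : H →* Perm Ω), (∀ q : ℕ, q.Prime → q < N → ¬ q ∣ Nat.card ρ.ker) →
      2 * (Nat.card (Sm N H) : ℝ) ≤ A ^ Fintype.card Ω

theorem Bd_eq_1' : type_of% @Bd.eq_1 := @Bd.eq_1

theorem inj_sylow {H : Type v} [Group H] [Finite H] {K : Type u} [Group K] (ρ : H →* K) {p : ℕ}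
    [hp : Fact p.Prime] (h : ¬ p ∣ Nat.card ρ.ker) {P : Subgroup H} (hP : IsPGroup p P) :
    Function.Injective (ρ.comp P.subtype) := by
  rw [injective_iff_map_eq_one]
  intro x hx
  obtain ⟨k, hk⟩ := IsPGroup.iff_orderOf.1 hP x
  have h1 : orderOf (x : H) ∣ Nat.card ρ.ker := ρ.ker.orderOf_dvd_natCard hx
  rw [Subgroup.orderOf_coe, hk] at h1
  rcases k with _ | k
  · exact orderOf_eq_one_iff.1 hk
  · exact absurd ((dvd_pow_self p (by omega)).trans h1) h

theorem bd_three : Bd.{u, v} 3 2 := by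
  intro Ω _ _ _ H _ _ ρ h
  have : Fact (Nat.Prime 2) := ⟨Nat.prime_two⟩
  obtain ⟨P⟩ : Nonempty (Sylow 2 H) := inferInstance
  have := Fintype.ofFinite P
  have h1 := card_sm_succ P
  have h2 : ∀ x : P, Nat.card (Sm 2 (centralizer ({(x : H)} : Set H))) ≤ 1 := by
    intro x
    refine Finite.card_le_one_iff_subsingleton.2 ⟨?_⟩
    have key : ∀ g : centralizer ({(x : H)} : Set H),
        (∀ q : ℕ, q.Prime → q ∣ orderOf g → q < 2) → g = 1 := fun g hg => by
      by_contra hne
      obtain ⟨q, hq, hd⟩ := Nat.exists_prime_and_dvd (mt orderOf_eq_one_iff.1 hne)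
      exact absurd (hg q hq hd) (not_lt.2 hq.two_le)
    rintro ⟨_, g, rfl, hg⟩ ⟨_, g', rfl, hg'⟩
    exact Subtype.ext (congrArg ConjClasses.mk ((key g hg).trans (key g' hg').symm))
  have h3 : Nat.card (Sm 3 H) ≤ Nat.card (P : Subgroup H) := by
    refine h1.trans ((sum_le_sum fun x _ => h2 x).trans (le_of_eq ?_))
    rw [sum_const, card_univ, smul_eq_mul, mul_one, ← Nat.card_eq_fintype_card]
    rfl
  obtain ⟨k, hk⟩ := IsPGroup.iff_card.1 P.isPGroup'
  have h4 : 2 ^ k ∣ (Fintype.card Ω).factorial := by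
    rw [← hk, ← Fintype.card_perm, ← Nat.card_eq_fintype_card]
    exact card_dvd_of_injective _ (inj_sylow ρ (h 2 Nat.prime_two (by omega)) P.isPGroup')
  have h5 := (padicValNat_dvd_iff_le (Nat.factorial_ne_zero _)).1 h4
  have h6 := sub_one_mul_padicValNat_factorial_lt_of_ne_zero (p := 2)
    (Fintype.card_ne_zero (α := Ω))
  have h7 : 2 * Nat.card (Sm 3 H) ≤ 2 ^ Fintype.card Ω := by
    calc 2 * Nat.card (Sm 3 H) ≤ 2 * 2 ^ k := Nat.mul_le_mul_left 2 (h3.trans hk.le)
      _ = 2 ^ (k + 1) := by ring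
      _ ≤ 2 ^ Fintype.card Ω := Nat.pow_le_pow_right (by omega) (by omega)
  exact_mod_cast h7

theorem Bd.mono {N : ℕ} {A B : ℝ} (h : Bd.{u, v} N A) (hA : 0 ≤ A) (hAB : A ≤ B) : Bd.{u, v} N B :=
  fun Ω _ _ _ H _ _ ρ hρ => (h Ω H ρ hρ).trans (pow_le_pow_left₀ hA hAB _)

theorem Bd.skip {N : ℕ} {A : ℝ} (h : Bd.{u, v} N A) (hN : ¬ N.Prime) : Bd.{u, v} (N + 1) A := by
  intro Ω _ _ _ H _ _ ρ hρ
  have : Sm (N + 1) H = Sm N H := by
    ext c
    refine exists_congr fun g => and_congr_right fun _ => forall₃_congr fun q hq _ => ?_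
    have : q ≠ N := fun e => hN (e ▸ hq)
    omega
  rw [this]
  exact h Ω H ρ fun q hq hl => hρ q hq (by omega)

theorem Bd.step {p : ℕ} (hp : p.Prime) {A u v B : ℝ} (h : Bd.{u, v} p A) (hA : 0 ≤ A) (hB : 0 ≤ B)
    (hu : 1 ≤ u) (hv : 1 ≤ v) (hpu : (p : ℝ) ≤ u ^ (p - 1)) (hAv : A ≤ v ^ p)
    (hs : A ^ p + (u * v) ^ p ≤ B ^ p) : Bd.{u, v} (p + 1) B := by
  classical
  intro Ω _ _ _ H _ _ ρ hρ
  have := Fact.mk hp
  obtain ⟨P⟩ : Nonempty (Sylow p H) := inferInstance
  have := Fintype.ofFinite P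
  have hinj := inj_sylow ρ (hρ p hp (by omega)) P.isPGroup'
  have h2 : ∀ x : P, 2 * (Nat.card (Sm p (centralizer ({(x : H)} : Set H))) : ℝ) ≤
      A ^ Nat.card (Cyc (ρ x)) := by
    intro x
    have := Fintype.ofFinite (Cyc (ρ x))
    have : Nonempty (Cyc (ρ x)) := ⟨Quotient.mk'' (Classical.arbitrary Ω)⟩
    have hc : ∀ c : centralizer ({(x : H)} : Set H),
        Commute (ρ.comp (centralizer ({(x : H)} : Set H)).subtype c) (ρ x) := fun c =>
      Commute.map (mem_centralizer_singleton_iff.1 c.2 : Commute (c : H) x) ρ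
    rw [Nat.card_eq_fintype_card (α := Cyc (ρ x))]
    refine h _ _ (cycHom _ _ hc) fun q hq hl hd => ?_
    have := Fact.mk hq
    obtain ⟨c, hc'⟩ := exists_prime_orderOf_dvd_card' q hd
    obtain ⟨k, hk⟩ := P.isPGroup' x
    have h1 : ρ (c.1 : H) ^ p ^ k = 1 := pow_eq_one_of_cycHom _ _ hc
      (by rw [← map_pow, ← Subgroup.coe_pow, hk]; simp) c.2
    have h3 : orderOf (c.1 : H) = q := by rw [Subgroup.orderOf_coe, Subgroup.orderOf_coe, hc']
    have h4 : ρ (c.1 : H) = 1 := by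
      rw [← orderOf_eq_one_iff]
      refine Nat.eq_one_of_dvd_coprimes (((Nat.coprime_primes hq hp).2 hl.ne).pow_right k)
        (h3 ▸ orderOf_map_dvd ρ _) (orderOf_dvd_of_pow_eq_one h1)
    exact hρ q hq (by omega) (h3 ▸ ρ.ker.orderOf_dvd_natCard h4)
  let e := MonoidHom.ofInjective hinj
  have := Fintype.ofFinite (ρ.comp (P : Subgroup H).subtype).range
  calc 2 * (Nat.card (Sm (p + 1) H) : ℝ)
      ≤ 2 * ∑ x : P, (Nat.card (Sm p (centralizer ({(x : H)} : Set H))) : ℝ) := by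
        have := card_sm_succ P
        exact mul_le_mul_of_nonneg_left (by exact_mod_cast this) zero_le_two
    _ ≤ ∑ x : P, A ^ Nat.card (Cyc (ρ x)) := by
        rw [mul_sum]; exact sum_le_sum fun x _ => h2 x
    _ = ∑ x : (ρ.comp (P : Subgroup H).subtype).range, A ^ Nat.card (Cyc (x : Perm Ω)) :=
        Fintype.sum_equiv e.toEquiv _ _ fun x => rfl
    _ ≤ B ^ Fintype.card Ω :=
        sum_le (P.isPGroup'.of_surjective e.toMonoidHom e.surjective) hA hB hu hv hpu hAv hs

theorem bd_seven : Bd.{u, v} 7 (273 / 100) := by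
  have h4 : Bd.{u, v} 4 (265 / 100) := bd_three.step Nat.prime_three (u := 174 / 100) (v := 126 / 100)
    (by norm_num) (by norm_num) (by norm_num) (by norm_num) (by norm_num) (by norm_num) (by norm_num)
  have h6 : Bd.{u, v} 6 (273 / 100) := (h4.skip (by norm_num)).step Nat.prime_five (u := 3 / 2)
    (v := 122 / 100) (by norm_num) (by norm_num) (by norm_num) (by norm_num) (by norm_num)
    (by norm_num) (by norm_num)
  exact h6.skip (by norm_num)

theorem le_pow_seven (n : ℕ) : ((n + 7 : ℕ) : ℝ) ≤ (7 / 5) ^ (n + 7 - 1) := by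
  induction n with
  | zero => norm_num
  | succ n ih =>
    rw [show n + 1 + 7 - 1 = (n + 7 - 1) + 1 by omega, pow_succ]
    push_cast at ih ⊢
    have : (0 : ℝ) ≤ n := Nat.cast_nonneg n
    linarith

theorem bd_large (n : ℕ) : Bd.{u, v} (n + 7) (276 / 100 - 3 / 100 * (3 / 5) ^ n) := by
  induction n with
  | zero => simpa [show (276 / 100 - 3 / 100 : ℝ) = 273 / 100 by norm_num] using bd_seven
  | succ n ih =>
    have t0 : (0 : ℝ) < (3 / 5) ^ n := by positivity
    have t1 : ((3 : ℝ) / 5) ^ n ≤ 1 := pow_le_one₀ (by norm_num) (by norm_num)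
    set t : ℝ := (3 / 5) ^ n with ht
    set A : ℝ := 276 / 100 - 3 / 100 * t with hA
    have hA0 : 273 / 100 ≤ A := by linarith
    have e : (276 / 100 - 3 / 100 * (3 / 5) ^ (n + 1) : ℝ) = A + 3 / 250 * t := by
      rw [pow_succ, hA]; ring
    rw [e]
    by_cases hp : (n + 7).Prime
    · refine ih.step hp (u := 7 / 5) (v := 116 / 100) (by linarith) (by linarith) (by norm_num)
        (by norm_num) (le_pow_seven n) ?_ ?_
      · rw [pow_add]
        have : (1 : ℝ) ≤ (116 / 100) ^ n := one_le_pow₀ (by norm_num)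
        nlinarith
      · have h1 := pow_add_mul_le_add_pow (R := ℝ) (a := A) (b := 3 / 250 * t) (by linarith)
          (by linarith) (n + 7)
        rw [show n + 7 - 1 = n + 6 by omega] at h1
        have h2 : ((7 : ℝ) / 5 * (116 / 100)) ^ (n + 6) ≤ (3 / 5 * A) ^ (n + 6) :=
          pow_le_pow_left₀ (by norm_num) (by linarith) _
        have h3 : (0 : ℝ) ≤ A ^ (n + 6) := by positivity
        have h4 : (0 : ℝ) ≤ n := Nat.cast_nonneg n
        refine le_trans ?_ h1
        rw [mul_pow (3 / 5 : ℝ), pow_add (3 / 5 : ℝ), ← ht] at h2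
        rw [add_le_add_iff_left, show n + 7 = n + 6 + 1 by omega,
          pow_succ ((7 : ℝ) / 5 * (116 / 100))]
        push_cast
        have h5 : 0 ≤ A ^ (n + 6) * t := by positivity
        have h6 : 0 ≤ n * (A ^ (n + 6) * t) := by positivity
        nlinarith
    · exact (ih.skip hp).mono (by linarith) (by linarith)

theorem fact_le : ∀ n : ℕ, n ≤ 4 → 1 ≤ n → n.factorial ≤ 3 ^ (n - 1) := by decide

/-- A permutation group of degree `n` has at most `3 ^ (n - 1)` conjugacy classes. -/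
theorem card_conjClasses_le {Ω : Type u} [Finite Ω] [Nonempty Ω] {H : Type v} [Group H]
    (ρ : H →* Perm Ω) (hρ : Function.Injective ρ) :
    Nat.card (ConjClasses H) ≤ 3 ^ (Nat.card Ω - 1) := by
  classical
  have := Fintype.ofFinite Ω
  have : Finite H := Finite.of_injective _ hρ
  rw [Nat.card_eq_fintype_card (α := Ω)]
  have hn : 1 ≤ Fintype.card Ω := Fintype.card_pos
  by_cases h4 : Fintype.card Ω ≤ 4
  · refine le_trans ?_ (fact_le _ h4 hn)
    rw [← Fintype.card_perm, ← Nat.card_eq_fintype_card]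
    exact (Nat.card_le_card_of_surjective _ ConjClasses.mk_surjective).trans
      (Nat.card_le_card_of_injective _ hρ)
  · have h1 := bd_large (Nat.card H) Ω H ρ fun q hq _ hd => by
      rw [(MonoidHom.ker_eq_bot_iff ρ).2 hρ, Subgroup.card_bot] at hd
      exact hq.one_lt.ne' (Nat.dvd_one.1 hd)
    have h2 : Sm (Nat.card H + 7) H = Set.univ := Set.eq_univ_of_forall fun c => by
      obtain ⟨g, rfl⟩ := ConjClasses.mk_surjective c
      refine ⟨g, rfl, fun q _ hd => ?_⟩
      have := Nat.le_of_dvd Nat.card_pos (hd.trans (orderOf_dvd_natCard g))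
      omega
    rw [h2, Nat.card_univ] at h1
    obtain ⟨m, hm⟩ : ∃ m, Fintype.card Ω = m + 5 := ⟨Fintype.card Ω - 5, by omega⟩
    rw [hm] at h1 ⊢
    have t0 : (0 : ℝ) < (3 / 5) ^ Nat.card H := by positivity
    have t1 : ((3 : ℝ) / 5) ^ Nat.card H ≤ 1 := pow_le_one₀ (by norm_num) (by norm_num)
    have h3 : ((276 : ℝ) / 100 - 3 / 100 * (3 / 5) ^ Nat.card H) ^ (m + 5) ≤ (276 / 100) ^ (m + 5) :=
      pow_le_pow_left₀ (by linarith) (by linarith) _
    have h5 : ((276 : ℝ) / 100) ^ m ≤ 3 ^ m := pow_le_pow_left₀ (by norm_num) (by norm_num) _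
    have h6 : (Nat.card (ConjClasses H) : ℝ) ≤ 3 ^ (m + 4) := by
      rw [pow_add ((276 : ℝ) / 100)] at h3
      rw [pow_add]
      have : (0 : ℝ) ≤ (276 / 100) ^ m := by positivity
      nlinarith
    exact_mod_cast h6

end Cfsg.Lib.KPerm
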