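import Mathlib
import Cfsg.Agent.Perm.MultiRestrict

/-! In a `k`-transitive group, `k ≥ 4`, some `(k+1)`-set carries the alternating group; and the
bound on the degree when `k`-point stabilisers have odd order. -/

set_option autoImplicit false
set_option linter.unusedSectionVars false

namespace Cfsg.Lib.Perm

open MulAction Equiv Cfsg.Lib.Trans

variable {G α : Type*} [Group G] [MulAction G α] [Finite G] [Fintype α] [DecidableEq α] {k : ℕ}

/-- All even permutations of `Δ` are induced. -/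
def IndAlt (G : Type*) {α : Type*} [Group G] [MulAction G α] [DecidableEq α] (Δ : Finset α) : Prop :=
  ∀ σ : Perm Δ, σ ∈ alternatingGroup Δ → ∃ g : G, ∀ x : Δ, g • (x : α) = σ x

theorem KOdd.exists_indAlt_of_even (htr : IsMultiplyPretransitive G α k)
    (hkn : k < Fintype.card α) (hodd : KOdd G α k) (hk : 4 ≤ k) (hev : Fintype.card α ≡ k [MOD 2]) :
    ∃ Δ : Finset α, Δ.card = k + 1 ∧ IndAlt G Δ := by
  have hkn' : k ≤ Nat.card α := by rw [Nat.card_eq_fintype_card]; exact hkn.le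
  obtain ⟨Δ, -, hΔ⟩ := Finset.exists_subset_card_eq (s := (Finset.univ : Finset α)) (n := k + 1) hkn
  obtain ⟨z, hz⟩ := Finset.card_pos.1 (show 0 < Δ.card by omega)
  set Γ := Δ.erase z
  have hΓ : Γ.card = k := by rw [Finset.card_erase_of_mem hz]; omega
  have hzΓ : z ∉ Γ := Finset.notMem_erase z Δ
  obtain ⟨x, hx, y, hy, hxy⟩ := Finset.one_lt_card.1 (show 1 < Γ.card by omega)
  obtain ⟨c, hc, hcΓ⟩ := hodd.exists_invol_swap htr hkn' hΓ hx hy
  let U : Subgroup (Perm Δ) :=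
    { carrier := {σ | ∃ g : G, ∀ x : Δ, g • (x : α) = σ x}
      one_mem' := ⟨1, fun x => one_smul _ _⟩
      mul_mem' := by
        rintro σ τ ⟨g, hg⟩ ⟨h, hh⟩
        exact ⟨g * h, fun x => by rw [mul_smul, hh, hg, Perm.mul_apply]⟩
      inv_mem' := by
        rintro σ ⟨g, hg⟩
        exact ⟨g⁻¹, fun x => by rw [inv_smul_eq_iff, hg]; simp⟩ }
  have key : ∀ σ : Perm Δ, σ ∉ U → ∃ g : G, (∀ x : Δ, (x : α) ≠ z → g • (x : α) = σ x) ∧
      g • c • z = σ ⟨z, hz⟩ := by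
    intro σ hσ
    obtain ⟨g, hg⟩ := exists_smul_eq_on_finset' htr hkn' Γ hΓ.le (Perm.ofSubtype σ)
      (Equiv.injective _).injOn
    have hg' : ∀ x : Δ, (x : α) ≠ z → g • (x : α) = σ x := fun x hx => by
      rw [hg x (Finset.mem_erase.2 ⟨hx, x.2⟩), Perm.ofSubtype_apply_coe]
    have h1 : g⁻¹ • (σ ⟨z, hz⟩ : α) ∉ Γ := fun e => by
      have h2 := hg' ⟨_, Finset.mem_of_mem_erase e⟩ (Finset.ne_of_mem_erase e)
      rw [smul_inv_smul] at h2
      exact Finset.ne_of_mem_erase e (congrArg Subtype.val (σ.injective (Subtype.ext h2))).symm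
    obtain ⟨h, -, hh, hh'⟩ := hodd.two_orbits htr hkn' hk hev hΓ hx hy hxy hc hcΓ h1 hzΓ
    have hh2 : ∀ x : Δ, (x : α) ≠ z → (g * h⁻¹) • (x : α) = σ x := fun x hx => by
      rw [mul_smul, inv_smul_eq_iff.2 (hh _ (Finset.mem_erase.2 ⟨hx, x.2⟩)).symm, hg' x hx]
    rcases hh' with e | e
    · refine absurd ⟨g * h⁻¹, fun x => ?_⟩ hσ
      by_cases hx : (x : α) = z
      · rw [show x = ⟨z, hz⟩ from Subtype.ext hx, mul_smul, inv_smul_eq_iff.2 e.symm, smul_inv_smul]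
      · exact hh2 x hx
    · exact ⟨g * h⁻¹, hh2, by rw [mul_smul, ← e, inv_smul_smul, smul_inv_smul]⟩
  refine ⟨Δ, hΔ, fun σ hσ => ?_⟩
  by_cases hU : U = ⊤
  · exact (hU ▸ Subgroup.mem_top σ : σ ∈ U)
  obtain ⟨ρ, -, hρ⟩ := SetLike.exists_of_lt (lt_top_iff_ne_top.2 hU)
  refine Equiv.Perm.alternatingGroup_le_of_index_le_two (G := U) (Nat.le_of_dvd two_pos ?_) hσ
  refine Subgroup.index_dvd_two_iff.2 ⟨ρ⁻¹, fun b => ?_⟩
  by_cases hb : b ∈ U
  · exact Or.inr hb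
  obtain ⟨g, hg, hg'⟩ := key b hb
  obtain ⟨h, hh, hh'⟩ := key ρ hρ
  refine Or.inl ⟨g * h⁻¹, fun x => ?_⟩
  obtain ⟨x, rfl⟩ := ρ.surjective x
  rw [Perm.mul_apply, show ρ⁻¹ (ρ x) = x by simp, mul_smul]
  by_cases hx : (x : α) = z
  · rw [show x = ⟨z, hz⟩ from Subtype.ext hx, ← hh', inv_smul_smul, hg']
  · rw [← hh x hx, inv_smul_smul, hg x hx]

theorem KOdd.swaps_of_fix (hodd : KOdd G α (k + 1)) (hk : 2 ≤ k)
    (hfix : ∀ s : Finset α, s.card = k → ∃ z : G, z * z = 1 ∧ z ≠ 1 ∧ ∀ x ∈ s, z • x = x)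
    {Δ : Finset α} (hΔ : Δ.card = k + 1) :
    ∀ a ∈ Δ, ∀ b ∈ Δ, a ≠ b → ∃ g : G, ∀ x ∈ Δ, g • x = swap a b x := by
  have hex : ∀ (s : Finset α) (z : G), s.card = k → z * z = 1 → z ≠ 1 → (∀ x ∈ s, z • x = x) →
      ∀ x, z • x = x → x ∈ s := by
    intro s z hs hz hz1 h x hx
    have h1 := hodd.card_fixFin_lt hz hz1
    have h2 : s = fixFin α z :=
      Finset.eq_of_subset_of_card_le (fun y hy => mem_fixFin.2 (h y hy)) (by omega)
    exact h2 ▸ mem_fixFin.2 hx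
  intro i hi j hj hij
  obtain ⟨x, hx, hx'⟩ := Finset.exists_mem_notMem_of_card_lt_card (s := {i, j}) (t := Δ)
    (by rw [Finset.card_pair hij]; omega)
  simp only [Finset.mem_insert, Finset.mem_singleton, not_or] at hx'
  set Γ := Δ.erase x
  have hΓ : Γ.card = k := by rw [Finset.card_erase_of_mem hx]; omega
  have hxΓ : x ∉ Γ := Finset.notMem_erase x Δ
  have hiΓ : i ∈ Γ := Finset.mem_erase.2 ⟨Ne.symm hx'.1, hi⟩
  have hjΓ : j ∈ Γ := Finset.mem_erase.2 ⟨Ne.symm hx'.2, hj⟩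
  obtain ⟨z, hz, hz1, hzΓ⟩ := hfix Γ hΓ
  have hzz : ∀ y : α, z • z • y = y := fun y => by rw [← mul_smul, hz, one_smul]
  have hyx : z • x ≠ x := fun e => hxΓ (hex Γ z hΓ hz hz1 hzΓ x e)
  have hyΓ : z • x ∉ Γ := fun e => hyx (by have := hzΓ _ e; rwa [hzz, eq_comm] at this)
  set Γ' := insert x (insert (z • x) ((Γ.erase i).erase j)) with hΓ'def
  have hΓ' : Γ'.card = k := by
    rw [Finset.card_insert_of_notMem (by simp [hxΓ, hyx.symm]),
      Finset.card_insert_of_notMem (by simp [hyΓ])]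
    have := card_erase_erase hiΓ hjΓ hij
    omega
  have hmem : ∀ y, y ∈ Γ' ↔ y = x ∨ y = z • x ∨ (y ≠ j ∧ y ≠ i ∧ y ∈ Γ) := fun y => by
    simp only [hΓ'def, Finset.mem_insert, Finset.mem_erase]
  obtain ⟨y₀, hy₀, hy₁, hy₂⟩ := hfix Γ' hΓ'
  obtain ⟨w, hw, hw1, hww, hwz⟩ := exists_invol_commute (fixF G Γ') hz (fun y hy => by
      refine mem_fixF.2 fun u hu => ?_
      rw [mul_smul, mul_smul, mem_fixF.1 hy, hzz]
      rw [hmem] at hu ⊢
      rcases hu with rfl | rfl | hu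
      · simp
      · simp [hzz]
      · rw [hzΓ u hu.2.2]; tauto) (mem_fixF.2 hy₂) hy₁ hy₀
  have hw' := mem_fixF.1 hw
  have hwΓ : ∀ u ∈ Γ, w • u ∈ Γ := fun u hu => hex Γ z hΓ hz hz1 hzΓ _ (by
    rw [← mul_smul, ← hwz.eq, mul_smul, hzΓ u hu])
  have hwi : w • i = j := by
    by_contra e
    have h1 : w • i ≠ i := fun e => by
      rcases (hmem i).1 (hex Γ' w hΓ' hww hw1 hw' i e) with e | e | e
      · exact hx'.1 e.symm
      · exact hyΓ (e ▸ hiΓ)
      · exact e.2.1 rfl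
    exact h1 (smul_left_cancel w (hw' _ ((hmem _).2 (Or.inr (Or.inr ⟨e, h1, hwΓ i hiΓ⟩)))))
  refine ⟨w, fun u hu => ?_⟩
  rw [swap_apply_def]
  split_ifs with e1 e2
  · rw [e1, hwi]
  · rw [e2, ← hwi, ← mul_smul, hww, one_smul]
  · by_cases e3 : u = x
    · exact hw' u ((hmem u).2 (Or.inl e3))
    · exact hw' u ((hmem u).2 (Or.inr (Or.inr ⟨e2, e1, Finset.mem_erase.2 ⟨e3, hu⟩⟩)))

theorem indAlt_upF {Q : Subgroup G} {Δ : Finset (FixT α Q)} (h : IndAlt (resX α Q) Δ) :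
    IndAlt G (upF Δ) := by
  intro σ hσ
  let e : Δ ≃ upF Δ := Equiv.ofBijective (fun x => ⟨x.1.1, mem_upF.2 ⟨x.1, x.2, rfl⟩⟩) ⟨by
    intro x y hxy
    exact Subtype.ext (Subtype.ext (congrArg (fun u : upF Δ => (u : α)) hxy)), by
    rintro ⟨x, hx⟩
    obtain ⟨y, hy, rfl⟩ := mem_upF.1 hx
    exact ⟨⟨y, hy⟩, rfl⟩⟩
  obtain ⟨τ, hτ⟩ := h (e.symm.permCongr σ) (by
    rw [Perm.mem_alternatingGroup, Perm.sign_permCongr]; exact hσ)
  obtain ⟨g, -, hg⟩ := resX_exists τ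
  refine ⟨g, fun x => ?_⟩
  obtain ⟨x, rfl⟩ := e.surjective x
  have h1 : ∀ y : upF Δ, (((e.symm y : Δ) : FixT α Q) : α) = y := fun y => by
    obtain ⟨y, rfl⟩ := e.surjective y
    rw [e.symm_apply_apply]; rfl
  have h2 := congrArg Subtype.val (hτ x)
  rw [hg, Equiv.permCongr_apply, h1, Equiv.symm_symm] at h2
  exact h2

theorem exists_indAlt (hk : 4 ≤ k) (hkn : k < Fintype.card α)
    (htr : IsMultiplyPretransitive G α k) : ∃ Δ : Finset α, Δ.card = k + 1 ∧ IndAlt G Δ := by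
  classical
  have hkn' : k ≤ Nat.card α := by rw [Nat.card_eq_fintype_card]; exact hkn.le
  obtain ⟨Q, hQ⟩ := exists_maxFix (G := G) 2 hkn
  have hX := hQ.resX_trans Nat.prime_two htr (by omega) hkn'
  have hlt := hQ.lt_card
  have hlt' := hlt
  rw [Nat.card_eq_fintype_card] at hlt'
  suffices h : ∃ Δ : Finset (FixT α Q), Δ.card = k + 1 ∧ IndAlt (resX α Q) Δ by
    obtain ⟨Δ, h1, h2⟩ := h
    exact ⟨upF Δ, by rw [upF, Finset.card_map, h1], indAlt_upF h2⟩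
  rcases MaxFix.sylow_or Nat.prime_two htr hkn' (Q := Q) with h | h
  · have hodd : KOdd (resX α Q) (FixT α Q) k := fun σ s hs hσ =>
      Nat.two_dvd_ne_zero.1 (not_dvd_orderOf_resX Nat.prime_two (h s hs) hσ) |> Nat.odd_iff.2
    by_cases hev : Fintype.card (FixT α Q) ≡ k [MOD 2]
    · exact hodd.exists_indAlt_of_even hX hlt' hk hev
    · obtain ⟨Δ, h1, h2⟩ := hodd.exists_swaps_of_odd hX hlt.le hk (by unfold Nat.ModEq at *; omega)
      exact ⟨Δ, h1, fun σ _ => induced_of_swaps h2 σ⟩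
  · have hodd : KOdd (resX α Q) (FixT α Q) (k + 1) := fun σ s hs hσ =>
      Nat.two_dvd_ne_zero.1 (not_dvd_orderOf_resX Nat.prime_two
        (hQ.isSylowIn Nat.prime_two (by rw [upF, Finset.card_map]; omega) (le_fixF_upF s)) hσ)
        |> Nat.odd_iff.2
    obtain ⟨Δ, -, hΔ⟩ := Finset.exists_subset_card_eq (s := (Finset.univ : Finset (FixT α Q)))
      (n := k + 1) hlt'
    refine ⟨Δ, hΔ, fun σ _ => induced_of_swaps (hodd.swaps_of_fix (by omega) (fun s hs => ?_) hΔ) σ⟩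
    obtain ⟨P, hP, hPs⟩ := hQ.exists_fix_eq Nat.prime_two hs (h s hs)
    have := Fact.mk Nat.prime_two
    rcases hP.card_eq_or_dvd with e | e
    · rw [Subgroup.card_eq_one] at e
      subst e
      have : s = Finset.univ := Finset.eq_univ_of_forall fun x => by
        rw [← Finset.mem_coe, ← hPs, mem_fixedPoints]
        intro g
        rw [Subsingleton.elim g 1, one_smul]
      rw [this, Finset.card_univ] at hs
      omega
    · obtain ⟨z, hz⟩ := exists_prime_orderOf_dvd_card' (G := P) 2 e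
      refine ⟨z, ?_, fun e => ?_, fun x hx => ?_⟩
      · rw [← pow_two, ← hz, ← Subgroup.orderOf_coe, pow_orderOf_eq_one]
      · rw [← Subgroup.orderOf_coe, e, orderOf_one] at hz
        exact absurd hz (by decide)
      · rw [← Finset.mem_coe, ← hPs, mem_fixedPoints] at hx
        exact hx z

end Cfsg.Lib.Perm
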