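import Mathlib
import Cfsg.Agent.Perm.MultiAlt
import Cfsg.Agent.Class.DicksonCount
import Cfsg.Agent.Perm.Homog

/-! `k`-transitive groups (`k ≥ 4`) whose `k`-point stabilisers have odd order and whose degree has
the parity of `k` have degree at most `k + 2`; the Livingstone-Wagner step. -/

set_option autoImplicit false
set_option linter.unusedSectionVars false

namespace Cfsg.Lib.Perm

open MulAction Equiv Cfsg.Lib.Trans

universe u v

variable {G α : Type*} [Group G] [MulAction G α] [Finite G] [Fintype α] [DecidableEq α] {k : ℕ}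

theorem KOdd.resX (hodd : KOdd G α k) (Q : Subgroup G) : KOdd (resX α Q) (FixT α Q) k := by
  intro σ s hs hσ
  obtain ⟨g, -, hg⟩ := resX_exists σ
  have h1 := hodd g (upF s) (by rw [upF, Finset.card_map, hs]) (fun x hx => by
    obtain ⟨y, hy, rfl⟩ := mem_upF.1 hx
    rw [← hg, hσ y hy])
  exact h1.of_dvd_nat (resX_orderOf_dvd hg (by rw [pow_orderOf_eq_one]; exact Q.one_mem))

/-- The set-up without `q`-subgroups fixing more than `k` points is impossible. -/
theorem KOdd.he_aux [FaithfulSMul G α] (htr : IsMultiplyPretransitive G α k)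
    (hodd : KOdd G α k) (hk : 4 ≤ k) {s : ℕ} (hs : Fintype.card α = k + 2 * s) (hs2 : 2 ≤ s) :
    ∃ q : ℕ, q.Prime ∧ q ≠ 2 ∧ q ∣ s ∧ ¬ MaxFix q α k (⊥ : Subgroup G) := by
  have hkn : k ≤ Nat.card α := by rw [Nat.card_eq_fintype_card]; omega
  have hev : Fintype.card α ≡ k [MOD 2] := by unfold Nat.ModEq; omega
  obtain ⟨Γ, -, hΓ⟩ := Finset.exists_subset_card_eq (s := (Finset.univ : Finset α)) (n := k)
    (by rw [Finset.card_univ]; omega)
  obtain ⟨x, hx, y, hy, hxy⟩ := Finset.one_lt_card.1 (show 1 < Γ.card by omega)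
  obtain ⟨c, hc, hcΓ⟩ := hodd.exists_invol_swap htr hkn hΓ hx hy
  have hcc : ∀ x : α, c • c • x = x := fun x => by rw [← mul_smul, hc, one_smul]
  have hcin : ∀ γ ∈ Γ, c • γ ∈ Γ := fun γ hγ => by rw [hcΓ γ hγ]; exact swap_mem_of_mem hx hy hγ
  have hcout : ∀ p, p ∉ Γ → c • p ∉ Γ := fun p hp h => hp (hcc p ▸ hcin _ h)
  obtain ⟨z, -, hz⟩ := Finset.exists_mem_notMem_of_card_lt_card (s := Γ) (t := Finset.univ)
    (by rw [Finset.card_univ]; omega)
  set H := fixF G Γ
  set K := H ⊓ Subgroup.centralizer {c}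
  have hHout : ∀ h ∈ H, ∀ p, p ∉ Γ → h • p ∉ Γ := fun h hh p hp e =>
    hp (smul_left_cancel h (mem_fixF.1 hh _ e) ▸ e)
  have hcompl : ((Γ : Set α)ᶜ).ncard = 2 * s := by
    have := Set.ncard_add_ncard_compl (Γ : Set α)
    rw [Set.ncard_coe_finset, Nat.card_eq_fintype_card] at this
    omega
  have hKc : ∀ g ∈ K, Commute g c := fun g hg =>
    (Subgroup.mem_centralizer_singleton_iff.1 hg.2 :)
  have hsK : s ∣ Nat.card K := by
    have h1 : orbit K z ∪ orbit K (c • z) = (Γ : Set α)ᶜ := by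
      ext w
      constructor
      · rintro (⟨g, rfl⟩ | ⟨g, rfl⟩)
        · exact hHout g g.2.1 z hz
        · exact hHout g g.2.1 _ (hcout z hz)
      · intro hw
        obtain ⟨g, hgc, hg, hg'⟩ := hodd.two_orbits htr hkn hk hev hΓ hx hy hxy hc hcΓ hz hw
        have hgK : g ∈ K := ⟨mem_fixF.2 hg, Subgroup.mem_centralizer_singleton_iff.2 hgc⟩
        rcases hg' with e | e
        · exact Or.inl ⟨⟨g, hgK⟩, e⟩
        · refine Or.inr ⟨⟨g, hgK⟩, ?_⟩
          change g • c • z = w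
          rw [← mul_smul, hgc.eq, mul_smul, e, hcc]
    have h2 : stabilizer K (c • z) = stabilizer K z := by
      ext g
      rw [mem_stabilizer_iff, mem_stabilizer_iff]
      change (g : G) • c • z = c • z ↔ (g : G) • z = z
      rw [← mul_smul, (hKc g g.2).eq, mul_smul, smul_left_cancel_iff]
    have h3 : (orbit K (c • z)).ncard = (orbit K z).ncard := by
      rw [← index_stabilizer, ← index_stabilizer, h2]
    have h4 : (orbit K z).ncard ∣ Nat.card K := by
      rw [← index_stabilizer]; exact Subgroup.index_dvd_card _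
    rcases orbit.eq_or_disjoint (G := K) z (c • z) with e | e
    · rw [← e, Set.union_self] at h1
      rw [h1, hcompl] at h4
      exact (Dvd.intro_left 2 rfl).trans h4
    · have := Set.ncard_union_eq e
      rw [h1, hcompl, h3] at this
      rwa [show s = (orbit K z).ncard by omega]
  have hHodd : Odd (Nat.card H) :=
    odd_card_of_forall_odd_orderOf H fun g hg => hodd g Γ hΓ (mem_fixF.1 hg)
  obtain ⟨q, hq, hqs⟩ := Nat.exists_prime_and_dvd (show s ≠ 1 by omega)
  have hq2 : q ≠ 2 := by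
    rintro rfl
    exact absurd (hHodd.of_dvd_nat ((hqs.trans hsK).trans (Subgroup.card_dvd_of_le inf_le_left)))
      (by decide)
  refine ⟨q, hq, hq2, hqs, fun hM => ?_⟩
  have := Fact.mk hq
  have hfree : ∀ R : Subgroup G, IsPGroup q R → R ≤ H → ∀ p, p ∉ Γ → (∀ r ∈ R, r • p = p) →
      R = ⊥ := fun R hR hRH p hp h => le_bot_iff.1 (hM.max R hR bot_le (lt_of_lt_of_le
        (by rw [Finset.card_insert_of_notMem hp]; omega)
        (card_le_card_fixT (s := insert p Γ) fun r hr => mem_fixF.2 fun w hw => by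
          rcases Finset.mem_insert.1 hw with rfl | hw
          · exact h r hr
          · exact mem_fixF.1 (hRH hr) w hw)))
  obtain ⟨Q, hQ⟩ := exists_isSylowIn (p := q) K
  obtain ⟨S, hS⟩ := exists_isSylowIn (p := q) H
  have hQH : IsSylowIn q Q H := by
    refine hS.of_card_ge hQ.isPGroup (hQ.le.trans inf_le_left) ?_
    have h1 := Cfsg.Lib.Class.card_dvd_ncard_of_free S ((Γ : Set α)ᶜ)
      (fun h hh p hp => hHout h (hS.le hh) p hp) (fun h hh p hp e => by
        have := hfree (Subgroup.zpowers h) (hS.isPGroup.to_le (by rwa [Subgroup.zpowers_le]))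
          (by rw [Subgroup.zpowers_le]; exact hS.le hh) p hp (fun r hr =>
            (show Subgroup.zpowers h ≤ stabilizer G p by rwa [Subgroup.zpowers_le]) hr)
        rwa [Subgroup.zpowers_eq_bot] at this)
    rw [hcompl, hS.card_eq] at h1
    have h2 := ((Nat.Coprime.pow_left _ ((Nat.coprime_primes hq Nat.prime_two).2 hq2)).dvd_of_dvd_mul_left h1).trans hsK
    rw [hS.card_eq, hQ.card_eq]
    exact Nat.pow_le_pow_right hq.pos ((hq.pow_dvd_iff_le_factorization Nat.card_pos.ne').1 h2)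
  have hQne : Q ≠ ⊥ := fun e => hQ.eq_bot_iff.1 e (hqs.trans hsK)
  obtain ⟨u, v, hu, hv, hu', hv', huv⟩ := exists_two_mem_notMem (s := Γ) (t := {x, y})
    (by rw [Finset.card_pair hxy]; omega)
  simp only [Finset.mem_insert, Finset.mem_singleton, not_or] at hu' hv'
  -- an element normalising `Q` and carrying `x, y` to `u, v`
  obtain ⟨g, hg⟩ := exists_smul_eq_on_finset' htr hkn Γ hΓ.le (swap x u * swap y v)
    (Equiv.injective _).injOn
  have hgΓ : ∀ γ ∈ Γ, g • γ ∈ Γ := fun γ hγ => by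
    rw [hg γ hγ]; exact swap_mem_of_mem hx hu (swap_mem_of_mem hy hv hγ)
  have hgN : g ∈ Subgroup.normalizer (H : Set G) := by
    rw [← cj_eq_self_iff, cj_fixF, Finset.eq_of_subset_of_card_le (s := Γ.image (g • ·)) (t := Γ)
      (fun w hw => by obtain ⟨γ, hγ, rfl⟩ := Finset.mem_image.1 hw; exact hgΓ γ hγ)
      (by rw [Finset.card_image_of_injective _ (MulAction.injective g)])]
  obtain ⟨n, hn, h, hh, hgnh⟩ := hQH.frattini' hgN
  have hnΓ : ∀ γ ∈ Γ, n • γ = g • γ := fun γ hγ => by rw [hgnh, mul_smul, mem_fixF.1 hh γ hγ]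
  have hnx : n • x = u := by
    rw [hnΓ x hx, hg x hx, Perm.mul_apply, swap_apply_of_ne_of_ne hxy (Ne.symm hv'.1), swap_apply_left]
  have hny : n • y = v := by
    rw [hnΓ y hy, hg y hy, Perm.mul_apply, swap_apply_left, swap_apply_of_ne_of_ne hv'.1 huv.symm]
  have hninv : ∀ γ ∈ Γ, n⁻¹ • γ ∈ Γ := fun γ hγ => by
    have h1 : Γ.image (n • ·) = Γ := Finset.eq_of_subset_of_card_le
      (fun w hw => by obtain ⟨γ, hγ, rfl⟩ := Finset.mem_image.1 hw; rw [hnΓ γ hγ]; exact hgΓ γ hγ)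
      (by rw [Finset.card_image_of_injective _ (MulAction.injective n)])
    rw [← h1] at hγ
    obtain ⟨γ, hγ', rfl⟩ := Finset.mem_image.1 hγ
    rwa [inv_smul_smul]
  have ha : ∀ γ ∈ Γ, (n * c * n⁻¹) • γ = swap u v γ := fun γ hγ => by
    rw [mul_smul, mul_smul, hcΓ _ (hninv γ hγ), smul_swap_apply, smul_inv_smul, hnx, hny]
  have hπ : ∀ γ, swap x y (swap u v γ) = swap u v (swap x y γ) := fun γ => by
    have := Equiv.Perm.Disjoint.commute (Equiv.Perm.disjoint_swap_swap (x := x) (y := y) (z := u)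
      (t := v) (by simp [hxy, huv, Ne.symm hu'.1, Ne.symm hu'.2, Ne.symm hv'.1, Ne.symm hv'.2]))
    exact DFunLike.congr_fun this.eq γ
  have hca : ∀ γ ∈ Γ, (c * (n * c * n⁻¹)) • γ = swap x y (swap u v γ) := fun γ hγ => by
    rw [mul_smul, ha γ hγ, hcΓ _ (swap_mem_of_mem hu hv hγ)]
  obtain ⟨t, ht, htΓ, htc⟩ := hodd.exists_invol hΓ.ge (g := c * (n * c * n⁻¹)) (fun γ hγ => by
    rw [hca γ hγ, hca _ (swap_mem_of_mem hx hy (swap_mem_of_mem hu hv hγ)), ← hπ,
      swap_apply_self, swap_apply_self])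
  replace htΓ : ∀ γ ∈ Γ, t • γ = swap x y (swap u v γ) := fun γ hγ => (htΓ γ hγ).trans (hca γ hγ)
  have htQ : ∀ r ∈ Q, Commute t r := fun r hr => htc r (by
    refine (hKc r (hQ.le hr)).symm.mul_left ?_
    have h1 : n⁻¹ * r * n ∈ Q := by
      have := (Subgroup.mem_normalizer_iff.1 (Subgroup.inv_mem _ hn) r).1 hr
      rwa [inv_inv] at this
    have h2 := (hKc _ (hQ.le h1)).eq
    rw [Commute, SemiconjBy]
    calc n * c * n⁻¹ * r = n * (c * (n⁻¹ * r * n)) * n⁻¹ := by group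
      _ = r * (n * c * n⁻¹) := by rw [← h2]; group)
  -- a conjugate of `c` acting on `Γ` like `t`
  have hczz : c • z ≠ z := fun e => by
    have hc1 : c ≠ 1 := by
      rintro rfl
      have := hcΓ x hx
      rw [one_smul, swap_apply_left] at this
      exact hxy this
    have h1 := hodd.fixFin_eq hev hc hc1 (A := (Γ.erase x).erase y)
      (by rw [card_erase_erase hx hy hxy, hΓ]) (fun γ hγ => by
        simp only [Finset.mem_erase] at hγ
        rw [hcΓ γ hγ.2.2, swap_apply_of_ne_of_ne hγ.2.1 hγ.1])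
    have := h1 ▸ mem_fixFin.2 e
    exact hz (Finset.mem_of_mem_erase (Finset.mem_of_mem_erase this))
  have hne : ∀ γ ∈ Γ, γ ≠ z ∧ γ ≠ c • z := fun γ hγ =>
    ⟨fun e => hz (e ▸ hγ), fun e => hcout z hz (e ▸ hγ)⟩
  obtain ⟨f, hf⟩ := exists_smul_eq_on_finset' htr hkn Γ hΓ.le (swap u z * swap v (c • z))
    (Equiv.injective _).injOn
  have hfu : f • u = z := by
    rw [hf u hu, Perm.mul_apply, swap_apply_of_ne_of_ne huv (hne u hu).2, swap_apply_left]
  have hfv : f • v = c • z := by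
    rw [hf v hv, Perm.mul_apply, swap_apply_left, swap_apply_of_ne_of_ne (hne u hu).2.symm hczz]
  have hfo : ∀ γ ∈ Γ, γ ≠ u → γ ≠ v → f • γ = γ := fun γ hγ h1 h2 => by
    rw [hf γ hγ, Perm.mul_apply, swap_apply_of_ne_of_ne h2 (hne γ hγ).2,
      swap_apply_of_ne_of_ne h1 (hne γ hγ).1]
  have hb : ∀ γ ∈ Γ, (f⁻¹ * c * f) • γ = t • γ := fun γ hγ => by
    rw [htΓ γ hγ, mul_smul, mul_smul, inv_smul_eq_iff]
    by_cases h1 : γ = u
    · rw [h1, hfu, swap_apply_left, swap_apply_of_ne_of_ne hv'.1 hv'.2, hfv]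
    by_cases h2 : γ = v
    · rw [h2, hfv, hcc, swap_apply_right, swap_apply_of_ne_of_ne hu'.1 hu'.2, hfu]
    rw [hfo γ hγ h1 h2, swap_apply_of_ne_of_ne h1 h2, hcΓ γ hγ, hfo _ (swap_mem_of_mem hx hy hγ)]
    · rw [Ne, swap_apply_eq_iff, swap_apply_of_ne_of_ne hu'.1 hu'.2]; exact h1
    · rw [Ne, swap_apply_eq_iff, swap_apply_of_ne_of_ne hv'.1 hv'.2]; exact h2
  obtain ⟨d, hd, hdc, -⟩ := hodd.exists_conj hΓ (a := f⁻¹ * c * f) (by
    calc f⁻¹ * c * f * (f⁻¹ * c * f) = f⁻¹ * (c * c) * f := by group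
      _ = 1 := by rw [hc]; group) ht hb
  have hp : d • f⁻¹ • u ∉ Γ := hHout d (mem_fixF.2 hd) _ (fun e => by
    have h1 := hf _ e
    rw [smul_inv_smul] at h1
    by_cases h2 : f⁻¹ • u = u
    · rw [inv_smul_eq_iff, hfu] at h2
      exact (hne u hu).1 h2
    by_cases h3 : f⁻¹ • u = v
    · rw [inv_smul_eq_iff, hfv] at h3
      exact (hne u hu).2 h3
    have := hfo _ e h2 h3
    rw [smul_inv_smul] at this
    exact h2 this.symm)
  have htp : t • d • f⁻¹ • u = d • f⁻¹ • u := by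
    rw [← hdc, mul_smul, mul_smul, inv_smul_smul, mul_smul, mul_smul, smul_inv_smul, hcΓ u hu,
      swap_apply_of_ne_of_ne hu'.1 hu'.2]
  -- the fixed points of `t` outside `Γ`
  have ht1 : t ≠ 1 := by
    rintro rfl
    have := htΓ x hx
    rw [one_smul, swap_apply_of_ne_of_ne (Ne.symm hu'.1) (Ne.symm hv'.1), swap_apply_left] at this
    exact hxy this
  have e1 := hodd.card_fixFin_lt ht ht1
  have e2 := (card_fixFin_modEq (α := α) ht).symm.trans hev
  have e3 : (((Γ.erase x).erase y).erase u).erase v ⊆ fixFin α t ∩ Γ := fun γ hγ => by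
    simp only [Finset.mem_erase] at hγ
    rw [Finset.mem_inter, mem_fixFin, htΓ γ hγ.2.2.2.2, swap_apply_of_ne_of_ne hγ.2.1 hγ.1,
      swap_apply_of_ne_of_ne hγ.2.2.2.1 hγ.2.2.1]
    exact ⟨rfl, hγ.2.2.2.2⟩
  have e4 := Finset.card_le_card e3
  have e5 := card_erase_erase hx hy hxy
  have e6 := card_erase_erase (s := (Γ.erase x).erase y) (a := u) (b := v) (by simp [hu, hu'])
    (by simp [hv, hv']) huv
  have e7 := Finset.card_sdiff_add_card_inter (fixFin α t) Γ
  have e8 : 0 < (fixFin α t \ Γ).card :=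
    Finset.card_pos.2 ⟨_, Finset.mem_sdiff.2 ⟨mem_fixFin.2 htp, hp⟩⟩
  unfold Nat.ModEq at e2
  obtain ⟨p, hp1, hp2⟩ := exists_fixed_of_not_dvd_ncard hq Q hQ.isPGroup
    ((fixFin α t \ Γ : Finset α) : Set α) (fun r hr w hw => by
      rw [Finset.mem_coe, Finset.mem_sdiff, mem_fixFin] at hw ⊢
      exact ⟨by rw [← mul_smul, (htQ r hr).eq, mul_smul, hw.1], hHout r (hQH.le hr) w hw.2⟩) (by
      rw [Set.ncard_coe_finset]
      intro e
      have := Nat.le_of_dvd e8 e
      have := hq.two_le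
      omega)
  exact hQne (hfree Q hQ.isPGroup hQH.le p (Finset.mem_sdiff.1 hp1).2 hp2)

theorem he_bound (hk : 4 ≤ k) (n : ℕ) : ∀ (α : Type u) [Fintype α] [DecidableEq α]
    (G : Subgroup (Perm α)), Fintype.card α = n → IsMultiplyPretransitive G α k → KOdd G α k →
    k ≤ n → n ≡ k [MOD 2] → n ≤ k + 2 := by
  induction n using Nat.strong_induction_on with
  | _ n ih =>
  intro α _ _ G hn htr hodd hkn hev
  classical
  by_contra hlt
  obtain ⟨s, hs⟩ : ∃ s, n = k + 2 * s := ⟨(n - k) / 2, by unfold Nat.ModEq at hev; omega⟩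
  obtain ⟨q, hq, hq2, hqs, hM⟩ := hodd.he_aux htr hk (hn.trans hs) (by omega)
  obtain ⟨P, hP⟩ := exists_maxFix (G := G) (α := α) (k := k) q (by omega)
  have hkn' : k ≤ Nat.card α := by rw [Nat.card_eq_fintype_card]; omega
  have hX := hP.resX_trans hq htr (by omega) hkn'
  have hXo := hodd.resX P
  have h1 := hP.lt_card
  have h1' := h1
  rw [Nat.card_eq_fintype_card] at h1'
  have h2 : Fintype.card (FixT α P) < n := by
    rw [← hn]
    by_contra hle
    have := Fintype.card_subtype_le (fun x : α => ∀ q ∈ P, q • x = x)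
    have h3 : ∀ x : α, ∀ q ∈ P, q • x = x := by
      by_contra h
      push Not at h
      obtain ⟨x, hx⟩ := h
      exact hle (Fintype.card_subtype_lt (x := x) (by push Not; exact hx))
    exact hM ((show P = ⊥ from eq_bot_iff.2 fun g hg =>
      Subtype.ext (Equiv.ext fun x => h3 x g hg)) ▸ hP)
  have h3 : n ≡ Fintype.card (FixT α P) [MOD q] := by
    have := ncard_modEq_ncard_fixed hq P hP.isPGroup (Set.univ : Set α) Set.finite_univ
      (fun _ _ _ _ => Set.mem_univ _)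
    rw [Set.ncard_univ, Nat.card_eq_fintype_card, hn] at this
    convert this
    rw [← Nat.card_eq_fintype_card, ← Nat.card_coe_set_eq]
    exact Nat.card_congr (Equiv.subtypeEquivRight fun x => by simp)
  -- parity of the number of fixed points
  have h4 : Fintype.card (FixT α P) ≡ k [MOD 2] := by
    obtain ⟨Γ, -, hΓ⟩ := Finset.exists_subset_card_eq (s := (Finset.univ : Finset (FixT α P)))
      (n := k) h1'.le
    obtain ⟨x, hx, y, hy, hxy⟩ := Finset.one_lt_card.1 (show 1 < Γ.card by omega)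
    obtain ⟨σ, hσ⟩ := exists_smul_eq_on_finset' hX h1.le Γ hΓ.le (swap x y)
      (Equiv.injective _).injOn
    obtain ⟨g, hgN, hg⟩ := resX_exists σ
    have hΓ' : (upF Γ).card = k := by rw [upF, Finset.card_map, hΓ]
    have hgΓ : ∀ γ ∈ upF Γ, g • γ = swap (x : α) y γ := fun γ hγ => by
      obtain ⟨γ, hγ', rfl⟩ := mem_upF.1 hγ
      rw [← hg, hσ γ hγ', Subtype.val_injective.map_swap]
    have hx' : (x : α) ∈ upF Γ := mem_upF.2 ⟨x, hx, rfl⟩
    have hy' : (y : α) ∈ upF Γ := mem_upF.2 ⟨y, hy, rfl⟩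
    have hxy' : (x : α) ≠ y := fun e => hxy (Subtype.ext e)
    obtain ⟨j, hj⟩ := hodd (g * g) _ hΓ' (fun γ hγ => by
      rw [mul_smul, hgΓ γ hγ, hgΓ _ (swap_mem_of_mem hx' hy' hγ), swap_apply_self])
    have ht : g ^ (2 * j + 1) * g ^ (2 * j + 1) = 1 := by
      rw [← pow_add, ← two_mul, pow_mul, pow_two, ← hj, pow_orderOf_eq_one]
    have htΓ : ∀ γ ∈ upF Γ, g ^ (2 * j + 1) • γ = swap (x : α) y γ := fun γ hγ => by
      rw [pow_succ', mul_smul, pow_mul, mem_fixF.1 (Subgroup.pow_mem (fixF G (upF Γ))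
        (mem_fixF.2 fun γ hγ => ?_) j) γ hγ, hgΓ γ hγ]
      rw [pow_two, mul_smul, hgΓ γ hγ, hgΓ _ (swap_mem_of_mem hx' hy' hγ), swap_apply_self]
    have hfix := hodd.fixFin_eq (by rw [hn]; exact hev) ht (by
      intro e
      have := htΓ x hx'
      rw [e, one_smul, swap_apply_left] at this
      exact hxy' this) (A := ((upF Γ).erase x).erase y)
      (by rw [card_erase_erase hx' hy' hxy', hΓ']) (fun γ hγ => by
        simp only [Finset.mem_erase] at hγ
        rw [htΓ γ hγ.2.2, swap_apply_of_ne_of_ne hγ.2.1 hγ.1])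
    have hτ := resX_pow hg (2 * j + 1)
    have h5 := card_fixFin_modEq (α := FixT α P) (t := σ ^ (2 * j + 1)) (resX_eq_one fun w =>
      Subtype.ext (by rw [mul_smul, hτ, hτ, ← mul_smul, ht, one_smul]))
    have h6 : fixFin (FixT α P) (σ ^ (2 * j + 1)) = (Γ.erase x).erase y := by
      ext w
      rw [mem_fixFin, Subtype.ext_iff, hτ, ← mem_fixFin, hfix]
      simp only [Finset.mem_erase, Ne, upF, Finset.mem_map,
        Function.Embedding.subtype_apply, ← Subtype.ext_iff, exists_eq_right]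
    have h7 := card_erase_erase hx hy hxy
    rw [h6] at h5
    unfold Nat.ModEq at h5 ⊢
    omega
  have h5 := ih _ h2 (FixT α P) (resX α P) rfl hX hXo h1'.le h4
  have h6 : Fintype.card (FixT α P) = k + 2 := by unfold Nat.ModEq at h4; omega
  rw [h6, hs] at h3
  have h7 : 2 * s ≡ 2 [MOD q] := Nat.ModEq.add_left_cancel' k h3
  have h8 : q ∣ 2 := (h7.dvd_iff dvd_rfl).1 (hqs.mul_left 2)
  exact hq2 ((Nat.prime_dvd_prime_iff_eq hq Nat.prime_two).1 h8)

theorem exists_smul_eq_of_homog {j : ℕ} (hh : IsPretransitive G (Set.powersetCard α j))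
    {s t : Finset α} (hs : s.card = j) (ht : t.card = j) : ∃ g : G, s.image (g • ·) = t := by
  obtain ⟨g, hg⟩ := isPretransitive_powersetCard_iff.1 hh s t hs ht
  exact ⟨g, hg⟩

/-- If `G` is `j`-homogeneous and one `j`-set carries its symmetric group, `G` is `j`-transitive. -/
theorem trans_of_homog_of_induced {j : ℕ} (hh : IsPretransitive G (Set.powersetCard α j))
    {Δ : Finset α} (hΔ : Δ.card = j) (h : ∀ σ : Perm Δ, ∃ g : G, ∀ x : Δ, g • (x : α) = σ x) :
    IsMultiplyPretransitive G α j := by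
  have key : ∀ x : Fin j ↪ α, ∃ (g : G) (e : Fin j ≃ Δ), ∀ i, g • x i = e i := by
    intro x
    obtain ⟨g, hg⟩ := exists_smul_eq_of_homog hh (s := Finset.univ.map x) (by simp) hΔ
    have hm : ∀ i, g • x i ∈ Δ := fun i => hg ▸ Finset.mem_image_of_mem _ (by simp)
    refine ⟨g, Equiv.ofBijective (fun i => ⟨g • x i, hm i⟩) ?_, fun i => rfl⟩
    rw [Fintype.bijective_iff_injective_and_card]
    exact ⟨fun a b hab => x.injective (smul_left_cancel g (congrArg Subtype.val hab)), by simp [hΔ]⟩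
  rw [isMultiplyPretransitive_iff]
  intro x y
  obtain ⟨g, e, hg⟩ := key x
  obtain ⟨g', e', hg'⟩ := key y
  obtain ⟨n, hn⟩ := h (e.symm.trans e')
  refine ⟨g'⁻¹ * n * g, Function.Embedding.ext fun i => ?_⟩
  rw [Function.Embedding.smul_apply, mul_smul, mul_smul, hg, hn, inv_smul_eq_iff, hg']
  simp

/-- A transposition on one `j`-set is a transposition on every `j`-set. -/
theorem exists_swap_of_homog {j : ℕ} (hh : IsPretransitive G (Set.powersetCard α j))
    {Δ Δ' : Finset α} (hΔ : Δ.card = j) (hΔ' : Δ'.card = j) {a b : α} (ha : a ∈ Δ) (hb : b ∈ Δ)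
    (hab : a ≠ b) {g : G} (hg : ∀ x ∈ Δ, g • x = swap a b x) :
    ∃ a ∈ Δ', ∃ b ∈ Δ', a ≠ b ∧ ∃ g : G, ∀ x ∈ Δ', g • x = swap a b x := by
  obtain ⟨h, rfl⟩ := exists_smul_eq_of_homog hh hΔ hΔ'
  refine ⟨h • a, Finset.mem_image_of_mem _ ha, h • b, Finset.mem_image_of_mem _ hb,
    fun e => hab (smul_left_cancel h e), h * g * h⁻¹, fun x hx => ?_⟩
  obtain ⟨x, hx', rfl⟩ := Finset.mem_image.1 hx
  rw [mul_smul, mul_smul, inv_smul_smul, hg x hx', smul_swap_apply]

theorem exists_swap_of_invol [FaithfulSMul G α] {z : G} (hz : z * z = 1) (hz1 : z ≠ 1)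
    {s : Finset α} (hs : ∀ x ∈ s, z • x = x) : ∃ Δ : Finset α, Δ.card = s.card + 2 ∧
      ∃ a ∈ Δ, ∃ b ∈ Δ, a ≠ b ∧ ∀ x ∈ Δ, z • x = swap a b x := by
  obtain ⟨a, ha⟩ : ∃ a : α, z • a ≠ a := by
    by_contra h
    push Not at h
    exact hz1 (eq_of_smul_eq_smul (α := α) fun a => by rw [h, one_smul])
  have hzz : z • z • a = a := by rw [← mul_smul, hz, one_smul]
  have h1 : a ∉ s := fun e => ha (hs a e)
  have h2 : z • a ∉ s := fun e => ha (by have := hs _ e; rwa [hzz, eq_comm] at this)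
  refine ⟨insert a (insert (z • a) s), ?_, a, by simp, z • a, by simp, ha.symm, fun x hx => ?_⟩
  · rw [Finset.card_insert_of_notMem (by simp [h1, ha.symm]), Finset.card_insert_of_notMem h2]
  · simp only [Finset.mem_insert] at hx
    rcases hx with rfl | rfl | hx
    · rw [swap_apply_left]
    · rw [swap_apply_right, hzz]
    · rw [hs x hx, swap_apply_of_ne_of_ne]
      · rintro rfl; exact h1 hx
      · rintro rfl; exact h2 hx

theorem exists_invol_of_even_orderOf {g : G} (h : ¬ Odd (orderOf g)) :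
    ∃ j : ℕ, g ^ j * g ^ j = 1 ∧ g ^ j ≠ 1 := by
  obtain ⟨j, hj⟩ := Nat.not_odd_iff_even.1 h
  have := orderOf_pos g
  exact ⟨j, by rw [← pow_add, ← hj, pow_orderOf_eq_one],
    pow_ne_one_of_lt_orderOf (by omega) (by omega)⟩

theorem induced_of_indAlt_of_swap {Δ : Finset α} (h : IndAlt G Δ) {a b : α} (ha : a ∈ Δ)
    (hb : b ∈ Δ) (hab : a ≠ b) {g : G} (hg : ∀ x ∈ Δ, g • x = swap a b x) (σ : Perm Δ) :
    ∃ g : G, ∀ x : Δ, g • (x : α) = σ x := by
  by_cases hσ : σ ∈ alternatingGroup Δ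
  · exact h σ hσ
  obtain ⟨n, hn⟩ := h (swap ⟨a, ha⟩ ⟨b, hb⟩ * σ) (by
    rw [Perm.mem_alternatingGroup] at hσ ⊢
    rw [Perm.sign_mul, Perm.sign_swap (fun e => hab (congrArg Subtype.val e)),
      (Int.units_eq_one_or _).resolve_left hσ]
    rfl)
  refine ⟨g * n, fun x => ?_⟩
  rw [mul_smul, hn, hg _ (Subtype.prop _), Perm.mul_apply, Subtype.val_injective.map_swap,
    swap_apply_self]

/-- The Livingstone-Wagner step. -/
theorem lw_step {α : Type u} [Fintype α] [DecidableEq α] (G : Subgroup (Perm α)) (hk : 4 ≤ k)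
    (hkn : k + 3 ≤ Fintype.card α) (htr : IsMultiplyPretransitive G α k)
    (hh : IsPretransitive G (Set.powersetCard α (k + 1))) :
    IsMultiplyPretransitive G α (k + 1) := by
  obtain ⟨Δ, hΔ, hA⟩ := exists_indAlt hk (by omega) htr
  suffices h : ∃ Δ' : Finset α, Δ'.card = k + 1 ∧
      ∃ a ∈ Δ', ∃ b ∈ Δ', a ≠ b ∧ ∃ g : G, ∀ x ∈ Δ', g • x = swap a b x by
    obtain ⟨Δ', hΔ', a, ha, b, hb, hab, g, hg⟩ := h
    obtain ⟨a, ha, b, hb, hab, g, hg⟩ := exists_swap_of_homog hh hΔ' hΔ ha hb hab hg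
    exact trans_of_homog_of_induced hh hΔ (induced_of_indAlt_of_swap hA ha hb hab hg)
  by_contra hcon
  have hodd : KOdd G α k := by
    intro g s hs hg
    by_contra h
    obtain ⟨j, h1, h2⟩ := exists_invol_of_even_orderOf h
    obtain ⟨s', hs', hsk⟩ := Finset.exists_subset_card_eq (s := s) (n := k - 1) (by omega)
    obtain ⟨Δ', h3, a, ha, b, hb, hab, h4⟩ := exists_swap_of_invol h1 h2 (s := s') fun x hx =>
      mem_fixF.1 ((fixF G s).pow_mem (mem_fixF.2 hg) j) x (hs' hx)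
    exact hcon ⟨Δ', by omega, a, ha, b, hb, hab, _, h4⟩
  by_cases hev : Fintype.card α ≡ k [MOD 2]
  · have := he_bound hk _ α G rfl htr hodd (by omega) hev
    omega
  · obtain ⟨Δ', h1, h2⟩ := hodd.exists_swaps_of_odd htr
      (by rw [Nat.card_eq_fintype_card]; omega) hk (by unfold Nat.ModEq at *; omega)
    obtain ⟨a, ha, b, hb, hab⟩ := Finset.one_lt_card.1 (show 1 < Δ'.card by omega)
    exact hcon ⟨Δ', h1, a, ha, b, hb, hab, h2 a ha b hb hab⟩

end Cfsg.Lib.Perm
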