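import Mathlib
import Cfsg.Agent.Perm.SpecMat

/-!
# Fixed-point-free elements of prime order when the Sylow subgroup has prime order
-/

namespace Cfsg.Lib.Perm

open scoped Matrix

/-- If `r² ∤ |G|`, any two elements of prime order `r` generate conjugate subgroups. -/
theorem exists_conj_zpow_of_sq_not_dvd {G : Type*} [Group G] [Finite G] {r : ℕ} (hr : r.Prime)
    (h2 : ¬ r ^ 2 ∣ Nat.card G) {g g₁ : G} (hg : orderOf g = r) (hg₁ : orderOf g₁ = r) :
    ∃ (h : G) (i : ℤ), g₁ = h * g ^ i * h⁻¹ := by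
  have := Fact.mk hr
  have hf : (Nat.card G).factorization r = 1 := by
    have h1 : r ∣ Nat.card G := hg ▸ orderOf_dvd_natCard g
    have h3 := (hr.dvd_iff_one_le_factorization Nat.card_pos.ne').mp h1
    have h4 : ¬ 2 ≤ (Nat.card G).factorization r := fun h =>
      h2 ((hr.pow_dvd_iff_le_factorization Nat.card_pos.ne').mpr h)
    omega
  let P : Sylow r G := Sylow.ofCard (Subgroup.zpowers g) (by rw [hf, Nat.card_zpowers, hg, pow_one])
  let Q : Sylow r G := Sylow.ofCard (Subgroup.zpowers g₁) (by rw [hf, Nat.card_zpowers, hg₁, pow_one])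
  obtain ⟨h, hh⟩ := MulAction.exists_smul_eq G P Q
  have hm : g₁ ∈ ((h • P : Sylow r G) : Subgroup G) := by
    rw [hh]; exact Subgroup.mem_zpowers g₁
  rw [Sylow.coe_subgroup_smul, Subgroup.mem_pointwise_smul_iff_inv_smul_mem] at hm
  obtain ⟨i, hi⟩ := hm
  refine ⟨h, i, ?_⟩
  have hi' : g ^ i = h⁻¹ * g₁ * h := by simpa using hi
  rw [hi']; group

/-- If `r² ∤ |G|` and one element acts without nonzero fixed vectors with `r`-th power acting
trivially, then all elements of order `r` act without nonzero fixed vectors. -/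
theorem fpf_of_sq_not_dvd {R G V : Type*} [CommSemiring R] [Group G] [Finite G] [AddCommGroup V]
    [Module R V] (ρ : Representation R G V) {r : ℕ} (hr : r.Prime) (h2 : ¬ r ^ 2 ∣ Nat.card G)
    {g₀ : G} (h0 : ρ g₀ ^ r = 1) (hf : ∀ v, ρ g₀ v = v → v = 0) {g : G} (hg : orderOf g = r)
    {v : V} (hv : ρ g v = v) : v = 0 := by
  have := Fact.mk hr
  by_contra hne
  have h1 : ρ g₀ ≠ 1 := fun e => hne (hf v (by rw [e]; rfl))
  have ho : orderOf (ρ g₀) = r := orderOf_eq_prime h0 h1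
  have hd : r ∣ orderOf g₀ := ho ▸ orderOf_map_dvd ρ g₀
  obtain ⟨m, hm⟩ := hd
  have hm0 : m ≠ 0 := by
    rintro rfl
    exact (orderOf_pos g₀).ne' (by simpa using hm)
  have hg₁ : orderOf (g₀ ^ m) = r := by
    rw [orderOf_pow_of_dvd hm0 (Dvd.intro_left r hm.symm), hm,
      Nat.mul_div_cancel _ (Nat.pos_of_ne_zero hm0)]
  have hcop : m.Coprime r := by
    rw [Nat.coprime_comm, hr.coprime_iff_not_dvd]
    rintro ⟨k, rfl⟩
    exact h2 (Dvd.dvd.trans ⟨k, by rw [hm]; ring⟩ (orderOf_dvd_natCard g₀))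
  obtain ⟨j, hj⟩ := exists_pow_eq_self_of_coprime (x := ρ g₀) (n := m) (by rwa [ho])
  obtain ⟨h, i, hi⟩ := exists_conj_zpow_of_sq_not_dvd hr h2 hg hg₁
  have hfix : ∀ a ∈ Subgroup.zpowers g, ρ a v = v := by
    intro a ha
    obtain ⟨k, rfl⟩ := (mem_powers_iff_mem_zpowers.mpr ha)
    induction k with
    | zero => simp
    | succ k ih =>
      have : ρ (g ^ k) v = v := ih (Subgroup.npow_mem_zpowers g k)
      change ρ (g ^ (k + 1)) v = v
      rw [pow_succ', map_mul, Module.End.mul_apply, this, hv]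
  have e1 : ρ (g₀ ^ m) (ρ h v) = ρ h v := by
    rw [← Module.End.mul_apply, ← map_mul, hi, inv_mul_cancel_right, map_mul, Module.End.mul_apply,
      hfix _ (Subgroup.zpow_mem_zpowers g i)]
  have e2 : ∀ k : ℕ, ((ρ g₀ ^ m) ^ k) (ρ h v) = ρ h v := by
    intro k
    induction k with
    | zero => simp
    | succ k ih => rw [pow_succ, Module.End.mul_apply, ← map_pow ρ g₀ m, e1, map_pow, ih]
  have e3 := e2 j
  rw [hj] at e3
  have e4 := hf _ e3
  apply hne
  have : ρ h⁻¹ (ρ h v) = v := by rw [← Module.End.mul_apply, ← map_mul]; simp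
  rw [← this, e4, map_zero]

/-- Matrix version. -/
theorem fpf_matRep {G n F : Type*} [Group G] [Finite G] [Fintype n] [DecidableEq n] [CommRing F]
    (f : G →* Matrix n n F) {r : ℕ} (hr : r.Prime) (h2 : ¬ r ^ 2 ∣ Nat.card G) {g₀ : G}
    (h0 : f g₀ ^ r = 1) {B : Matrix n n F} (hB : B * (f g₀ - 1) = 1) {g : G} (hg : orderOf g = r)
    {v : n → F} (hv : matRep f g v = v) : v = 0 := by
  refine fpf_of_sq_not_dvd (matRep f) hr h2 (g₀ := g₀) ?_ (fun w hw => ?_) hg hv
  · rw [← map_pow]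
    refine LinearMap.ext fun w => ?_
    rw [matRep_apply, map_pow, h0]
    simp
  · rw [matRep_apply] at hw
    have : (B * (f g₀ - 1)) *ᵥ w = 0 := by
      rw [← Matrix.mulVec_mulVec, Matrix.sub_mulVec, hw]; simp
    rwa [hB, Matrix.one_mulVec] at this

/-- An element whose image has order `p q` yields an element of order `p q`. -/
theorem exists_orderOf_eq_of_map {G M : Type*} [Group G] [Finite G] [Monoid M] (f : G →* M) (g : G)
    {p q : ℕ} (hp : p.Prime) (hq : q.Prime) (h0 : f g ^ (p * q) = 1) (h1 : f g ^ p ≠ 1)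
    (h2 : f g ^ q ≠ 1) : ∃ x : G, orderOf x = p * q := by
  have ho : orderOf (f g) = p * q := by
    refine orderOf_eq_of_pow_and_pow_div_prime (Nat.mul_pos hp.pos hq.pos) h0 fun s hs hd => ?_
    rcases (Nat.Prime.dvd_mul hs).mp hd with h | h
    · rw [(Nat.prime_dvd_prime_iff_eq hs hp).mp h, Nat.mul_div_cancel_left _ hp.pos]; exact h2
    · rw [(Nat.prime_dvd_prime_iff_eq hs hq).mp h, Nat.mul_div_cancel _ hq.pos]; exact h1
  exact mem_range_orderOf_of_dvd ⟨g, rfl⟩ (ho ▸ orderOf_map_dvd f g)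

end Cfsg.Lib.Perm
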