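import Mathlib
import Cfsg.Agent.Perm.SpecFpf

/-!
# Non-adjacent primes from a noncommuting normalising pair
-/

namespace Cfsg.Lib.Perm

/-- If `r²` and `s²` do not divide `|G|` and an element of order `s` normalises but does not
centralise a subgroup of order `r`, then there is no element of order `r s`. -/
theorem mul_not_mem_range_orderOf_of_normalizes {G : Type*} [Group G] [Finite G] {r s : ℕ}
    (hr : r.Prime) (hs : s.Prime) (hr2 : ¬ r ^ 2 ∣ Nat.card G) (hs2 : ¬ s ^ 2 ∣ Nat.card G)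
    {x y : G} (hx : orderOf x = r) (hy : orderOf y = s) {k : ℕ} (hk : y * x * y⁻¹ = x ^ k)
    (hc : y * x ≠ x * y) : r * s ∉ Set.range (orderOf : G → ℕ) := by
  rintro ⟨g, hg⟩
  have ha : orderOf (g ^ s) = r := by
    rw [orderOf_pow_of_dvd hs.ne_zero (hg ▸ dvd_mul_left _ _), hg, Nat.mul_div_cancel _ hs.pos]
  have hb : orderOf (g ^ r) = s := by
    rw [orderOf_pow_of_dvd hr.ne_zero (hg ▸ dvd_mul_right _ _), hg, Nat.mul_div_cancel_left _ hr.pos]
  obtain ⟨h, i, hi⟩ := exists_conj_zpow_of_sq_not_dvd hr hr2 ha hx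
  have h1 : Commute (h * g ^ r * h⁻¹) x := by
    rw [hi]
    exact (((Commute.refl g).pow_pow r s).zpow_right i).conj h
  let N := Subgroup.normalizer ((Subgroup.zpowers x : Subgroup G) : Set G)
  have hN : ∀ z : G, z * x * z⁻¹ ∈ Subgroup.zpowers x → z ∈ N := fun z hz =>
    Subgroup.mem_normalizer_fintype fun n ⟨j, hj⟩ => by
      rw [← hj]
      change z * x ^ j * z⁻¹ ∈ Subgroup.zpowers x
      rw [← conj_zpow]
      exact Subgroup.zpow_mem _ hz j
  obtain ⟨n, j, hj⟩ := exists_conj_zpow_of_sq_not_dvd (G := N) hs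
    (fun h => hs2 (h.trans (Subgroup.card_subgroup_dvd_card N)))
    (g := ⟨h * g ^ r * h⁻¹, hN _ (by rw [h1.eq, mul_inv_cancel_right]; exact Subgroup.mem_zpowers x)⟩)
    (g₁ := ⟨y, hN _ (hk ▸ Subgroup.npow_mem_zpowers x k)⟩)
    (by rw [Subgroup.orderOf_mk, ← hb]; exact (orderOf_injective (MulAut.conj h).toMonoidHom
      (MulAut.conj h).injective _)) (by rw [Subgroup.orderOf_mk, hy])
  have h2 : y = n * (h * g ^ r * h⁻¹) ^ j * (n : G)⁻¹ := congrArg Subtype.val hj
  obtain ⟨m, hm⟩ : (n : G)⁻¹ * x * (n : G)⁻¹⁻¹ ∈ Subgroup.zpowers x :=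
    (Subgroup.mem_normalizer_iff.1 (N.inv_mem n.2) x).1 (Subgroup.mem_zpowers x)
  have h3 : x = n * x ^ m * (n : G)⁻¹ := by
    have : x ^ m = (n : G)⁻¹ * x * (n : G)⁻¹⁻¹ := hm
    rw [this]; group
  refine hc ?_
  have := (h1.zpow_zpow j m).conj (n : G)
  rwa [← h2, ← h3] at this

/-- An element of odd order with a nonzero fixed vector in characteristic two. -/
theorem two_mul_mem_range_orderOf_aff {R G V : Type*} [CommRing R] [Group G] [Finite G]
    [AddCommGroup V] [Module R V] (ρ : Representation R G V) (hV : ∀ v : V, 2 • v = 0) {g : G}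
    {n : ℕ} (hg : orderOf g = n) (hn : Odd n) {v : V} (hv : v ≠ 0) (h : ρ g v = v) :
    n * 2 ∈ Set.range (orderOf : Aff ρ → ℕ) := by
  refine (mem_range_orderOf_aff ρ Nat.prime_two hV _).2 (Or.inr ⟨g, v, ?_, by rw [hg]⟩)
  have h1 : ∀ i, ρ (g ^ i) v = v := fun i => by
    induction i with
    | zero => simp
    | succ i ih => rw [pow_succ, map_mul, Module.End.mul_apply, h, ih]
  obtain ⟨k, rfl⟩ := hn
  simpa [repNorm, h1, hg, add_smul, mul_comm 2 k, mul_smul, hV, -map_pow] using hv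

end Cfsg.Lib.Perm
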