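import Cfsg.Agent.Perm.ZassThree

/-!
# TI-subgroups and the number of involutions, I
-/

set_option autoImplicit false

open MulAction Subgroup
open scoped MatrixGroups

namespace Cfsg.Lib.TIInv

open Cfsg.Lib.Perm Cfsg.Lib.Char.Zass

variable {G : Type*} [Group G]

/-- The standing hypotheses. -/
structure Hy (M : Subgroup G) (z : G) : Prop where
  ne : M ≠ ⊥
  ti : ∀ g x : G, x ∈ M → x ≠ 1 → g * x * g⁻¹ ∈ M → g ∈ normalizer (M : Set G)
  z2 : z * z = 1
  z1 : z ≠ 1
  zN : z ∈ normalizer (M : Set G)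
  fac : ∀ g ∈ normalizer (M : Set G), ∃ a ∈ M, ∃ y ∈ normalizer (M : Set G),
    y * z = z * y ∧ g = a * y
  odd : ∀ x ∈ M, x ≠ 1 → ∀ v : G, v * v = 1 → v * x = x * v → v = 1

theorem inv_eq_of_sq {v : G} (h : v * v = 1) : v⁻¹ = v := inv_eq_of_mul_eq_one_right h

namespace Hy

variable {M : Subgroup G} {z : G}

theorem conj_mem {g x : G} (hg : g ∈ normalizer (M : Set G)) (hx : x ∈ M) : g * x * g⁻¹ ∈ M :=
  (mem_normalizer_iff.1 hg x).1 hx

theorem sq (h : Hy M z) {x : G} (hx : x ∈ M) (h2 : x * x = 1) : x = 1 := by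
  by_contra h1
  exact h1 (h.odd x hx h1 x h2 rfl)

variable [Finite G]

theorem inv (h : Hy M z) {v x : G} (hv : v ∈ normalizer (M : Set G)) (h2 : v * v = 1)
    (h1 : v ≠ 1) (hx : x ∈ M) : v * x * v⁻¹ = x⁻¹ := by
  let φ : M →* M := ((MulAut.conj v).toMonoidHom.comp M.subtype).codRestrict M
    fun x => conj_mem hv x.2
  have hφ : MonoidHom.FixedPointFree φ := fun x hx => by
    by_contra h'
    exact h1 (h.odd x x.2 (fun e => h' (Subtype.ext e)) v h2
      (mul_inv_eq_iff_eq_mul.mp (congrArg Subtype.val hx)))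
  refine congrArg Subtype.val (congrFun (hφ.coe_eq_inv_of_involutive fun x => Subtype.ext ?_)
    ⟨x, hx⟩)
  change v * (v * x * v⁻¹) * v⁻¹ = x
  calc v * (v * x * v⁻¹) * v⁻¹ = (v * v) * x * (v * v)⁻¹ := by group
    _ = x := by rw [h2]; group

theorem zinv (h : Hy M z) {x : G} (hx : x ∈ M) : z * x * z⁻¹ = x⁻¹ := h.inv h.zN h.z2 h.z1 hx

theorem comm (h : Hy M z) {x y : G} (hx : x ∈ M) (hy : y ∈ M) : x * y = y * x := by
  have h1 := h.zinv (M.mul_mem hx hy)
  have h2 : z * (x * y) * z⁻¹ = (z * x * z⁻¹) * (z * y * z⁻¹) := by group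
  rw [h2, h.zinv hx, h.zinv hy, ← mul_inv_rev, inv_inj] at h1
  exact h1.symm

omit [Finite G] in
theorem eq_one_of_comm (h : Hy M z) {x : G} (hx : x ∈ M) (hc : x * z = z * x) : x = 1 := by
  by_contra h1
  exact h.z1 (h.odd x hx h1 z h.z2 hc.symm)

/-- The centraliser of `z` in the normaliser has a unique involution. -/
theorem eq_of_sq (h : Hy M z) {y : G} (hy : y ∈ normalizer (M : Set G)) (hc : y * z = z * y)
    (h2 : y * y = 1) : y = 1 ∨ y = z := by
  by_cases h1 : y = 1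
  · exact Or.inl h1
  right
  obtain ⟨⟨x, hx⟩, hx1⟩ := ne_bot_iff_exists_ne_one.1 h.ne
  have hx1' : x ≠ 1 := fun e => hx1 (Subtype.ext e)
  have h3 : y * z = 1 := by
    refine h.odd x hx hx1' _ ?_ ?_
    · calc y * z * (y * z) = y * (z * y) * z := by group
        _ = (y * y) * (z * z) := by rw [← hc]; group
        _ = 1 := by rw [h2, h.z2, one_mul]
    · have e1 := h.inv hy h2 h1 (M.inv_mem hx)
      calc y * z * x = y * (z * x * z⁻¹) * y⁻¹ * (y * z) := by group
        _ = x * (y * z) := by rw [h.zinv hx, e1, inv_inv]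
  rw [eq_inv_of_mul_eq_one_left h3, inv_eq_of_sq h.z2]

theorem invol_mem (h : Hy M z) {v : G} (hv : v ∈ normalizer (M : Set G)) (h2 : v * v = 1)
    (h1 : v ≠ 1) : ∃ a ∈ M, v = a * z := by
  obtain ⟨a, ha, y, hy, hc, rfl⟩ := h.fac v hv
  have e := h.inv hv h2 h1 (M.inv_mem ha)
  have hy2 : y * y = 1 := by
    calc y * y = a⁻¹ * ((a * y) * a⁻¹ * (a * y)⁻¹) * ((a * y) * (a * y)) := by group
      _ = 1 := by rw [e, h2]; group
  rcases h.eq_of_sq hy hc hy2 with rfl | rfl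
  · rw [mul_one] at h2 h1
    exact absurd (h.sq ha h2) h1
  · exact ⟨a, ha, rfl⟩

omit [Finite G] in
theorem mem_of_inv (h : Hy M z) {v x : G} (hx : x ∈ M) (h1 : x ≠ 1) (e : v * x * v⁻¹ = x⁻¹) :
    v ∈ normalizer (M : Set G) := h.ti v x hx h1 (e ▸ M.inv_mem hx)

omit [Finite G] in
/-- A coset of `M` outside the normaliser contains at most one involution. -/
theorem uniq (h : Hy M z) {u a : G} (hu : u ∉ normalizer (M : Set G)) (h2 : u * u = 1)
    (ha : a ∈ M) (e : a * u * (a * u) = 1) : a = 1 := by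
  by_contra h1
  refine hu (h.mem_of_inv ha h1 ?_)
  rw [inv_eq_of_sq h2]
  calc u * a * u = a⁻¹ * (a * u * (a * u)) := by group
    _ = a⁻¹ := by rw [e, mul_one]

theorem exists_sqrt (h : Hy M z) {a : G} (ha : a ∈ M) : ∃ b ∈ M, b * b = a := by
  let f : M → M := fun x => x * x
  have hf : Function.Injective f := by
    intro x y e
    have e' : (x : G) * x = y * y := congrArg Subtype.val e
    have hc := h.comm x.2 y.2
    have h3 : (x : G) * (y : G)⁻¹ = 1 := by
      refine h.sq (M.mul_mem x.2 (M.inv_mem y.2)) ?_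
      have hc' : (y : G)⁻¹ * x = x * (y : G)⁻¹ := h.comm (M.inv_mem y.2) x.2
      calc (x : G) * (y : G)⁻¹ * (x * (y : G)⁻¹) = x * ((y : G)⁻¹ * x) * (y : G)⁻¹ := by group
        _ = (x * x) * ((y : G) * y)⁻¹ := by rw [hc']; group
        _ = 1 := by rw [e']; group
    exact Subtype.ext (mul_inv_eq_one.1 h3)
  obtain ⟨b, hb⟩ := Finite.injective_iff_surjective.1 hf ⟨a, ha⟩
  exact ⟨b, b.2, congrArg Subtype.val hb⟩

theorem conj_z (h : Hy M z) {b : G} (hb : b ∈ M) : b * z * b⁻¹ = b * b * z := by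
  calc b * z * b⁻¹ = b * (z * b⁻¹ * z⁻¹) * z := by group
    _ = b * b * z := by rw [h.zinv (M.inv_mem hb), inv_inv]

theorem invol_conj (h : Hy M z) {v : G} (hv : v ∈ normalizer (M : Set G)) (h2 : v * v = 1)
    (h1 : v ≠ 1) : ∃ b ∈ M, v = b * z * b⁻¹ := by
  obtain ⟨a, ha, rfl⟩ := h.invol_mem hv h2 h1
  obtain ⟨b, hb, rfl⟩ := h.exists_sqrt ha
  exact ⟨b, hb, (h.conj_z hb).symm⟩

/-- The counting argument. -/
theorem card_le (h : Hy M z) {g : G} (hg : g ∉ normalizer (M : Set G))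
    (hno : ∀ a ∈ M, a * g * (a * g) ≠ 1) : Nat.card {u : G // orderOf u = 2} ≤ M.index := by
  classical
  have hsq : ∀ u : {u : G // orderOf u = 2}, (u : G) * u = 1 ∧ (u : G) ≠ 1 := fun u =>
    ⟨by have := pow_orderOf_eq_one (u : G); rwa [u.2, pow_two] at this, fun e => by
      have := u.2; rw [e, orderOf_one] at this; omega⟩
  have hM : ∀ u : {u : G // orderOf u = 2}, (u : G) ∈ normalizer (M : Set G) → (u : G) * z ∈ M := by
    intro u hu
    obtain ⟨a, ha, e⟩ := h.invol_mem hu (hsq u).1 (hsq u).2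
    rw [e, mul_assoc, h.z2, mul_one]; exact ha
  let f : {u : G // orderOf u = 2} → G ⧸ M := fun u =>
    if (u : G) ∈ normalizer (M : Set G) then (((u : G) * z)⁻¹ * g⁻¹ : G) else (u : G)
  have mixed : ∀ u v : {u : G // orderOf u = 2}, (u : G) ∈ normalizer (M : Set G) →
      (((((u : G) * z)⁻¹ * g⁻¹ : G) : G ⧸ M) = (v : G)) → False := by
    intro u v hu e
    rw [QuotientGroup.eq] at e
    have ha := hM u hu
    set a := (u : G) * z
    refine hno (a * ((a⁻¹ * g⁻¹)⁻¹ * v)⁻¹) (M.mul_mem ha (M.inv_mem e)) ?_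
    calc _ = a * ((v : G) * v)⁻¹ * a⁻¹ := by group
      _ = 1 := by rw [(hsq v).1]; group
  refine Nat.card_le_card_of_injective f fun u v e => ?_
  by_cases hu : (u : G) ∈ normalizer (M : Set G) <;>
    by_cases hv : (v : G) ∈ normalizer (M : Set G) <;> simp only [f, hu, hv, if_true, if_false] at e
  · rw [QuotientGroup.eq] at e
    have h1 : (u : G) * z * ((v : G) * z)⁻¹ = 1 := by
      by_contra h1
      refine hg (h.ti g _ (M.mul_mem (hM u hu) (M.inv_mem (hM v hv))) h1 ?_)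
      convert e using 1; group
    exact Subtype.ext (mul_right_cancel (mul_inv_eq_one.1 h1))
  · exact (mixed u v hu e).elim
  · exact (mixed v u hv e.symm).elim
  · rw [QuotientGroup.eq] at e
    have h1 := h.uniq hv (hsq v).1 (M.inv_mem e) (by
      calc _ = (v : G)⁻¹ * ((u : G) * u) * v := by group
        _ = 1 := by rw [(hsq u).1]; group)
    exact Subtype.ext (inv_mul_eq_one.1 (inv_eq_one.1 h1))

end Hy

/-- Every coset of `M` outside the normaliser contains an involution. -/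
structure Fu (M : Subgroup G) (z : G) : Prop extends Hy M z where
  full : ∀ g ∉ normalizer (M : Set G), ∃ a ∈ M, a * g * (a * g) = 1

namespace Fu

open Hy

variable {M : Subgroup G} {z : G} [Finite G]

/-- Elements outside the normaliser commuting with `z` are involutions. -/
theorem sq_of_comm (h : Fu M z) {g : G} (hg : g ∉ normalizer (M : Set G)) (hc : g * z = z * g) :
    g * g = 1 := by
  obtain ⟨a, ha, e⟩ := h.full g hg
  have hag : a * g ∉ normalizer (M : Set G) := fun h' =>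
    hg ((Subgroup.mul_mem_cancel_left _ (le_normalizer ha)).1 h')
  have e1 : z * (a * g) * z⁻¹ = (a * a)⁻¹ * (a * g) := by
    calc z * (a * g) * z⁻¹ = (z * a * z⁻¹) * (z * g) * z⁻¹ := by group
      _ = _ := by rw [h.zinv ha, ← hc]; group
  have h1 := h.uniq hag e (M.inv_mem (M.mul_mem ha ha)) (by
    rw [← e1]
    calc _ = z * (a * g * (a * g)) * z⁻¹ := by group
      _ = 1 := by rw [e]; group)
  rw [h.sq ha (inv_eq_one.1 h1), one_mul] at e
  exact e

theorem inv_of_comm (h : Fu M z) {u y : G} (hu : u ∉ normalizer (M : Set G)) (hc : u * z = z * u)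
    (hy : y ∈ normalizer (M : Set G)) (hyc : y * z = z * y) : u * y * u⁻¹ = y⁻¹ := by
  have h1 := h.sq_of_comm (g := y * u) (fun h' => hu ((Subgroup.mul_mem_cancel_left _ hy).1 h'))
    (by rw [mul_assoc, hc, ← mul_assoc, hyc, mul_assoc])
  rw [inv_eq_of_sq (h.sq_of_comm hu hc)]
  calc u * y * u = y⁻¹ * (y * u * (y * u)) := by group
    _ = y⁻¹ := by rw [h1, mul_one]

/-- Every involution outside the normaliser commutes with an `M`-conjugate of `z`. -/
theorem exists_comm (h : Fu M z) {u : G} (hu : u ∉ normalizer (M : Set G)) (h2 : u * u = 1) :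
    ∃ b ∈ M, (b⁻¹ * u * b) * z = z * (b⁻¹ * u * b) := by
  obtain ⟨a, ha, e⟩ := h.full (z * u) (fun h' => hu ((Subgroup.mul_mem_cancel_left _ h.zN).1 h'))
  obtain ⟨b, hb, rfl⟩ := h.exists_sqrt ha
  refine ⟨b, hb, ?_⟩
  rw [← mul_assoc (b * b) z u, ← h.conj_z hb] at e
  have e1 : b * z * b⁻¹ * u = u * (b * z * b⁻¹) := by
    have := eq_inv_of_mul_eq_one_left e
    rw [this, mul_inv_rev, inv_eq_of_sq h2, inv_eq_of_sq (v := b * z * b⁻¹) (by
      calc _ = b * (z * z) * b⁻¹ := by group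
        _ = 1 := by rw [h.z2]; group)]
  calc b⁻¹ * u * b * z = b⁻¹ * (u * (b * z * b⁻¹)) * b := by group
    _ = _ := by rw [← e1]; group

theorem eq_one_of_conj_mem (h : Fu M z) {u x : G} (hu : u ∉ normalizer (M : Set G))
    (hc : u * z = z * u) (hx : x ∈ M) (hn : u * x * u⁻¹ ∈ normalizer (M : Set G)) : x = 1 := by
  obtain ⟨a, ha, y, hy, hyc, e⟩ := h.fac _ hn
  have e1 : z * (u * x * u⁻¹) * z⁻¹ = (u * x * u⁻¹)⁻¹ := by
    calc z * (u * x * u⁻¹) * z⁻¹ = (z * u) * x * (z * u)⁻¹ := by group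
      _ = u * (z * x * z⁻¹) * u⁻¹ := by rw [← hc]; group
      _ = _ := by rw [h.zinv hx]; group
  have e2 : a⁻¹ * y = (a * y)⁻¹ := by
    rw [← e, ← e1, e]
    calc a⁻¹ * y = (z * a * z⁻¹) * (y * z) * z⁻¹ := by rw [h.zinv ha]; group
      _ = _ := by rw [hyc]; group
  have hyy : y * y ∈ M := by
    have : y * y = (y * a * y⁻¹) * a⁻¹ := by
      calc y * y = (y * a * y⁻¹) * y * (a⁻¹ * y) := by group
        _ = _ := by rw [e2]; group
    rw [this]
    exact M.mul_mem (conj_mem hy ha) (M.inv_mem ha)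
  have hy2 : y * y = 1 := h.eq_one_of_comm hyy (by rw [mul_assoc, hyc, ← mul_assoc, hyc, mul_assoc])
  rcases h.eq_of_sq hy hyc hy2 with rfl | rfl
  · by_contra h1
    exact hu (h.ti u x hx h1 (by rw [e, mul_one]; exact ha))
  · refine h.sq hx ?_
    have e3 : a * y * (a * y) = 1 := by
      calc a * y * (a * y) = a * (y * a * y⁻¹) * (y * y) := by group
        _ = 1 := by rw [h.zinv ha, hy2]; group
    rw [← e] at e3
    calc x * x = u⁻¹ * (u * x * u⁻¹ * (u * x * u⁻¹)) * u := by group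
      _ = 1 := by rw [e3]; group

theorem comm_of_conj_mem (h : Fu M z) {u y : G} (hu : u ∉ normalizer (M : Set G))
    (hc : u * z = z * u) (hy : y ∈ normalizer (M : Set G))
    (hn : u * y * u⁻¹ ∈ normalizer (M : Set G)) : y * z = z * y := by
  obtain ⟨a, ha, y', hy', hyc, rfl⟩ := h.fac _ hy
  have e := h.inv_of_comm hu hc hy' hyc
  have : a = 1 := by
    refine h.eq_one_of_conj_mem hu hc ha ?_
    have e1 : u * a * u⁻¹ = u * (a * y') * u⁻¹ * y' := by
      calc u * a * u⁻¹ = u * (a * y') * u⁻¹ * (u * y' * u⁻¹)⁻¹ := by group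
        _ = _ := by rw [e, inv_inv]
    rw [e1]
    exact Subgroup.mul_mem _ hn hy'
  rw [this, one_mul, hyc]

/-- An involution outside the normaliser inverts the two-point stabiliser. -/
theorem inv_of_conj_mem (h : Fu M z) {u y : G} (hu : u ∉ normalizer (M : Set G)) (h2 : u * u = 1)
    (hy : y ∈ normalizer (M : Set G)) (hn : u * y * u⁻¹ ∈ normalizer (M : Set G)) :
    u * y * u⁻¹ = y⁻¹ := by
  obtain ⟨b, hb, hc⟩ := h.exists_comm hu h2
  have hbN := le_normalizer hb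
  have hu' : b⁻¹ * u * b ∉ normalizer (M : Set G) := fun h' => hu
    ((Subgroup.mul_mem_cancel_left _ (Subgroup.inv_mem _ hbN)).1
      ((Subgroup.mul_mem_cancel_right _ hbN).1 h'))
  have hy' : b⁻¹ * y * b ∈ normalizer (M : Set G) :=
    Subgroup.mul_mem _ (Subgroup.mul_mem _ (Subgroup.inv_mem _ hbN) hy) hbN
  have e := h.inv_of_comm hu' hc hy' (h.comm_of_conj_mem hu' hc hy' (by
    have : b⁻¹ * u * b * (b⁻¹ * y * b) * (b⁻¹ * u * b)⁻¹ = b⁻¹ * (u * y * u⁻¹) * b := by group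
    rw [this]
    exact Subgroup.mul_mem _ (Subgroup.mul_mem _ (Subgroup.inv_mem _ hbN) hn) hbN))
  calc u * y * u⁻¹ = b * (b⁻¹ * u * b * (b⁻¹ * y * b) * (b⁻¹ * u * b)⁻¹) * b⁻¹ := by group
    _ = y⁻¹ := by rw [e]; group

/-- Normal form of the elements outside the normaliser. -/
theorem exists_form (h : Fu M z) {g : G} (hg : g ∉ normalizer (M : Set G)) :
    ∃ a ∈ M, ∃ b ∈ M, ∃ u ∉ normalizer (M : Set G), u * z = z * u ∧ g = a * (b * u * b⁻¹) := by
  obtain ⟨a, ha, e⟩ := h.full g hg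
  have hag : a * g ∉ normalizer (M : Set G) := fun h' =>
    hg ((Subgroup.mul_mem_cancel_left _ (le_normalizer ha)).1 h')
  obtain ⟨b, hb, hc⟩ := h.exists_comm hag e
  have hbN := le_normalizer hb
  refine ⟨a⁻¹, M.inv_mem ha, b, hb, _, fun h' => hag
    ((Subgroup.mul_mem_cancel_left _ (Subgroup.inv_mem _ hbN)).1
      ((Subgroup.mul_mem_cancel_right _ hbN).1 h')), hc, by group⟩

/-- An element of the two-point stabiliser commuting with a non-trivial element of `M`. -/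
theorem eq_one_of_comm_comm (h : Fu M z) {u y x : G} (hu : u ∉ normalizer (M : Set G))
    (hc : u * z = z * u) (hy : y ∈ normalizer (M : Set G)) (hyc : y * z = z * y) (hx : x ∈ M)
    (hx1 : x ≠ 1) (hxy : y * x = x * y) : y = 1 := by
  have hu2 := h.sq_of_comm hu hc
  have ey := h.inv_of_comm hu hc hy hyc
  have ex := h.zinv hx
  have hzu : z * u * z⁻¹ = u := by rw [← hc]; group
  -- conjugate by `x u`
  have e0 : (u * x⁻¹) * z * (u * x⁻¹)⁻¹ = u * (x * x)⁻¹ * u⁻¹ * z := by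
    calc (u * x⁻¹) * z * (u * x⁻¹)⁻¹ = u * x⁻¹ * (z * x * z⁻¹) * (z * u * z⁻¹)⁻¹ * z := by group
      _ = _ := by rw [ex, hzu]; group
  have hv : (u * x⁻¹) * z * (u * x⁻¹)⁻¹ ∉ normalizer (M : Set G) := by
    intro h'
    rw [e0, Subgroup.mul_mem_cancel_right _ h.zN] at h'
    exact hx1 (h.sq hx (inv_eq_one.1
      (h.eq_one_of_conj_mem hu hc (M.inv_mem (M.mul_mem hx hx)) h')))
  have e1 : (u * x⁻¹) * y * (u * x⁻¹)⁻¹ = y⁻¹ := by
    calc (u * x⁻¹) * y * (u * x⁻¹)⁻¹ = u * x⁻¹ * (y * x) * u⁻¹ := by group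
      _ = u * y * u⁻¹ := by rw [hxy]; group
      _ = _ := ey
  have e2 : (u * x⁻¹) * z * (u * x⁻¹)⁻¹ * y⁻¹ * ((u * x⁻¹) * z * (u * x⁻¹)⁻¹)⁻¹ = y⁻¹ := by
    conv_lhs => rw [← e1]
    calc _ = (u * x⁻¹) * (z * y) * z⁻¹ * (u * x⁻¹)⁻¹ := by group
      _ = (u * x⁻¹) * y * (u * x⁻¹)⁻¹ := by rw [← hyc]; group
      _ = _ := e1
  have e3 := h.inv_of_conj_mem hv (by
    calc _ = (u * x⁻¹) * (z * z) * (u * x⁻¹)⁻¹ := by group
      _ = 1 := by rw [h.z2]; group) (Subgroup.inv_mem _ hy) (by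
    rw [e2]; exact Subgroup.inv_mem _ hy)
  rw [e2, inv_inv] at e3
  exact h.odd x hx hx1 y (by rw [← mul_inv_cancel y, e3]) hxy

/-- The doubly transitive case. -/
theorem caseA (h : Fu M z) (hN : normalizer (M : Set G) ≠ ⊤)
    (hA : ∀ u ∉ normalizer (M : Set G), ∀ v ∉ normalizer (M : Set G), u * z = z * u →
      v * z = z * v → u * v ∈ normalizer (M : Set G)) :
    ∃ (F : Type) (_ : Field F) (_ : Fintype F) (p : ℕ) (_ : Fact p.Prime) (_ : CharP F p),
      Fintype.card F = Nat.card M ∧ IsElementaryAbelian p M ∧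
      (Nonempty (G ≃* PGL(2, F)) ∨ (Fintype.card F % 4 = 1 ∧ Nonempty (G ≃* PSL(2, F)))) := by
  classical
  set N := normalizer (M : Set G) with hNdef
  obtain ⟨g0, hg0⟩ : ∃ g0, g0 ∉ N := by
    by_contra h'
    push Not at h'
    exact hN ((Subgroup.eq_top_iff' _).2 h')
  obtain ⟨-, -, -, -, u, hu, hc, -⟩ := h.exists_form hg0
  have hu2 := h.sq_of_comm hu hc
  have hui := inv_eq_of_sq hu2
  let a : G ⧸ N := ((1 : G) : G ⧸ N)
  let b : G ⧸ N := (u : G ⧸ N)
  have ha : ∀ g : G, g • a = a ↔ g ∈ N := fun g => by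
    simp only [a, Quotient.smul_coe, smul_eq_mul, mul_one, QuotientGroup.eq, Subgroup.inv_mem_iff]
  have hb : ∀ g : G, g • b = b ↔ u * g * u⁻¹ ∈ N := fun g => by
    simp only [b, Quotient.smul_coe, smul_eq_mul, QuotientGroup.eq]
    rw [← Subgroup.inv_mem_iff, hui]
    simp only [mul_inv_rev, inv_inv, hui, mul_assoc]
  have hab : a ≠ b := fun e => hu (by simpa [a, b, QuotientGroup.eq] using e)
  have horb : ∀ c : G ⧸ N, c ≠ a → ∃ x ∈ M, x • b = c := by
    intro c hc'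
    induction c using QuotientGroup.induction_on with
    | H g =>
    have hg : g ∉ N := fun h' => hc' (by simpa [a, QuotientGroup.eq] using h')
    obtain ⟨x, hx, y, hy, v, hv, hvc, rfl⟩ := h.exists_form hg
    refine ⟨x * y, M.mul_mem hx hy, ?_⟩
    simp only [b, Quotient.smul_coe, smul_eq_mul, QuotientGroup.eq]
    have : (x * y * u)⁻¹ * (x * (y * v * y⁻¹)) = u⁻¹ * v * y⁻¹ := by group
    rw [this, hui]
    exact N.mul_mem (hA u hu v hv hc hvc) (N.inv_mem (le_normalizer hy))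
  have hfree : ∀ x ∈ M, x • b = b → x = 1 := fun x hx e =>
    h.eq_one_of_conj_mem hu hc hx ((hb x).1 e)
  have hpair : ∀ {p q : G ⧸ N}, p ≠ q → ∃ g : G, g • a = p ∧ g • b = q := by
    intro p q hpq
    obtain ⟨k, hk⟩ := exists_smul_eq G a p
    obtain ⟨x, hx, e⟩ := horb (k⁻¹ • q) (fun e => hpq (by rw [← hk, ← e, smul_inv_smul]))
    exact ⟨k * x, by rw [mul_smul, (ha x).2 (le_normalizer hx), hk],
      by rw [mul_smul, e, smul_inv_smul]⟩
  have hthree0 : ∀ {y : G} {c : G ⧸ N}, c ≠ a → c ≠ b → y • a = a → y • b = b → y • c = c →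
      y = 1 := by
    intro y c hca hcb e1 e2 e3
    obtain ⟨x, hx, rfl⟩ := horb c hca
    have hx1 : x ≠ 1 := fun e => hcb (by rw [e, one_smul])
    have hxN := le_normalizer hx
    have hy := (ha y).1 e1
    have c1 := h.comm_of_conj_mem hu hc hy ((hb y).1 e2)
    have c2 := h.comm_of_conj_mem hu hc (y := x⁻¹ * y * x)
      (N.mul_mem (N.mul_mem (N.inv_mem hxN) hy) hxN)
      ((hb _).1 (by rw [mul_smul, mul_smul, e3, inv_smul_smul]))
    have c3 : x⁻¹ * (y * x * y⁻¹) = 1 := by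
      refine h.eq_one_of_comm (M.mul_mem (M.inv_mem hx) (conj_mem hy hx)) ?_
      have := (Commute.mul_left (show Commute _ z from c2) (Commute.inv_left (show Commute _ z from c1))).eq
      simpa only [mul_assoc] using this
    refine h.eq_one_of_comm_comm hu hc hy c1 hx hx1 ?_
    calc y * x = x * (x⁻¹ * (y * x * y⁻¹)) * y := by group
      _ = x * y := by rw [c3, mul_one]
  have hthree : ∀ {g : G} {p q r : G ⧸ N}, p ≠ q → q ≠ r → p ≠ r → g • p = p → g • q = q →
      g • r = r → g = 1 := by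
    intro g p q r h1 h2 h3 e1 e2 e3
    obtain ⟨k, rfl, rfl⟩ := hpair h1
    have := hthree0 (y := k⁻¹ * g * k) (c := k⁻¹ • r)
      (fun e => h3 (by rw [← e, smul_inv_smul])) (fun e => h2 (by rw [← e, smul_inv_smul]))
      (by rw [mul_smul, mul_smul, e1, inv_smul_smul]) (by rw [mul_smul, mul_smul, e2, inv_smul_smul])
      (by rw [mul_smul, mul_smul, smul_inv_smul, e3])
    calc g = k * (k⁻¹ * g * k) * k⁻¹ := by group
      _ = 1 := by rw [this]; group
  obtain ⟨⟨x, hx⟩, hx1⟩ := ne_bot_iff_exists_ne_one.1 h.ne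
  have hx1' : x ≠ 1 := fun e => hx1 (Subtype.ext e)
  have hxa : x • b ≠ a := fun e => hab (by
    rw [← (ha x).2 (le_normalizer hx), smul_left_cancel_iff] at e; exact e.symm)
  have hZ : Z2 G (G ⧸ N) := by
    refine ⟨fun h1 h2 => ?_, hthree, fun e => hthree0 hxa (fun e' => hx1' (hfree x hx e'))
      (e _) (e _) (e _)⟩
    obtain ⟨k, rfl, rfl⟩ := hpair h1
    obtain ⟨l, rfl, rfl⟩ := hpair h2
    exact ⟨l * k⁻¹, by rw [mul_smul, inv_smul_smul], by rw [mul_smul, inv_smul_smul]⟩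
  have hK : IsNKer G a M := by
    refine ⟨isKernel_of_regular (fun x hx => (ha x).2 (le_normalizer hx)) (fun c d h1 h2 => ?_)
      hab.symm, fun g hg x hx => conj_mem ((ha g).1 hg) hx⟩
    obtain ⟨s, hs, rfl⟩ := horb c h1
    obtain ⟨t, ht, rfl⟩ := horb d h2
    refine ⟨⟨t * s⁻¹, M.mul_mem ht (M.inv_mem hs)⟩, by simp [mul_smul], fun w hw => ?_⟩
    have := hfree (t⁻¹ * w * s) (M.mul_mem (M.mul_mem (M.inv_mem ht) w.2) hs)
      (by rw [mul_smul, mul_smul, hw, inv_smul_smul])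
    refine Subtype.ext ?_
    calc (w : G) = t * (t⁻¹ * w * s) * s⁻¹ := by group
      _ = t * s⁻¹ := by rw [this, mul_one]
  have hcard := hK.card
  have hM2 : 1 < Nat.card M := (one_lt_card_iff_ne_bot M).2 h.ne
  have h3 : 3 ≤ Nat.card (G ⧸ N) := by omega
  have hsw : ∀ s : G, s • a = b → s • b = a → s * s = 1 := by
    intro s e1 e2
    have hua : u • a = b := by simp [a, b]
    have hub : u • b = a := by simp [a, b, hu2]
    have y1 : (s * u) • a = a := by rw [mul_smul, hua, e2]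
    have y2 : (s * u) • b = b := by rw [mul_smul, hub, e1]
    have e := h.inv_of_conj_mem hu hu2 ((ha _).1 y1) ((hb _).1 y2)
    calc s * s = u⁻¹ * (u * (s * u) * u⁻¹) * s := by group
      _ = (u * u)⁻¹ := by rw [e]; group
      _ = 1 := by rw [hu2, inv_one]
  have hev : Even (Nat.card (stabilizer G a ⊓ stabilizer G b : Subgroup G)) := by
    have hz : z ∈ (stabilizer G a ⊓ stabilizer G b : Subgroup G) :=
      ⟨(ha z).2 h.zN, (hb z).2 (by rw [hc, mul_inv_cancel_right]; exact h.zN)⟩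
    have := Subgroup.orderOf_dvd_natCard _ hz
    rw [orderOf_eq_prime (p := 2) (by rw [pow_two, h.z2]) h.z1] at this
    exact even_iff_two_dvd.2 this
  have hle := hZ.card_sub_two_le_of_even hab hev
  obtain ⟨p, f, hp, hexp, hΩ⟩ := hZ.kernel_elementary_of_large hK hab h3 hle
  have hea : IsElementaryAbelian p M :=
    ⟨⟨⟨fun x y => Subtype.ext (h.comm x.2 y.2)⟩⟩, hexp⟩
  have hchar : ∀ (F : Type) [Field F] [Fintype F], Nat.card (G ⧸ N) = Fintype.card F + 1 →
      CharP F p := by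
    intro F _ _ hF
    obtain ⟨r, hr, n, hn⟩ := FiniteField.card' F
    have : r = p := by
      have h1 : r ∣ p ^ f := by
        have : p ^ f = r ^ (n : ℕ) := by omega
        rw [this]; exact dvd_pow_self r n.ne_zero
      exact (Nat.prime_dvd_prime_iff_eq hn.1 hp).1 (hn.1.dvd_of_dvd_pow h1)
    exact this ▸ hr
  obtain ⟨k, hk⟩ := hZ.card_stab2_dvd_card_sub_two hab
  have hk2 : k = 1 ∨ k = 2 := by
    have hpos : 0 < Nat.card (stabilizer G a ⊓ stabilizer G b : Subgroup G) := Nat.card_pos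
    have h1 : k ≤ 2 := by
      by_contra h'
      have : Nat.card (stabilizer G a ⊓ stabilizer G b : Subgroup G) * 3 ≤
        Nat.card (stabilizer G a ⊓ stabilizer G b : Subgroup G) * k := Nat.mul_le_mul_left _ (by omega)
      omega
    have h2 : k ≠ 0 := by rintro rfl; omega
    omega
  rcases hk2 with rfl | rfl
  · obtain ⟨F, _, _, hF, e⟩ := hZ.exists_pgl hab h3 (hZ.three_of_card_stab2 hab (by omega)).1
      (hZ.stab2_comm_of_swaps_invol hab hsw) (fun s t h1 h2 h3 h4 =>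
        Z2.conj_eq_inv_of_swaps_invol hsw h1 h2 (by rw [mul_smul, h3, h3]) (by rw [mul_smul, h4, h4]))
    exact ⟨F, inferInstance, inferInstance, p, ⟨hp⟩, hchar F hF, by omega, hea, Or.inl e⟩
  · obtain ⟨F, _, _, hF, e⟩ := hZ.exists_psl hab h3 hsw (by omega)
    obtain ⟨r, hr⟩ := hev
    exact ⟨F, inferInstance, inferInstance, p, ⟨hp⟩, hchar F hF, by omega, hea,
      Or.inr ⟨by omega, e⟩⟩

end Fu

end Cfsg.Lib.TIInv
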