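import Mathlib
import Cfsg.Agent.Perm.OrbChar
import Cfsg.Agent.Perm.UnitMat
import Cfsg.Agent.Class.FastField

/-!
# The degrees 21 and 28 of the unitary group of order 6048
-/

namespace Cfsg.Lib.Perm.U33

open Matrix Cfsg.Lib.Class

/-- The field automorphism of order two. -/
def σ : T9 →+* T9 where
  toFun x := x ^ 3
  map_one' := by decide +kernel
  map_mul' := by decide +kernel
  map_zero' := by decide +kernel
  map_add' := by decide +kernel

theorem σ_eq (x : T9) : σ x = x ^ 3 := rfl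

theorem σσ (x : T9) : σ (σ x) = x := by revert x; decide +kernel

/-- The column space. -/
abbrev V3 : Type := Fin 3 → T9

/-- The form. -/
def hf (u v : V3) : T9 := u 0 * σ (v 0) + u 1 * σ (v 1) + u 2 * σ (v 2)

theorem hf_eq (u v : V3) : hermForm 3 T9 3 u v = hf u v := by
  simp [hermForm, Fin.sum_univ_three, hf, σ_eq]

theorem hf_smul_left (c : T9) (u v : V3) : hf (c • u) v = c * hf u v := by
  simp only [hf, Pi.smul_apply, smul_eq_mul]; ring

theorem hf_smul_right (c : T9) (u v : V3) : hf u (c • v) = σ c * hf u v := by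
  simp only [hf, Pi.smul_apply, smul_eq_mul, map_mul]; ring

theorem hf_symm (u v : V3) : hf v u = σ (hf u v) := by
  simp only [hf, map_add, map_mul, σσ]; ring

/-- Nonzero isotropic vectors. -/
def Iso (x : V3) : Prop := x ≠ 0 ∧ hf x x = 0

instance instDecIso (x : V3) : Decidable (Iso x) := by unfold Iso; infer_instance

/-- The group. -/
abbrev G : Type := SU 3 T9 3

theorem hf_su (g : G) (u v : V3) :
    hf (suToMat 3 T9 3 g *ᵥ u) (suToMat 3 T9 3 g *ᵥ v) = hf u v := by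
  rw [← hf_eq, ← hf_eq]; exact g.2 u v

/-- The set of nonzero isotropic vectors. -/
abbrev X : Type := {x : V3 // Iso x}

instance instMulActionG : MulAction G X where
  smul g x := ⟨suToMat 3 T9 3 g *ᵥ x.1, fun h => x.2.1 (by
    have := congrArg (suToMat 3 T9 3 g⁻¹ *ᵥ ·) h
    simpa [Matrix.mulVec_mulVec, ← map_mul] using this), by rw [hf_su, x.2.2]⟩
  one_smul x := Subtype.ext (by change suToMat 3 T9 3 1 *ᵥ x.1 = _; simp)
  mul_smul g h x := Subtype.ext (by
    change suToMat 3 T9 3 (g * h) *ᵥ x.1 = suToMat 3 T9 3 g *ᵥ (suToMat 3 T9 3 h *ᵥ x.1)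
    simp [Matrix.mulVec_mulVec])

theorem coe_smul (g : G) (x : X) : (g • x).1 = suToMat 3 T9 3 g *ᵥ x.1 := rfl

instance instMulActionC : MulAction T9ˣ X where
  smul c x := ⟨(c : T9) • x.1, smul_ne_zero c.ne_zero x.2.1, by
    rw [hf_smul_left, hf_smul_right, x.2.2]; simp⟩
  one_smul x := Subtype.ext (one_smul T9 x.1)
  mul_smul c d x := Subtype.ext (mul_smul (c : T9) (d : T9) x.1)

theorem coe_usmul (c : T9ˣ) (x : X) : (c • x).1 = (c : T9) • x.1 := rfl

theorem smul_usmul (g : G) (c : T9ˣ) (x : X) : g • c • x = c • g • x :=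
  Subtype.ext (Matrix.mulVec_smul (suToMat 3 T9 3 g) (c : T9) x.1)

/-- First base vector. -/
def x₀ : X := ⟨![1, T9.c 4, 0], by decide +kernel⟩

/-- Second base vector. -/
def y₀ : X := ⟨![0, T9.c 8, 1], by decide +kernel⟩

theorem hf₀ : hf x₀.1 y₀.1 = 1 := by decide +kernel

theorem exists_pair {x y : X} (h : hf x.1 y.1 = 1) : ∃ g : G, g • x₀ = x ∧ g • y₀ = y := by
  obtain ⟨x, hx0, hx⟩ := x
  obtain ⟨y, hy0, hy⟩ := y
  change hf x y = 1 at h
  have h' : hf y x = 1 := by rw [hf_symm, h, map_one]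
  suffices H : ∃ g : G, suToMat 3 T9 3 g *ᵥ x₀.1 = x ∧ suToMat 3 T9 3 g *ᵥ y₀.1 = y from
    H.imp fun g hg => ⟨Subtype.ext hg.1, Subtype.ext hg.2⟩
  let M : Matrix (Fin 3) (Fin 3) T9 :=
    !![x 0, y 0, σ (x 1 * y 2 - x 2 * y 1); x 1, y 1, σ (x 2 * y 0 - x 0 * y 2);
      x 2, y 2, σ (x 0 * y 1 - x 1 * y 0)]
  let N : Matrix (Fin 3) (Fin 3) T9 :=
    !![0, T9.c 5, 1; 1, T9.c 7, 0; T9.c 8, 1, T9.c 4]
  simp only [hf] at h h' hx hy
  have hz : σ (x 1 * y 2 - x 2 * y 1) * (x 1 * y 2 - x 2 * y 1) +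
      σ (x 2 * y 0 - x 0 * y 2) * (x 2 * y 0 - x 0 * y 2) +
      σ (x 0 * y 1 - x 1 * y 0) * (x 0 * y 1 - x 1 * y 0) = -1 := by
    simp only [map_sub, map_mul]
    linear_combination (y 0 * σ (y 0) + y 1 * σ (y 1) + y 2 * σ (y 2)) * hx -
      (x 0 * σ (y 0) + x 1 * σ (y 1) + x 2 * σ (y 2)) * h' - h
  have hJ : Mᵀ * M.map σ = !![0, 1, 0; 1, 0, 0; 0, 0, -1] := by
    ext1 i j
    fin_cases i <;> fin_cases j <;>
      simp only [M, Matrix.mul_apply, Fin.sum_univ_three, Matrix.transpose_apply,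
        Matrix.map_apply] <;> simp [σσ, -map_sub, -map_mul]
    exacts [hx, h, by ring, h', hy, by ring, by simp only [map_sub, map_mul]; ring,
      by simp only [map_sub, map_mul]; ring, hz]
  have hd : (M * N).det = 1 := by
    have h1 : M.det = -1 := by
      rw [Matrix.det_fin_three]
      simp [M, -map_sub, -map_mul]
      linear_combination hz
    have h2 : N.det = -1 := by rw [Matrix.det_fin_three]; decide +kernel
    rw [Matrix.det_mul, h1, h2]; simp
  refine ⟨⟨⟨M * N, hd⟩, (mem_SU_iff_mul σ σ_eq _).2 ?_⟩, ?_, ?_⟩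
  · change (M * N)ᵀ * (M * N).map σ = 1
    rw [Matrix.transpose_mul, Matrix.map_mul, mul_assoc, ← mul_assoc Mᵀ, hJ]
    decide +kernel
  · change (M * N) *ᵥ x₀.1 = x
    rw [← Matrix.mulVec_mulVec, show N *ᵥ x₀.1 = Pi.single 0 1 by decide +kernel]
    ext1 i
    fin_cases i <;> simp [M]
  · change (M * N) *ᵥ y₀.1 = y
    rw [← Matrix.mulVec_mulVec, show N *ᵥ y₀.1 = Pi.single 1 1 by decide +kernel]
    ext1 i
    fin_cases i <;> simp [M]

theorem exists_usmul {x y : X} (h : hf x.1 y.1 ≠ 0) :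
    ∃ (c : T9ˣ) (y' : X), hf x.1 y'.1 = 1 ∧ y = c • y' := by
  have h1 : σ (hf x.1 y.1) ≠ 0 := (map_ne_zero σ).2 h
  refine ⟨Units.mk0 _ h1, (Units.mk0 _ h1)⁻¹ • y, ?_, (smul_inv_smul _ _).symm⟩
  rw [coe_usmul, hf_smul_right]
  simp [σσ, h]

theorem perp {y : X} (h : hf y.1 x₀.1 = 0) : ∃ c : T9ˣ, y = c • x₀ := by
  have k : ∀ a b c : T9, hf ![a, b, c] x₀.1 = 0 → Iso ![a, b, c] →
      a ≠ 0 ∧ ![a, b, c] = a • x₀.1 := by decide +kernel
  have e : y.1 = ![y.1 0, y.1 1, y.1 2] := by ext1 i; fin_cases i <;> rfl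
  obtain ⟨h1, h2⟩ := k _ _ _ (e ▸ h) (e ▸ y.2)
  exact ⟨Units.mk0 _ h1, Subtype.ext (e.trans h2)⟩

theorem exists_smul (x : X) : ∃ g : G, g • x₀ = x := by
  have : ∃ y : X, hf x.1 y.1 ≠ 0 := by
    by_cases h : hf x.1 x₀.1 = 0
    · obtain ⟨c, rfl⟩ := perp h
      exact ⟨y₀, by rw [coe_usmul, hf_smul_left, hf₀]; simp⟩
    · exact ⟨x₀, h⟩
  obtain ⟨y, hy⟩ := this
  obtain ⟨c, y', h, -⟩ := exists_usmul hy
  obtain ⟨g, hg, -⟩ := exists_pair h
  exact ⟨g, hg⟩

variable {l : T9ˣ →* ℂ} {K L : Matrix X X ℂ}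

/-- Invariance under the group. -/
def Inv (K : Matrix X X ℂ) : Prop := ∀ (g : G) x y, K (g • x) (g • y) = K x y

/-- Equivariance in the first variable. -/
def EqL (l : T9ˣ →* ℂ) (K : Matrix X X ℂ) : Prop := ∀ (c : T9ˣ) x y, K (c • x) y = l c⁻¹ * K x y

/-- Equivariance in the second variable. -/
def EqR (l : T9ˣ →* ℂ) (K : Matrix X X ℂ) : Prop := ∀ (c : T9ˣ) x y, K x (c • y) = l c * K x y

theorem Inv.mul (hK : Inv K) (hL : Inv L) : Inv (K * L) := fun g x y => by
  rw [Matrix.mul_apply, Matrix.mul_apply, ← Equiv.sum_comp (MulAction.toPerm g)]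
  simp only [MulAction.toPerm_apply, hK g, hL g]

theorem EqL.mul (hK : EqL l K) (L : Matrix X X ℂ) : EqL l (K * L) := fun c x y => by
  simp only [Matrix.mul_apply, hK c, Finset.mul_sum, mul_assoc]

theorem EqR.mul (hL : EqR l L) (K : Matrix X X ℂ) : EqR l (K * L) := fun c x y => by
  simp only [Matrix.mul_apply, hL c, Finset.mul_sum, mul_left_comm]

theorem Inv.lin (hK : Inv K) (hL : Inv L) (a b : ℂ) : Inv (a • K + b • L) := fun g x y => by
  simp [hK g, hL g]

theorem EqR.lin (hK : EqR l K) (hL : EqR l L) (a b : ℂ) : EqR l (a • K + b • L) :=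
  fun c x y => by simp [hK c, hL c]; ring

theorem ext₀ (hK : Inv K) (hL : Inv L) (hK' : EqR l K) (hL' : EqR l L) (h1 : K x₀ x₀ = L x₀ x₀)
    (h2 : K x₀ y₀ = L x₀ y₀) : K = L := by
  ext x y
  obtain ⟨g, rfl⟩ := exists_smul x
  obtain ⟨y, rfl⟩ : ∃ y', y = g • y' := ⟨g⁻¹ • y, by simp⟩
  rw [hK, hL]
  by_cases h : hf x₀.1 y.1 = 0
  · obtain ⟨c, rfl⟩ := perp (y := y) (by rw [hf_symm, h, map_zero])
    rw [hK', hL', h1]
  · obtain ⟨c, y, h', rfl⟩ := exists_usmul h
    obtain ⟨g, hg, rfl⟩ := exists_pair h'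
    rw [hK', hL', ← hg, hK, hL, h2]

/-- Eight times the projection onto the `l`-equivariant functions. -/
noncomputable def D (l : T9ˣ →* ℂ) : Matrix X X ℂ :=
  fun x y => ∑ c : T9ˣ, if c • x = y then l c else 0

theorem inv_D : Inv (D l) := fun g x y => by simp only [D, ← smul_usmul, smul_left_cancel_iff]

theorem eqR_D : EqR l (D l) := fun c x y => by
  rw [D, D, ← Equiv.sum_comp (Equiv.mulLeft c), Finset.mul_sum]
  simp [mul_smul]

theorem eqL_D : EqL l (D l) := fun c x y => by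
  rw [D, D, ← Equiv.sum_comp (Equiv.mulRight c⁻¹), Finset.mul_sum]
  simp [mul_smul, mul_comm]

theorem card_units : Fintype.card T9ˣ = 8 := by rw [Fintype.card_units, T9.card]; rfl

theorem D_mul (hK : EqL l K) : D l * K = (8 : ℂ) • K := by
  ext x y
  simp only [Matrix.mul_apply, D, Finset.sum_mul, ite_mul, zero_mul]
  rw [Finset.sum_comm]
  simp [hK _ x, ← mul_assoc, ← map_mul, card_units, -map_inv, -map_units_inv]

theorem mul_D (hK : EqR l K) : K * D l = (8 : ℂ) • K := by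
  ext x y
  simp only [Matrix.mul_apply, D, Finset.mul_sum, mul_ite, mul_zero, smul_eq_iff_eq_inv_smul]
  rw [Finset.sum_comm]
  simp [hK _ x, mul_right_comm _ (K x y), ← map_mul, card_units, -map_inv,
    -map_units_inv]

theorem D_self (x : X) : D l x x = 1 := by
  rw [D, Finset.sum_eq_single 1 (fun c _ hc => if_neg fun h => hc (Units.ext ?_)) (by simp)]
  · simp
  · exact smul_left_injective T9 x.2.1 ((congrArg Subtype.val h).trans (one_smul _ _).symm)

theorem D₀ : D l x₀ y₀ = 0 := Finset.sum_eq_zero fun c _ => if_neg fun h => by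
  have := hf₀
  rw [← h, coe_usmul, hf_smul_right, x₀.2.2] at this
  simp at this

theorem sum_X (f : V3 → ℤ) : ∑ x : X, f x.1 =
    ∑ a, ∑ b, ∑ c, if Iso ![a, b, c] then f ![a, b, c] else 0 := by
  let e : T9 × T9 × T9 ≃ V3 :=
    { toFun := fun p => ![p.1, p.2.1, p.2.2]
      invFun := fun x => (x 0, x 1, x 2)
      left_inv := fun _ => rfl
      right_inv := fun x => by ext1 i; fin_cases i <;> rfl }
  rw [← Finset.sum_subtype (Finset.univ.filter Iso) (by simp), Finset.sum_filter,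
    ← Equiv.sum_comp e]
  simp only [Fintype.sum_prod_type]
  rfl

theorem trace_D : (D l).trace = 224 := by
  have h : ∑ x : X, (1 : ℤ) = 224 := (sum_X fun _ => 1).trans (by decide +kernel)
  simp only [Matrix.trace, Matrix.diag, D_self]
  exact_mod_cast h

theorem mem28 : 28 ∈ charDegrees G := by
  obtain ⟨χ, hχ⟩ := CommGroup.exists_apply_ne_one_of_hasEnoughRootsOfUnity T9ˣ ℂ (a := -1)
    (by decide +kernel)
  let l : T9ˣ →* ℂ := (Units.coeHom ℂ).comp χ
  refine mem_charDegrees_of_idem ((1 / 8 : ℂ) • D l) (fun g x y => by simp [inv_D g]) ?_ ?_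
    (by norm_num) fun K hK h => ⟨8 * K x₀ x₀, ?_⟩
  · rw [smul_mul_assoc, mul_smul_comm, D_mul eqL_D, smul_smul, smul_smul]; norm_num
  · rw [Matrix.trace_smul, trace_D]; norm_num
  · rw [mul_smul_comm, smul_mul_assoc, smul_mul_assoc, smul_smul] at h
    have hR : EqR l K := fun c x y => by
      rw [← h]; simp [(eqR_D (l := l)).mul _ c x y, mul_left_comm]
    have hL : EqL l K := fun c x y => by
      rw [← h]; simp [((eqL_D (l := l)).mul K).mul _ c x y, mul_left_comm]
    refine ext₀ hK (fun g x y => by simp [inv_D g]) hR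
      (fun c x y => by simp [eqR_D c]; ring) (by simp [D_self]; ring) ?_
    let c : T9ˣ := Units.mk0 (T9.c 4) (by decide +kernel)
    obtain ⟨g, h1, h2⟩ := exists_pair (x := c • x₀) (y := (c ^ 5) • y₀) (by decide +kernel)
    have h3 := hK g x₀ y₀
    rw [h1, h2, hL, hR, ← mul_assoc, ← map_mul, show c⁻¹ * c ^ 5 = -1 by decide +kernel] at h3
    have h4 : l (-1) - 1 ≠ 0 := fun e => hχ (Units.ext (sub_eq_zero.1 e))
    simp only [Matrix.smul_apply, D₀, smul_zero]
    exact mul_left_cancel₀ h4 (by linear_combination h3)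

/-- The quadratic character. -/
def η (x : T9) : ℤ := ([0, 1, 1, 1, -1, -1, 1, -1, -1] : List ℤ).getD (Fin.val x) 0

theorem η_mul : ∀ x y, η (x * y) = η x * η y := by decide +kernel

/-- The quadratic character on units. -/
def ηu : T9ˣ →* ℂ where
  toFun c := η c
  map_one' := by simp [show η 1 = 1 by decide +kernel]
  map_mul' a b := by simp [η_mul]

/-- The matrix of the two-graph. -/
def T : Matrix X X ℂ := fun x y => η (hf x.1 y.1)

theorem inv_T : Inv T := fun g x y => by simp only [T, coe_smul, hf_su]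

theorem eqR_T : EqR ηu T := fun c x y => by
  have : ∀ x, η (σ x) = η x := by decide +kernel
  simp [T, coe_usmul, hf_smul_right, η_mul, this, ηu]

theorem eqL_T : EqL ηu T := fun c x y => by
  have : ∀ x, η x⁻¹ = η x := by decide +kernel
  simp [T, coe_usmul, hf_smul_left, η_mul, this, ηu]

theorem T_self (x : X) : T x x = 0 := by simp [T, x.2.2, show η 0 = 0 by decide +kernel]

theorem T₀ : T x₀ y₀ = 1 := by simp [T, hf₀, show η 1 = 1 by decide +kernel]

theorem T_mul_T : T * T = (216 : ℂ) • D ηu + (-48 : ℂ) • T := by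
  have h1 : ∑ z : X, η (hf x₀.1 z.1) * η (hf z.1 x₀.1) = 216 :=
    (sum_X fun z => η (hf x₀.1 z) * η (hf z x₀.1)).trans (by decide +kernel)
  have h2 : ∑ z : X, η (hf x₀.1 z.1) * η (hf z.1 y₀.1) = -48 :=
    (sum_X fun z => η (hf x₀.1 z) * η (hf z y₀.1)).trans (by decide +kernel)
  refine ext₀ (inv_T.mul inv_T) (inv_D.lin inv_T _ _) (eqR_T.mul _) (eqR_D.lin eqR_T _ _) ?_ ?_
  · simp only [Matrix.add_apply, Matrix.smul_apply, D_self, T_self, smul_eq_mul, mul_one, mul_zero,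
      add_zero, Matrix.mul_apply, T]
    exact_mod_cast h1
  · simp only [Matrix.add_apply, Matrix.smul_apply, D₀, T₀, smul_eq_mul, mul_one, mul_zero,
      zero_add, Matrix.mul_apply]
    simp only [T]
    exact_mod_cast h2

theorem mem21 : 21 ∈ charDegrees G := by
  set E := (3 / 32 : ℂ) • D ηu + (1 / 96 : ℂ) • T with hE
  have hED : E * D ηu = (8 : ℂ) • E := mul_D (eqR_D.lin eqR_T _ _)
  have hET : E * T = (24 : ℂ) • E := by
    rw [hE, add_mul, smul_mul_assoc, smul_mul_assoc, D_mul eqL_T, T_mul_T]; module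
  have hEE : E * E = E := by
    conv_lhs => rw [hE, mul_add, ← hE, mul_smul_comm, mul_smul_comm, hED, hET]
    module
  refine mem_charDegrees_of_idem E (inv_D.lin inv_T _ _) hEE ?_ (by norm_num) fun K hK h =>
    ⟨8 * K x₀ x₀ + 24 * K x₀ y₀, ?_⟩
  · rw [hE, Matrix.trace_add, Matrix.trace_smul, Matrix.trace_smul, trace_D]
    simp [Matrix.trace, T_self]; norm_num
  · have h1 : K = K x₀ x₀ • D ηu + K x₀ y₀ • T :=
      ext₀ hK (inv_D.lin inv_T _ _) (h ▸ (eqR_D.lin eqR_T _ _).mul _) (eqR_D.lin eqR_T _ _)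
        (by simp [D_self, T_self]) (by simp [D₀, T₀])
    generalize K x₀ x₀ = a, K x₀ y₀ = b at h1
    clear_value E
    rw [← h, h1, mul_add, mul_smul_comm, mul_smul_comm, hED, hET, add_mul]
    simp only [smul_mul_assoc, hEE]
    module

end Cfsg.Lib.Perm.U33
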